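/-
Standard subgroups of type `L_3(4)` whose centralizer has 2-rank one: definitions.
-/
import Cfsg.Agent.Grp.SylowIn
import Cfsg.Prelude.Def_Local
import Cfsg.Prelude.Def_CaseTheorems
import Mathlib.Algebra.QuadraticAlgebra.Basic
import Mathlib.GroupTheory.SpecificGroups.Dihedral
import Mathlib.LinearAlgebra.Matrix.ProjectiveSpecialLinearGroup

set_option autoImplicit false

universe u

namespace CL.L34
open Subgroup CL.Grp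

/-- the field with four elements -/
abbrev F4 : Type := QuadraticAlgebra (ZMod 2) 1 1

instance : Fintype F4 := Fintype.ofEquiv _ (QuadraticAlgebra.equivProd (1 : ZMod 2) 1).symm

/-- a primitive cube root of unity -/
def om : F4 := ⟨0, 1⟩

/-- `F4[x] / (x ^ 2 + x + ν)` -/
abbrev R16 (ν : F4) : Type := QuadraticAlgebra F4 ν 1

instance (ν : F4) : Fintype (R16 ν) := Fintype.ofEquiv _ (QuadraticAlgebra.equivProd ν 1).symm

/-- the Heisenberg group -/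
@[ext] structure Heis (R : Type) where
  (a b c : R)
deriving DecidableEq

namespace Heis
variable {R R' : Type} [CommRing R] [CommRing R']

instance : Group (Heis R) where
  mul p q := ⟨p.a + q.a, p.b + q.b, p.c + q.c + p.a * q.b⟩
  one := ⟨0, 0, 0⟩
  inv p := ⟨-p.a, -p.b, p.a * p.b - p.c⟩
  mul_assoc p q r := Heis.ext (add_assoc _ _ _) (add_assoc _ _ _) (by
    show p.c + q.c + p.a * q.b + r.c + (p.a + q.a) * r.b = p.c + (q.c + r.c + q.a * r.b) + p.a * (q.b + r.b)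
    ring)
  one_mul p := Heis.ext (zero_add _) (zero_add _) (by show 0 + p.c + 0 * p.b = p.c; ring)
  mul_one p := Heis.ext (add_zero _) (add_zero _) (by show p.c + 0 + p.a * 0 = p.c; ring)
  inv_mul_cancel p := Heis.ext (neg_add_cancel _) (neg_add_cancel _) (by
    show p.a * p.b - p.c + p.c + -p.a * p.b = 0; ring)

theorem mul_def (p q : Heis R) : p * q = ⟨p.a + q.a, p.b + q.b, p.c + q.c + p.a * q.b⟩ := rfl
theorem one_def : (1 : Heis R) = ⟨0, 0, 0⟩ := rfl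
theorem inv_def (p : Heis R) : p⁻¹ = ⟨-p.a, -p.b, p.a * p.b - p.c⟩ := rfl
@[simp] theorem mul_a (p q : Heis R) : (p * q).a = p.a + q.a := rfl
@[simp] theorem mul_b (p q : Heis R) : (p * q).b = p.b + q.b := rfl
@[simp] theorem mul_c (p q : Heis R) : (p * q).c = p.c + q.c + p.a * q.b := rfl
@[simp] theorem one_a : (1 : Heis R).a = 0 := rfl
@[simp] theorem one_b : (1 : Heis R).b = 0 := rfl
@[simp] theorem one_c : (1 : Heis R).c = 0 := rfl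
@[simp] theorem inv_a (p : Heis R) : p⁻¹.a = -p.a := rfl
@[simp] theorem inv_b (p : Heis R) : p⁻¹.b = -p.b := rfl
@[simp] theorem inv_c (p : Heis R) : p⁻¹.c = p.a * p.b - p.c := rfl

/-- coordinates -/
def equivProd (R : Type) : Heis R ≃ R × R × R where
  toFun p := (p.a, p.b, p.c)
  invFun x := ⟨x.1, x.2.1, x.2.2⟩
  left_inv _ := rfl
  right_inv _ := rfl

instance {S : Type} [Fintype S] : Fintype (Heis S) := Fintype.ofEquiv _ (equivProd S).symm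

theorem card (S : Type) : Nat.card (Heis S) = Nat.card S ^ 3 := by
  rw [Nat.card_congr (equivProd S), Nat.card_prod, Nat.card_prod]; ring

/-- the map induced by a ring homomorphism -/
def map (f : R →+* R') : Heis R →* Heis R' where
  toFun p := ⟨f p.a, f p.b, f p.c⟩
  map_one' := by simp [one_def]
  map_mul' p q := by simp [mul_def]

theorem map_apply (f : R →+* R') (p : Heis R) : map f p = ⟨f p.a, f p.b, f p.c⟩ := rfl

end Heis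

theorem card_F4 : Nat.card F4 = 4 := by rw [Nat.card_eq_fintype_card]; rfl
theorem card_R16 (ν : F4) : Nat.card (R16 ν) = 16 := by
  rw [Nat.card_congr (QuadraticAlgebra.equivProd ν 1), Nat.card_prod, card_F4]

/-- diagonal automorphisms -/
def dg (l m : F4) (p : Heis F4) : Heis F4 := ⟨l * p.a, m * p.b, l * m * p.c⟩
/-- the field automorphism -/
def fr (p : Heis F4) : Heis F4 := ⟨p.a * p.a, p.b * p.b, p.c * p.c⟩
/-- the graph automorphism -/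
def gr : Heis F4 →* Heis F4 where
  toFun p := ⟨p.b, p.a, p.c + p.a * p.b⟩
  map_one' := by decide +kernel
  map_mul' := by decide +kernel
theorem gr_apply (p : Heis F4) : gr p = ⟨p.b, p.a, p.c + p.a * p.b⟩ := rfl
/-- field and graph automorphisms -/
def th (i j : Bool) (p : Heis F4) : Heis F4 := cond j (gr (cond i (fr p) p)) (cond i (fr p) p)

variable {G : Type u} [Group G]

/-- `n` acts on `T` as `f` -/
def Act (ι : Heis F4 →* G) (n : G) (f : Heis F4 → Heis F4) : Prop := ∀ p, n * ι p * n⁻¹ = ι (f p)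

/-- The model: `L = L_3(4)` in its automorphism group `Γ`, with `S` a Sylow 2-subgroup. -/
structure Mod {Γ : Type} [Group Γ] (ι : Heis F4 →* Γ) (L S : Subgroup Γ) (h : Γ) : Prop where
  fin : Finite Γ
  nor : L.Normal
  cen : ∀ γ : Γ, (∀ l ∈ L, l * γ = γ * l) → γ = 1
  aut : ∀ α : MulAut L, ∃ γ : Γ, ∀ l : L, (α l : Γ) = γ * l * γ⁻¹
  iso : ∀ (F : Type) [Field F] [Fintype F], Fintype.card F = 4 →
    Nonempty (L ≃* Matrix.ProjectiveSpecialLinearGroup (Fin 3) F)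
  inj : Function.Injective ι
  sT : IsSylowIn 2 ι.range L
  hL : h ∈ L
  h3 : h ^ 3 = 1
  ah : Act ι h (dg om om)
  cls : ∀ l ∈ L, l * l = 1 → l ≠ 1 → ∃ m ∈ L, m * l * m⁻¹ = ι ⟨0, 0, 1⟩
  cA : ∀ n : Γ, (∀ a c, n * ι ⟨a, 0, c⟩ = ι ⟨a, 0, c⟩ * n) → ∃ a c, ι ⟨a, 0, c⟩ * n = 1
  cB : ∀ n : Γ, (∀ b c, n * ι ⟨0, b, c⟩ = ι ⟨0, b, c⟩ * n) → ∃ b c, ι ⟨0, b, c⟩ * n = 1
  cT : ∀ n : Γ, (∀ p, ∃ c, n * ι p * n⁻¹ = ι (p * ⟨0, 0, c⟩)) → ∃ p, ι p * n = 1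
  mA : ∃ m ∈ L, (∀ c, m * ι ⟨0, 0, c⟩ * m⁻¹ = ι ⟨c, 0, 0⟩) ∧ ∀ a c, ∃ p, ι ⟨a, 0, c⟩ = m * ι p * m⁻¹
  mB : ∃ m ∈ L, (∀ c, m * ι ⟨0, 0, c⟩ * m⁻¹ = ι ⟨0, c, 0⟩) ∧ ∀ b c, ∃ p, ι ⟨0, b, c⟩ = m * ι p * m⁻¹
  lam : ∃ lam : Γ →* DihedralGroup 6, ∀ γ, lam γ = 1 ↔ γ ∈ L
  sS : IsSylowIn 2 S ⊤
  TS : ∀ p, ι p ∈ S
  act : ∀ s ∈ S, ∃ p i j, Act ι (ι p * s) (th i j) ∧ (i = false → j = false → ι p * s = 1)

/-- The standard subgroup `L`, `T = ι.range` Sylow in `L`, `t` an involution of `K = C(L)`, `S` Sylow in `C(t)`. -/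
structure Loc (ι : Heis F4 →* G) (L S : Subgroup G) (t h : G) : Prop where
  inj : Function.Injective ι
  mem : ∀ p, ι p ∈ L
  tK : t ∈ centralizer (L : Set G)
  tt : t * t = 1
  t1 : t ≠ 1
  KT : ∀ p, ι p ∈ centralizer (L : Set G) → p = 1
  hL : h ∈ L
  ho : Odd (orderOf h)
  h3 : h ^ 3 ∈ centralizer (L : Set G)
  ah : Act ι h (dg om om)
  tight : ∀ g : G, ∀ x ∈ centralizer (L : Set G), x * x = 1 → x ≠ 1 → g * x * g⁻¹ ∈ centralizer (L : Set G) →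
    g ∈ normalizer (L : Set G)
  rk : ∀ x ∈ centralizer (L : Set G), x * x = 1 → x * t = t * x → x = 1 ∨ x = t
  split : ∀ k ∈ centralizer (L : Set G), ∀ l ∈ L, k * l * (k * l) = 1 →
    ∃ k' ∈ centralizer (L : Set G), ∃ l' ∈ L, k * l = k' * l' ∧ k' * k' = 1 ∧ l' * l' = 1
  cls : ∀ l ∈ L, l * l = 1 → l ≠ 1 → ∃ m ∈ L, m * l * m⁻¹ = ι ⟨0, 0, 1⟩
  cA : ∀ n ∈ normalizer (L : Set G), (∀ a c, n * ι ⟨a, 0, c⟩ = ι ⟨a, 0, c⟩ * n) →
    ∃ a c, ι ⟨a, 0, c⟩ * n ∈ centralizer (L : Set G)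
  cB : ∀ n ∈ normalizer (L : Set G), (∀ b c, n * ι ⟨0, b, c⟩ = ι ⟨0, b, c⟩ * n) →
    ∃ b c, ι ⟨0, b, c⟩ * n ∈ centralizer (L : Set G)
  cT : ∀ n ∈ normalizer (L : Set G), (∀ p, ∃ c, n * ι p * n⁻¹ = ι (p * ⟨0, 0, c⟩)) →
    ∃ p, ι p * n ∈ centralizer (L : Set G)
  mA : ∃ m ∈ L, (∀ c, m * ι ⟨0, 0, c⟩ * m⁻¹ = ι ⟨c, 0, 0⟩) ∧ ∀ a c, ∃ p, ι ⟨a, 0, c⟩ = m * ι p * m⁻¹
  mB : ∃ m ∈ L, (∀ c, m * ι ⟨0, 0, c⟩ * m⁻¹ = ι ⟨0, c, 0⟩) ∧ ∀ b c, ∃ p, ι ⟨0, b, c⟩ = m * ι p * m⁻¹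
  der : ∀ x ∈ normalizer (L : Set G), ∀ y ∈ normalizer (L : Set G), x * y * x⁻¹ * y⁻¹ * (x * y * x⁻¹ * y⁻¹) = 1 →
    ∃ k ∈ centralizer (L : Set G), ∃ l ∈ L, x * y * x⁻¹ * y⁻¹ = k * l
  syl : IsSylowIn 2 S (centralizer {t})
  TS : ∀ p, ι p ∈ S
  tS : t ∈ S
  act : ∀ s ∈ S, ∃ p i j, Act ι (ι p * s) (th i j) ∧ (i = false → j = false → ι p * s ∈ centralizer (L : Set G))

/-- the symmetry exchanging `A` and `B` -/
theorem Loc.swap {ι : Heis F4 →* G} {L S : Subgroup G} {t h : G} (H : Loc ι L S t h) : Loc (ι.comp gr) L S t h := by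
  have gg : ∀ p, gr (gr p) = p := by decide +kernel
  have e1 : ∀ a c, gr ⟨a, 0, c⟩ = ⟨0, a, c⟩ := by decide +kernel
  have e2 : ∀ a c, gr ⟨0, a, c⟩ = ⟨a, 0, c⟩ := by decide +kernel
  refine ⟨H.inj.comp (Function.LeftInverse.injective gg), fun p => H.mem _, H.tK, H.tt, H.t1,
    fun p hp => by rw [← gg p, H.KT _ hp, map_one], H.hL, H.ho, H.h3, fun p => (H.ah _).trans ?_, H.tight, H.rk,
    H.split, by simpa only [MonoidHom.comp_apply, e2] using H.cls, by simpa only [MonoidHom.comp_apply, e1] using H.cB,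
    by simpa only [MonoidHom.comp_apply, e2] using H.cA, fun n hn hc => ?_, ?_, ?_, H.der, H.syl, fun p => H.TS _,
    H.tS, fun s hs => ?_⟩
  · exact congrArg ι ((by decide +kernel : ∀ p, dg om om (gr p) = gr (dg om om p)) p)
  · obtain ⟨p, hp⟩ := H.cT n hn fun p => by
      obtain ⟨c, e⟩ := hc (gr p)
      simp only [MonoidHom.comp_apply, map_mul, gg, e2] at e
      exact ⟨c, by rw [e, map_mul]⟩
    exact ⟨gr p, by simpa only [MonoidHom.comp_apply, gg] using hp⟩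
  · obtain ⟨m, hm, a1, a2⟩ := H.mB
    refine ⟨m, hm, by simpa only [MonoidHom.comp_apply, e1] using a1, fun a c => ?_⟩
    obtain ⟨p, e⟩ := a2 a c
    exact ⟨gr p, by simpa only [MonoidHom.comp_apply, gg, e1] using e⟩
  · obtain ⟨m, hm, a1, a2⟩ := H.mA
    refine ⟨m, hm, by simpa only [MonoidHom.comp_apply, e2] using a1, fun a c => ?_⟩
    obtain ⟨p, e⟩ := a2 a c
    exact ⟨gr p, by simpa only [MonoidHom.comp_apply, gg, e2] using e⟩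
  · obtain ⟨p, i, j, a1, a2⟩ := H.act s hs
    refine ⟨gr p, i, j, fun q => ?_, by simpa only [MonoidHom.comp_apply, gg] using a2⟩
    simp only [MonoidHom.comp_apply, gg]
    exact (a1 _).trans (congrArg ι ((by decide +kernel : ∀ i j q, th i j (gr q) = gr (th i j q)) i j q))

/-- `x t x⁻¹ = t p` -/
def Tr (ι : Heis F4 →* G) (t x : G) (p : Heis F4) : Prop := x * t * x⁻¹ = t * ι p

/-- `x` centralizes `A` -/
def CA (ι : Heis F4 →* G) (x : G) : Prop := ∀ a c, x * ι ⟨a, 0, c⟩ = ι ⟨a, 0, c⟩ * x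
/-- `x` centralizes `T` -/
def CT (ι : Heis F4 →* G) (x : G) : Prop := ∀ p, x * ι p = ι p * x
/-- `x` centralizes the elements of odd order of `C_K(t)` -/
def CO (L : Subgroup G) (t x : G) : Prop :=
  ∀ o ∈ centralizer (L : Set G), o * t = t * o → Odd (orderOf o) → x * o = o * x
/-- 2-elements -/
def Two (x : G) : Prop := ∃ n : ℕ, x ^ 2 ^ n = 1

/-- `A⟨t⟩` as a predicate -/
def FA (ι : Heis F4 →* G) (t x : G) : Prop := ∃ a c, x = ι ⟨a, 0, c⟩ ∨ x = ι ⟨a, 0, c⟩ * t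

/-- the result of the fusion analysis -/
structure Fus (ι : Heis F4 →* G) (L : Subgroup G) (t : G) : Prop where
  two : ∀ k ∈ centralizer (L : Set G), k * t = t * k → Two k → k = 1 ∨ k = t
  vv : ∃ v, CT ι v ∧ ∃ c, c ≠ 0 ∧ Tr ι t v ⟨0, 0, c⟩

/-- the 2-group `Q_A` -/
structure Qa (ι : Heis F4 →* G) (L : Subgroup G) (t : G) (Q : Subgroup G) : Prop where
  iff : ∀ x, x ∈ Q ↔ CA ι x ∧ CO L t x ∧ (∃ a c, Tr ι t x ⟨a, 0, c⟩) ∧ ∃ a c, x * x = ι ⟨a, 0, c⟩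
  fix : ∀ x ∈ Q, x * t = t * x → FA ι t x
  two : ∀ x, CA ι x → Two x → ∀ y ∈ Q, x * t * x⁻¹ = y * t * y⁻¹ → x ∈ Q

/-- the element `w` -/
structure Wa (ι : Heis F4 →* G) (L : Subgroup G) (t h w : G) (l : F4) : Prop where
  ct : CT ι w
  co : CO L t w
  tr : Tr ι t w ⟨0, 0, 1⟩
  sq : w * w = ι ⟨0, 0, l⟩
  cm : w * (h * w * h⁻¹) = h * w * h⁻¹ * w

/-- the doubled group `Y_A` -/
structure Ya (ι : Heis F4 →* G) (L : Subgroup G) (t h w : G) (Y : Subgroup G) : Prop where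
  sq : ∀ x ∈ Y, x * x = 1
  mA : ∀ a c, ι ⟨a, 0, c⟩ ∈ Y
  mw : w ∈ Y
  co : ∀ x ∈ Y, CO L t x
  tr : ∀ x ∈ Y, ∃ a c, Tr ι t x ⟨a, 0, c⟩
  onto : ∀ a c, ∃ x ∈ Y, Tr ι t x ⟨a, 0, c⟩
  fix : ∀ x ∈ Y, x * t = t * x → ∃ a c, x = ι ⟨a, 0, c⟩
  nh : ∀ x ∈ Y, h * x * h⁻¹ ∈ Y
  cB : ∀ x ∈ Y, ∀ b c, ∃ y ∈ Y, CT ι y ∧ ι ⟨0, b, c⟩ * x * (ι ⟨0, b, c⟩)⁻¹ = x * y
  two : ∀ x, CA ι x → Two x → (∃ a c, Tr ι t x ⟨a, 0, c⟩) → x ∈ Y ∨ x * t ∈ Y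

/-- the group `P = Y_A Y_B` -/
structure Dbl (ι : Heis F4 →* G) (t : G) {ν : F4} (Φ : Heis (R16 ν) →* G) : Prop where
  inj : Function.Injective Φ
  ext : ∀ a b c, Φ ⟨⟨a, 0⟩, ⟨b, 0⟩, ⟨c, 0⟩⟩ = ι ⟨a, b, c⟩
  act : ∀ p, t * Φ p * t⁻¹ = Φ ⟨star p.a, star p.b, star p.c⟩
  yA : ∀ x, CA ι x → Two x → (∃ a c, Tr ι t x ⟨a, 0, c⟩) → ∃ r u, x = Φ ⟨r, 0, u⟩ ∨ x = Φ ⟨r, 0, u⟩ * t
  yB : ∀ x, CA (ι.comp gr) x → Two x → (∃ a c, Tr ι t x ⟨0, a, c⟩) → ∃ r u, x = Φ ⟨0, r, u⟩ ∨ x = Φ ⟨0, r, u⟩ * t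

theorem gr_gr (p : Heis F4) : gr (gr p) = p := by revert p; decide +kernel
theorem gr_A (a c : F4) : gr ⟨a, 0, c⟩ = ⟨0, a, c⟩ := by revert a c; decide +kernel
theorem gr_B (a c : F4) : gr ⟨0, a, c⟩ = ⟨a, 0, c⟩ := by revert a c; decide +kernel

theorem CT.swap {ι : Heis F4 →* G} {x : G} (h : CT ι x) : CT (ι.comp gr) x := fun p => h (gr p)

theorem Fus.swap {ι : Heis F4 →* G} {L : Subgroup G} {t : G} (H : Fus ι L t) : Fus (ι.comp gr) L t := by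
  obtain ⟨v, a1, c, a2, a3⟩ := H.vv
  exact ⟨H.two, v, a1.swap, c, a2, by simpa only [Tr, MonoidHom.comp_apply, gr_A] using a3⟩

theorem Wa.swap {ι : Heis F4 →* G} {L : Subgroup G} {t h w : G} {l : F4} (H : Wa ι L t h w l) :
    Wa (ι.comp gr) L t h w l :=
  ⟨H.ct.swap, H.co, by simpa only [Tr, MonoidHom.comp_apply, gr_A] using H.tr,
    by simpa only [MonoidHom.comp_apply, gr_A] using H.sq, H.cm⟩

theorem two_R16 (ν : F4) : (2 : R16 ν) = 0 := by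
  rw [← one_add_one_eq_two]
  exact QuadraticAlgebra.ext (by show (1 : F4) + 1 = 0; decide +kernel) (add_zero _)

theorem add_self_R16 {ν : F4} (r : R16 ν) : r + r = 0 := by rw [← two_mul, two_R16, zero_mul]

/-- the graph automorphism of `P` -/
def grR (ν : F4) : Heis (R16 ν) →* Heis (R16 ν) where
  toFun p := ⟨p.b, p.a, p.c + p.a * p.b⟩
  map_one' := by simp [Heis.one_def]
  map_mul' p q := Heis.ext rfl rfl (by
    show p.c + q.c + p.a * q.b + (p.a + q.a) * (p.b + q.b) = p.c + p.a * p.b + (q.c + q.a * q.b) + p.b * q.a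
    linear_combination (p.a * q.b) * two_R16 ν)

theorem grR_apply {ν : F4} (p : Heis (R16 ν)) : grR ν p = ⟨p.b, p.a, p.c + p.a * p.b⟩ := rfl
theorem grR_grR {ν : F4} (p : Heis (R16 ν)) : grR ν (grR ν p) = p :=
  Heis.ext rfl rfl (by show p.c + p.a * p.b + p.b * p.a = p.c; linear_combination (p.a * p.b) * two_R16 ν)

theorem Dbl.swap {ι : Heis F4 →* G} {t : G} {ν : F4} {Φ : Heis (R16 ν) →* G} (H : Dbl ι t Φ) :
    Dbl (ι.comp gr) t (Φ.comp (grR ν)) := by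
  have e : (ι.comp gr).comp gr = ι := MonoidHom.ext fun p => congrArg ι (gr_gr p)
  refine ⟨H.inj.comp (Function.LeftInverse.injective grR_grR), fun a b c => ?_, fun p => ?_, fun x a1 a2 a3 => ?_,
    fun x a1 a2 a3 => ?_⟩
  · rw [MonoidHom.comp_apply, MonoidHom.comp_apply, grR_apply, gr_apply, ← H.ext]
    exact congrArg Φ (Heis.ext rfl rfl (QuadraticAlgebra.ext (by simp) (by simp)))
  · rw [MonoidHom.comp_apply, MonoidHom.comp_apply, H.act, grR_apply, grR_apply]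
    exact congrArg Φ (Heis.ext rfl rfl (by simp [mul_comm]))
  · simpa only [MonoidHom.comp_apply, grR_apply, mul_zero, add_zero] using
      H.yB x a1 a2 (by simpa only [Tr, MonoidHom.comp_apply, gr_A] using a3)
  · simpa only [MonoidHom.comp_apply, grR_apply, zero_mul, add_zero] using
      H.yA x (e ▸ a1) a2 (by simpa only [Tr, MonoidHom.comp_apply, gr_B] using a3)

/-- facts on `S`, first part -/
structure SF (ι : Heis F4 →* G) (L S : Subgroup G) (t : G) : Prop where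
  out : ∀ y ∈ S, y * y = 1 → (∀ k ∈ centralizer (L : Set G), ∀ l ∈ L, y ≠ k * l) →
    ∃ x ∈ L, ∃ x' ∈ L, ∃ m ∈ L, x * y = y * x ∧ x' * y = y * x' ∧ x * x' * x⁻¹ * x'⁻¹ ≠ 1 ∧
      x * x' * x⁻¹ * x'⁻¹ * (x * x' * x⁻¹ * x'⁻¹) = 1 ∧ m * y * m⁻¹ = y * (x * x' * x⁻¹ * x'⁻¹)
  e32 : ∀ E ≤ S, (∀ x ∈ E, x * x = 1) → 32 ≤ Nat.card E →
    (∀ x, x ∈ E ↔ FA ι t x) ∨ ∀ x, x ∈ E ↔ FA (ι.comp gr) t x

/-- facts on `S`, second part -/
structure SG (ι : Heis F4 →* G) (S : Subgroup G) (t : G) : Prop where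
  card : Nat.card S ≤ 512
  f5 : ∀ X ≤ S, ∀ W ≤ X, t ∉ X → (∀ w ∈ W, w * w = 1) → (∀ w ∈ W, ∀ x ∈ X, x * w = w * x) → 8 ≤ Nat.card W →
    32 ≤ Nat.card X → False
  f6 : ∀ X ≤ S, ∀ W ≤ X, (∀ w ∈ W, w * w = 1) → (∀ w ∈ W, ∀ x ∈ X, x * w = w * x) → 4 ≤ Nat.card W →
    64 ≤ Nat.card X → (∀ x ∈ X, x * x ∈ W) → (∀ p, p * p = 1 → ι p * t ∉ X) →
    (∀ x, x ∈ X ↔ ∃ p, x = ι p) ∧ ∀ w, w ∈ W ↔ ∃ c, w = ι ⟨0, 0, c⟩

/-- `Y_A` and `Y_B` -/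
structure Pa (ι : Heis F4 →* G) (YA YB : Subgroup G) : Prop where
  ct : ∀ x ∈ YA, x ∈ YB ↔ CT ι x
  ct' : ∀ x ∈ YB, x ∈ YA ↔ CT ι x
  cm : ∀ x ∈ YA, ∀ y ∈ YB, x * y * x⁻¹ * y⁻¹ ∈ YA ∧ x * y * x⁻¹ * y⁻¹ ∈ YB

/-- `S` normalizes `P`; the Sylow subgroups of `C(A)` and `C(B)`; no conjugate of `t` centralizes `W = Z(P)` -/
structure Ta (ι : Heis F4 →* G) (S : Subgroup G) (t : G) {ν : F4} (Φ : Heis (R16 ν) →* G) : Prop where
  nS : S ≤ normalizer (Φ.range : Set G)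
  cA : ∀ X : Subgroup G, IsPGroup 2 X → (∀ x ∈ X, CA ι x) → Nat.card X ≤ 512
  cB : ∀ X : Subgroup G, IsPGroup 2 X → (∀ x ∈ X, CA (ι.comp gr) x) → Nat.card X ≤ 512
  nW : ∀ g : G, ¬ ∀ u, Φ ⟨0, 0, u⟩ * (g * t * g⁻¹) = g * t * g⁻¹ * Φ ⟨0, 0, u⟩

/-- conjugates of `t` that normalize `P` -/
def Tb (ι : Heis F4 →* G) (S : Subgroup G) (t : G) {ν : F4} (Φ : Heis (R16 ν) →* G) : Prop :=
  ∀ g : G, g * t * g⁻¹ ∈ normalizer (Φ.range : Set G) →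
    (∀ q, Φ q * (g * t * g⁻¹) = g * t * g⁻¹ * Φ q → g⁻¹ * Φ q * g ∈ S) →
    (∀ p, ∃ q, Φ q = g * ι p * g⁻¹) ∧ (∀ q, Φ q * (g * t * g⁻¹) = g * t * g⁻¹ * Φ q → ∃ p, Φ q = g * ι p * g⁻¹) ∧
    (∀ c, ∃ u, Φ ⟨0, 0, u⟩ = g * ι ⟨0, 0, c⟩ * g⁻¹) ∧
    ∀ u, Φ ⟨0, 0, u⟩ * (g * t * g⁻¹) = g * t * g⁻¹ * Φ ⟨0, 0, u⟩ → ∃ c, Φ ⟨0, 0, u⟩ = g * ι ⟨0, 0, c⟩ * g⁻¹

/-- the ring automorphism attached to an automorphism of a Heisenberg group -/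
def Sig {R : Type} [CommRing R] (sig : MulAut (Heis R) →* RingAut R) : Prop :=
  ∀ f : MulAut (Heis R), (∃ c : Rˣ, ∀ u, f ⟨0, 0, u⟩ = ⟨0, 0, sig f u * c⟩) ∧
    ∀ r (p q : Heis R), q.a = r * p.a → q.b = r * p.b → (f q).a = sig f r * (f p).a ∧ (f q).b = sig f r * (f p).b

/-- `R16 ν` is `F4 × F4` -/
structure Spl {ν : F4} (ε : R16 ν) : Prop where
  aut : ∀ σ : RingAut (R16 ν), σ ε = ε ∨ σ ε = 1 + ε
  idem : ε * ε = ε
  c1 : Nat.card {u // ε * u = u} = 4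
  c2 : Nat.card {u // ε * u = 0} = 4
  uni : ∀ a b : R16 ν, (∃ r s, r * a + s * b = 1) ∨ (ε * a = 0 ∧ ε * b = 0) ∨ (ε * a = a ∧ ε * b = b)

/-- in the split case the conjugates of `t` interchange the factors -/
def Tc (t : G) {ν : F4} (Φ : Heis (R16 ν) →* G) (sig : MulAut (Heis (R16 ν)) →* RingAut (R16 ν)) (ε : R16 ν) : Prop :=
  ∀ (g : G) (f : MulAut (Heis (R16 ν))), (∀ q, g * t * g⁻¹ * Φ q * (g * t * g⁻¹)⁻¹ = Φ (f q)) → sig f ε = 1 + ε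

/-! ### The jobs -/

/-- M1 -/
def ModS : Prop := ∃ (Γ : Type) (_ : Group Γ) (ι : Heis F4 →* Γ) (L S : Subgroup Γ) (h : Γ), Mod ι L S h

/-- M2 -/
def LocS : Prop := ModS → ∀ (G : Type u) [Group G] [Finite G] (L : Subgroup G), Cfsg.IsStandardSubgroup L →
  Odd (Nat.card (center L)) → ∀ (F : Type) [Field F] [Fintype F], Fintype.card F = 4 →
  Nonempty (L ⧸ center L ≃* Matrix.ProjectiveSpecialLinearGroup (Fin 3) F) →
  ∀ t ∈ centralizer (L : Set G), t * t = 1 → t ≠ 1 →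
  (∀ x ∈ centralizer (L : Set G), x * x = 1 → x * t = t * x → x = 1 ∨ x = t) → ∃ ι S h, Loc ι L S t h

/-- S1 -/
def SFS : Prop := ∀ (G : Type u) [Group G] [Finite G] (ι : Heis F4 →* G) (L S : Subgroup G) (t h : G),
  Loc ι L S t h → SF ι L S t

/-- S2 -/
def SGS : Prop := ∀ (G : Type u) [Group G] [Finite G] (ι : Heis F4 →* G) (L S : Subgroup G) (t h : G),
  Loc ι L S t h → Fus ι L t → SG ι S t

/-- F1: the normalizer of `T⟨t⟩` moves `t` -/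
def F1S : Prop := ∀ (G : Type u) [Group G] [Finite G] (ι : Heis F4 →* G) (L S : Subgroup G) (t h : G),
  Loc ι L S t h → SF ι L S t → (∃ g : G, g * t * g⁻¹ ≠ t ∧ g * t * g⁻¹ * t = t * (g * t * g⁻¹)) →
  (∀ k ∈ centralizer (L : Set G), k * t = t * k → Two k → k = 1 ∨ k = t) ∧
  ∃ (y : G) (f : MulAut (Heis F4)), Act ι y f ∧ (∀ p, p.b = 0 → (f p).b = 0) ∧ (∀ p, p.a = 0 → (f p).a = 0) ∧
    (∀ c, f ⟨0, 0, c⟩ = ⟨0, 0, c⟩ → c = 0) ∧ ∃ c, c ≠ 0 ∧ Tr ι t y ⟨0, 0, c⟩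

/-- F2 -/
def F2S : Prop := ∀ (G : Type u) [Group G] (ι : Heis F4 →* G) (L S : Subgroup G) (t h y : G) (f : MulAut (Heis F4)),
  Loc ι L S t h → Act ι y f → (∀ p, p.b = 0 → (f p).b = 0) → (∀ p, p.a = 0 → (f p).a = 0) →
  (∀ c, f ⟨0, 0, c⟩ = ⟨0, 0, c⟩ → c = 0) → (∃ c, c ≠ 0 ∧ Tr ι t y ⟨0, 0, c⟩) →
  ∃ v, CT ι v ∧ ∃ c, c ≠ 0 ∧ Tr ι t v ⟨0, 0, c⟩

/-- Q -/
def QS : Prop := ∀ (G : Type u) [Group G] [Finite G] (ι : Heis F4 →* G) (L S : Subgroup G) (t h : G),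
  Loc ι L S t h → Fus ι L t → ∃ Q, Qa ι L t Q

/-- W -/
def WS : Prop := ∀ (G : Type u) [Group G] [Finite G] (ι : Heis F4 →* G) (L S Q : Subgroup G) (t h : G),
  Loc ι L S t h → Fus ι L t → Qa ι L t Q → ∃ w l, Wa ι L t h w l

/-- Y -/
def YS : Prop := ∀ (G : Type u) [Group G] [Finite G] (ι : Heis F4 →* G) (L S Q : Subgroup G) (t h w : G) (l : F4),
  Loc ι L S t h → Qa ι L t Q → Wa ι L t h w l → ∃ Y, Ya ι L t h w Y

/-- P1 -/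
def P1S : Prop := ∀ (G : Type u) [Group G] [Finite G] (ι : Heis F4 →* G) (L S YA YB : Subgroup G) (t h w : G) (l : F4),
  Loc ι L S t h → Fus ι L t → Wa ι L t h w l → Ya ι L t h w YA → Ya (ι.comp gr) L t h w YB → Pa ι YA YB

/-- P2 -/
def P2S : Prop := ∀ (G : Type u) [Group G] (ι : Heis F4 →* G) (L S YA YB : Subgroup G) (t h w : G),
  Loc ι L S t h → Ya ι L t h w YA → Ya (ι.comp gr) L t h w YB → Pa ι YA YB →
  ∃ (ν : F4) (Φ : Heis (R16 ν) →* G), Dbl ι t Φ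

/-- E0, first part -/
def SigS : Prop := ∀ (R : Type) [CommRing R], ∃ sig : MulAut (Heis R) →* RingAut R, Sig sig

/-- E0, second part -/
def DichS : Prop := ∀ ν : F4, (∀ c : R16 ν, c * c = 1 → c = 1) ∧
  (((∀ r : R16 ν, r ≠ 0 → ∃ s, s * r = 1) ∧ IsCyclic (RingAut (R16 ν))) ∨ ∃ ε : R16 ν, Spl ε)

/-- TA -/
def TaS : Prop := ∀ (G : Type u) [Group G] [Finite G] (ι : Heis F4 →* G) (L S : Subgroup G) (t h : G) (ν : F4)
  (Φ : Heis (R16 ν) →* G), Loc ι L S t h → SF ι L S t → SG ι S t → Dbl ι t Φ → Ta ι S t Φ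

/-- TB -/
def TbS : Prop := ∀ (G : Type u) [Group G] [Finite G] (ι : Heis F4 →* G) (L S : Subgroup G) (t h : G) (ν : F4)
  (Φ : Heis (R16 ν) →* G), Loc ι L S t h → SG ι S t → Dbl ι t Φ → Ta ι S t Φ → Tb ι S t Φ

/-- TC -/
def TcS : Prop := ∀ (G : Type u) [Group G] [Finite G] (ι : Heis F4 →* G) (L S : Subgroup G) (t h : G) (ν : F4)
  (Φ : Heis (R16 ν) →* G) (sig : MulAut (Heis (R16 ν)) →* RingAut (R16 ν)) (ε : R16 ν),
  Loc ι L S t h → Dbl ι t Φ → Tb ι S t Φ → Sig sig → Spl ε → Tc t Φ sig ε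

/-- NP: a Sylow 2-subgroup of `G` normalizes `P` -/
def NpS : Prop := ∀ (G : Type u) [Group G] [Finite G] (ι : Heis F4 →* G) (L S : Subgroup G) (t h : G) (ν : F4)
  (Φ : Heis (R16 ν) →* G) (sig : MulAut (Heis (R16 ν)) →* RingAut (R16 ν)),
  Loc ι L S t h → Dbl ι t Φ → Ta ι S t Φ → Tb ι S t Φ → Sig sig →
  ((∀ r : R16 ν, r ≠ 0 → ∃ s, s * r = 1) ∨ ∃ ε, Spl ε ∧ Tc t Φ sig ε) →
  ∃ U : Subgroup G, IsSylowIn 2 U ⊤ ∧ t ∈ U ∧ U ≤ normalizer (Φ.range : Set G)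

/-- TR: transfer -/
def TrS : Prop := ∀ (G : Type u) [Group G] [Finite G] [IsSimpleGroup G] (ι : Heis F4 →* G) (S U : Subgroup G) (t : G)
  (ν : F4) (Φ : Heis (R16 ν) →* G) (sig : MulAut (Heis (R16 ν)) →* RingAut (R16 ν)), ¬ IsMulCommutative G →
  t * t = 1 → Dbl ι t Φ → Ta ι S t Φ → Sig sig → (∀ c : R16 ν, c * c = 1 → c = 1) →
  (IsCyclic (RingAut (R16 ν)) ∨ ∃ ε, Spl ε ∧ Tc t Φ sig ε) →
  IsSylowIn 2 U ⊤ → t ∈ U → U ≤ normalizer (Φ.range : Set G) → False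

/-- the theorem -/
def Cyc : Prop := ∀ (G : Type u) [Group G] [Finite G] [IsSimpleGroup G], ¬ IsMulCommutative G →
  ∀ L : Subgroup G, Cfsg.IsStandardSubgroup L → Odd (Nat.card (center L)) →
  ∀ (F : Type) [Field F] [Fintype F], Fintype.card F = 4 →
  Nonempty (L ⧸ center L ≃* Matrix.ProjectiveSpecialLinearGroup (Fin 3) F) →
  Cfsg.PRankLE 2 1 (centralizer (L : Set G)) → False

end CL.L34
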