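/-
Standard subgroups of type `L_3(4)`: automorphisms of Heisenberg groups and the rings `R16`.
-/
import Cfsg.Agent.L34.Defs

set_option autoImplicit false

namespace CL.L34
open Subgroup CL.Grp

section Sig
variable {R : Type} [CommRing R]

/-- the commutator form -/
def e0_det (p q : Heis R) : R := p.a * q.b - q.a * p.b

theorem e0_comm (p q : Heis R) : p * q = q * p * ⟨0, 0, e0_det p q⟩ :=
  Heis.ext (by simp [add_comm]) (by simp [add_comm]) (by simp [e0_det]; ring)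

/-- the action on the centre -/
def e0_ga (f : MulAut (Heis R)) (u : R) : R := (f ⟨0, 0, u⟩).c

theorem e0_z (f : MulAut (Heis R)) (u : R) : f ⟨0, 0, u⟩ = ⟨0, 0, e0_ga f u⟩ := by
  have h : ∀ q, f ⟨0, 0, u⟩ * q = q * f ⟨0, 0, u⟩ := fun q => by
    obtain ⟨p, rfl⟩ := f.surjective q
    rw [← map_mul, ← map_mul]
    exact congrArg f (Heis.ext (by simp) (by simp) (by simp [add_comm]))
  refine Heis.ext ?_ ?_ rfl
  · simpa using congrArg Heis.c (h ⟨0, 1, 0⟩)
  · simpa using congrArg Heis.c (h ⟨1, 0, 0⟩)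

theorem e0_add (f : MulAut (Heis R)) (u v : R) : e0_ga f (u + v) = e0_ga f u + e0_ga f v := by
  have := congrArg Heis.c (map_mul f ⟨0, 0, u⟩ ⟨0, 0, v⟩)
  rw [e0_z f u, e0_z f v] at this
  simpa [Heis.mul_def, e0_ga] using this

theorem e0_mul (f g : MulAut (Heis R)) (u : R) : e0_ga (f * g) u = e0_ga f (e0_ga g u) := by
  rw [e0_ga, MulAut.mul_apply, e0_z g u]; rfl

theorem e0_inv (f : MulAut (Heis R)) (u : R) : e0_ga f (e0_ga f⁻¹ u) = u := by rw [← e0_mul, mul_inv_cancel]; rfl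

theorem e0_det_map (f : MulAut (Heis R)) (p q : Heis R) : e0_det (f p) (f q) = e0_ga f (e0_det p q) := by
  have := congrArg f (e0_comm p q)
  rw [map_mul, map_mul, map_mul, e0_z, e0_comm (f p)] at this
  exact congrArg Heis.c (mul_left_cancel this)

theorem e0_cen (f : MulAut (Heis R)) (r : R) : ∃ k, ∀ u, e0_ga f (r * u) = k * e0_ga f u := by
  obtain ⟨p, hp⟩ := f.surjective ⟨1, 0, 0⟩
  refine ⟨(f ⟨r * p.a, r * p.b, 0⟩).a, fun u => ?_⟩
  obtain ⟨q, hq⟩ := f.surjective ⟨0, e0_ga f u, 0⟩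
  have h1 := congrArg (e0_ga f⁻¹) (e0_det_map f p q)
  rw [hp, hq, show e0_det (⟨1, 0, 0⟩ : Heis R) ⟨0, e0_ga f u, 0⟩ = e0_ga f u by simp [e0_det]] at h1
  have h2 := e0_inv f⁻¹
  rw [inv_inv] at h2
  rw [h2, h2] at h1
  have h3 := e0_det_map f ⟨r * p.a, r * p.b, 0⟩ q
  rw [hq, show e0_det ⟨r * p.a, r * p.b, 0⟩ q = r * e0_det p q by simp only [e0_det]; ring, ← h1] at h3
  rw [← h3]
  simp [e0_det]

theorem e0_unit (f : MulAut (Heis R)) : ∃ c : Rˣ, c = e0_ga f 1 := by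
  obtain ⟨k, hk⟩ := e0_cen f (e0_ga f⁻¹ 1)
  have := hk 1
  rw [mul_one, e0_inv] at this
  exact IsUnit.of_mul_eq_one_right k this.symm

/-- the unit -/
noncomputable def e0_c (f : MulAut (Heis R)) : Rˣ := (e0_unit f).choose

theorem e0_c_eq (f : MulAut (Heis R)) : (e0_c f : R) = e0_ga f 1 := (e0_unit f).choose_spec

theorem e0_key (f : MulAut (Heis R)) (r u : R) : e0_ga f (r * u) = e0_ga f r * ↑(e0_c f)⁻¹ * e0_ga f u := by
  obtain ⟨k, hk⟩ := e0_cen f r
  have := hk 1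
  rw [mul_one, ← e0_c_eq] at this
  rw [hk, this, Units.mul_inv_cancel_right]

/-- the ring endomorphism -/
noncomputable def e0_sg (f : MulAut (Heis R)) : R →+* R :=
  RingHom.mk' ⟨⟨fun r => e0_ga f r * ↑(e0_c f)⁻¹, by rw [← e0_c_eq, Units.mul_inv]⟩, fun r s => by
    change e0_ga f (r * s) * _ = e0_ga f r * _ * (e0_ga f s * _)
    rw [e0_key, mul_assoc]⟩ fun r s => by
    change e0_ga f (r + s) * _ = e0_ga f r * _ + e0_ga f s * _
    rw [e0_add, add_mul]

theorem e0_key' (f : MulAut (Heis R)) (r u : R) : e0_ga f (r * u) = e0_sg f r * e0_ga f u := e0_key f r u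

theorem e0_sg_mul (f g : MulAut (Heis R)) (r : R) : e0_sg (f * g) r = e0_sg f (e0_sg g r) := by
  change e0_ga (f * g) r * _ = _
  rw [Units.mul_inv_eq_iff_eq_mul, e0_c_eq, e0_mul, e0_mul, ← e0_key', ← e0_key', mul_one]

theorem e0_sg_one (r : R) : e0_sg (1 : MulAut (Heis R)) r = r := by
  change e0_ga 1 r * _ = _
  rw [Units.mul_inv_eq_iff_eq_mul, e0_c_eq]
  exact (mul_one r).symm

theorem sigS : SigS := fun R _ => by
  refine ⟨MonoidHom.mk' (fun f => RingEquiv.ofRingHom (e0_sg f) (e0_sg f⁻¹)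
    (RingHom.ext fun r => by rw [RingHom.comp_apply, ← e0_sg_mul, mul_inv_cancel, e0_sg_one]; rfl)
    (RingHom.ext fun r => by rw [RingHom.comp_apply, ← e0_sg_mul, inv_mul_cancel, e0_sg_one]; rfl))
    fun f g => RingEquiv.ext (e0_sg_mul f g), fun f => ⟨⟨e0_c f, fun u => ?_⟩, fun r p q h1 h2 => ?_⟩⟩
  · rw [e0_z]
    exact congrArg _ (Units.inv_mul_cancel_right _ _).symm
  · have h : ∀ w, e0_det (f q) w = e0_sg f r * e0_det (f p) w := fun w => by
      obtain ⟨w, rfl⟩ := f.surjective w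
      rw [e0_det_map, e0_det_map, ← e0_key']
      congr 1
      simp only [e0_det, h1, h2]
      ring
    exact ⟨by simpa [e0_det] using h ⟨0, 1, 0⟩, by simpa [e0_det] using h ⟨1, 0, 0⟩⟩

theorem e0_cyc (h2 : ∀ r : R, r + r = 0) (h16 : ∀ r : R, r ^ 16 = r) (g : R)
    (hg : ∀ r, r = 0 ∨ ∃ i : Fin 15, r = g ^ i.1) (h4 : g ^ 4 = g + 1)
    (hr : ∀ u : R, u ^ 4 = u + 1 → ∃ k : Fin 4, u = g ^ 2 ^ k.1) : IsCyclic (RingAut R) := by
  let F : RingAut R :=
    { toFun := fun r => r ^ 2, invFun := fun r => r ^ 8, left_inv := fun r => by simp only [← pow_mul, h16],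
      right_inv := fun r => by simp only [← pow_mul, h16], map_mul' := fun r s => mul_pow r s 2,
      map_add' := fun r s => by linear_combination h2 (r * s) }
  have hF : ∀ (k : ℕ) (r : R), (F ^ k) r = r ^ 2 ^ k := fun k r => by
    induction k with
    | zero => simp
    | succ k ih =>
      rw [pow_succ', pow_succ, pow_mul, ← ih]; rfl
  refine ⟨F, fun σ => ?_⟩
  obtain ⟨k, hk⟩ := hr (σ g) (by rw [← map_pow, h4, map_add, map_one])
  refine ⟨k.1, RingEquiv.ext fun r => ?_⟩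
  rcases hg r with rfl | ⟨i, rfl⟩
  · simp
  · simp only [zpow_natCast, map_pow, hF, hk, ← pow_mul, mul_comm]

theorem e0_aut {ε : R} (h : ε * ε = ε) (h0 : ε ≠ 0) (h1 : ε ≠ 1)
    (hc : ∀ u : R, u * u = u → u = 0 ∨ u = 1 ∨ u = ε ∨ u = 1 + ε) (σ : RingAut R) : σ ε = ε ∨ σ ε = 1 + ε :=
  ((hc _ (by rw [← map_mul, h])).resolve_left (by simpa using h0)).resolve_left (by simpa using h1)

theorem e0_uni {ε : R} (h : ∀ a b : R, a * a * a + (1 + a * a * a) * (b * b) * b = 1 ∨ (ε * a = 0 ∧ ε * b = 0) ∨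
    (ε * a = a ∧ ε * b = b)) (a b : R) : (∃ r s, r * a + s * b = 1) ∨ (ε * a = 0 ∧ ε * b = 0) ∨ (ε * a = a ∧ ε * b = b) :=
  (h a b).imp_left fun e => ⟨_, _, e⟩

end Sig

theorem dichS : DichS := fun ν => by
  rcases (by decide +kernel : ∀ ν : F4, ν = 0 ∨ ν = 1 ∨ ν = om ∨ ν = om + 1) ν with rfl | rfl | rfl | rfl
  · exact ⟨by decide +kernel, .inr ⟨⟨0, 1⟩, e0_aut (by decide +kernel) (by decide +kernel) (by decide +kernel)
      (by decide +kernel), by decide +kernel, by rw [Nat.card_eq_fintype_card]; decide +kernel,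
      by rw [Nat.card_eq_fintype_card]; decide +kernel, e0_uni (by decide +kernel)⟩⟩
  · exact ⟨by decide +kernel, .inr ⟨⟨om, 1⟩, e0_aut (by decide +kernel) (by decide +kernel) (by decide +kernel)
      (by decide +kernel), by decide +kernel, by rw [Nat.card_eq_fintype_card]; decide +kernel,
      by rw [Nat.card_eq_fintype_card]; decide +kernel, e0_uni (by decide +kernel)⟩⟩
  · exact ⟨by decide +kernel, .inl ⟨by decide +kernel, e0_cyc add_self_R16 (by decide +kernel) ⟨0, 1⟩ (by decide +kernel)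
      (by decide +kernel) (by decide +kernel)⟩⟩
  · exact ⟨by decide +kernel, .inl ⟨by decide +kernel, e0_cyc add_self_R16 (by decide +kernel) ⟨0, 1⟩ (by decide +kernel)
      (by decide +kernel) (by decide +kernel)⟩⟩

end CL.L34
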