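/-
Standard subgroups of type `L_3(4)` whose centralizer has 2-rank one: the inner fusion of `t`.
-/
import Cfsg.Agent.L34.Defs

set_option autoImplicit false

universe u

namespace CL.L34
open Subgroup CL.Grp
open scoped Pointwise

variable {G : Type u} [Group G] {ι ι' : Heis F4 →* G} {L S : Subgroup G} {t h g : G}

theorem f1_cN (H : Loc ι L S t h) {x : G} (e : x * t = t * x) : x ∈ normalizer (L : Set G) :=
  H.tight x t H.tK H.tt H.t1 (by rw [e, mul_inv_cancel_right]; exact H.tK)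

theorem f1_nK {n k : G} (hn : n ∈ normalizer (L : Set G)) (hk : k ∈ centralizer (L : Set G)) :
    n * k * n⁻¹ ∈ centralizer (L : Set G) := fun l hl => by
  have := hk _ ((mem_normalizer_iff.1 (inv_mem hn) l).1 hl)
  calc l * (n * k * n⁻¹) = n * (n⁻¹ * l * n⁻¹⁻¹ * k) * n⁻¹ := by group
    _ = _ := by rw [this]; group

theorem f1_tT (H : Loc ι L S t h) (p : Heis F4) : ι p ≠ t := fun e =>
  H.t1 (by rw [← e, H.KT p (e ▸ H.tK), map_one])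

theorem f1_ct (H : Loc ι L S t h) (p : Heis F4) : ι p * t = t * ι p := H.tK _ (H.mem p)

theorem f1_split (H : Loc ι L S t h) {k l : G} (hk : k ∈ centralizer (L : Set G)) (hl : l ∈ L)
    (e : k * l * (k * l) = 1) (c : k * l * t = t * (k * l)) : ∃ l' ∈ L, l' * l' = 1 ∧ (k * l = l' ∨ k * l = t * l') := by
  obtain ⟨k', hk', l', hl', e1, e2, e3⟩ := H.split k hk l hl e
  rw [e1] at c ⊢
  have : k' * t = t * k' := mul_right_cancel (b := l') (by rw [mul_assoc, ← H.tK l' hl', ← mul_assoc, c, mul_assoc])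
  exact ⟨l', hl', e3, (H.rk k' hk' e2 this).imp (fun e => by rw [e, one_mul]) fun e => by rw [e]⟩

theorem f1_a [Finite G] (H : Loc ι L S t h) (F : SF ι L S t) (h1 : g * t * g⁻¹ ≠ t)
    (h2 : g * t * g⁻¹ * t = t * (g * t * g⁻¹)) : ∃ l ∈ L, l * l = 1 ∧ l ≠ 1 ∧ (IsConj t l ∨ IsConj t (t * l)) := by
  have n1 : ∀ {l}, IsConj t l → l ≠ 1 := fun c e => H.t1 (isConj_one_left.1 (e ▸ c))
  have sq : ∀ g : G, g * t * g⁻¹ * (g * t * g⁻¹) = 1 := fun g => by rw [conj_mul, H.tt, mul_one, mul_inv_cancel]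
  by_cases hk : ∃ k ∈ centralizer (L : Set G), ∃ l ∈ L, g * t * g⁻¹ = k * l
  · obtain ⟨k, hk, l, hl, e⟩ := hk
    obtain ⟨l', hl', e1, e2 | e2⟩ := f1_split H hk hl (e ▸ sq g) (e ▸ h2)
    · have c := isConj_iff.2 ⟨g, e.trans e2⟩
      exact ⟨l', hl', e1, n1 c, Or.inl c⟩
    · exact ⟨l', hl', e1, fun e' => h1 (by rw [e, e2, e', mul_one]), Or.inr (isConj_iff.2 ⟨g, e.trans e2⟩)⟩
  obtain ⟨c, hc, hS⟩ := H.syl.exists_conj_le (U := zpowers (g * t * g⁻¹)) (fun x => ⟨1, by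
    obtain ⟨_, n, rfl⟩ := x
    exact Subtype.ext (show (_ ^ n) ^ 2 ^ 1 = 1 by
      rw [pow_one, ← zpow_natCast, ← zpow_mul, mul_comm, zpow_mul, zpow_natCast, pow_two, sq, one_zpow])⟩)
    (zpowers_le.2 (mem_centralizer_singleton_iff.2 h2))
  have cN := f1_cN H (mem_centralizer_singleton_iff.1 hc)
  have hy := hS (conj_mem_conj_smul c (mem_zpowers _))
  rw [show c * (g * t * g⁻¹) * c⁻¹ = c * g * t * (c * g)⁻¹ by group] at hy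
  obtain ⟨x, -, x', -, m, -, a1, a2, a3, a4, a5⟩ := F.out _ hy (sq _) fun k hk' l hl e => hk
    ⟨_, f1_nK (inv_mem cN) hk', _, (mem_normalizer_iff.1 (inv_mem cN) l).1 hl, by rw [conj_mul, ← e]; group⟩
  generalize c * g = q at *
  have b : ∀ x, x * (q * t * q⁻¹) = q * t * q⁻¹ * x → Commute (q⁻¹ * x * q) t := fun x e => by
    show _ = _
    calc q⁻¹ * x * q * t = q⁻¹ * (x * (q * t * q⁻¹)) * q := by group
      _ = _ := by rw [e]; group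
  have b1 := b x a1
  have b2 := b x' a2
  have ee : q⁻¹ * x * q * (q⁻¹ * x' * q) * (q⁻¹ * x * q)⁻¹ * (q⁻¹ * x' * q)⁻¹ = q⁻¹ * (x * x' * x⁻¹ * x'⁻¹) * q := by group
  have b3 := ((b1.mul_left b2).mul_left b1.inv_left).mul_left b2.inv_left
  have b4 := H.der _ (f1_cN H b1) _ (f1_cN H b2)
  rw [ee] at b3 b4
  generalize x * x' * x⁻¹ * x'⁻¹ = e at *
  have b5 : q⁻¹ * e * q * (q⁻¹ * e * q) = 1 := by
    calc _ = q⁻¹ * (e * e) * q := by group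
      _ = 1 := by rw [a4]; group
  have b6 : IsConj t (t * (q⁻¹ * e * q)) := isConj_iff.2 ⟨q⁻¹ * m * q, by
    calc _ = q⁻¹ * (m * (q * t * q⁻¹) * m⁻¹) * q := by group
      _ = _ := by rw [a5]; group⟩
  obtain ⟨k, hk, l, hl, e0⟩ := b4 b5
  obtain ⟨l', hl', e1, e2 | e2⟩ := f1_split H hk hl (e0 ▸ b5) (e0 ▸ b3.eq)
  · rw [← e0] at e2
    exact ⟨l', hl', e1, fun e' => a3 (by simpa using (mul_inv_eq_one.1 (show q⁻¹ * e * q⁻¹⁻¹ = 1 by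
      rw [inv_inv, e2, e']))), Or.inr (e2 ▸ b6)⟩
  · rw [e0, e2, ← mul_assoc, H.tt, one_mul] at b6
    exact ⟨l', hl', e1, n1 b6, Or.inl b6⟩

theorem f1_sq (H : Loc ι L S t h) {x : G} (hx : FA ι t x) : x * x = 1 := by
  have e : ∀ a c : F4, (⟨a, 0, c⟩ * ⟨a, 0, c⟩ : Heis F4) = 1 := by decide +kernel
  obtain ⟨a, c, rfl | rfl⟩ := hx
  · rw [← map_mul, e, map_one]
  · rw [mul_assoc, ← mul_assoc t, ← f1_ct H, mul_assoc, H.tt, mul_one, ← map_mul, e, map_one]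

/-- `A⟨t⟩` -/
def f1_fa (H : Loc ι L S t h) : Subgroup G where
  carrier := {x | FA ι t x}
  one_mem' := ⟨0, 0, Or.inl (map_one ι).symm⟩
  inv_mem' hx := by rwa [inv_eq_of_mul_eq_one_right (f1_sq H hx)]
  mul_mem' := by
    have e : ∀ a c a' c' : F4, ι ⟨a, 0, c⟩ * ι ⟨a', 0, c'⟩ = ι ⟨a + a', 0, c + c'⟩ := fun a c a' c' => by
      rw [← map_mul, Heis.mul_def]; simp
    rintro _ _ ⟨a, c, rfl | rfl⟩ ⟨a', c', rfl | rfl⟩
    · exact ⟨_, _, Or.inl (e ..)⟩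
    · exact ⟨_, _, Or.inr (by rw [← mul_assoc, e])⟩
    · exact ⟨_, _, Or.inr (by rw [mul_assoc, ← f1_ct H, ← mul_assoc, e])⟩
    · exact ⟨_, _, Or.inl (by rw [mul_assoc, ← mul_assoc t, ← f1_ct H, mul_assoc, H.tt, mul_one, e])⟩

theorem f1_card [Finite G] (H : Loc ι L S t h) : 32 ≤ Nat.card (f1_fa H) := by
  have e : Nat.card ((F4 × F4) ⊕ (F4 × F4)) = 32 := by rw [Nat.card_sum, Nat.card_prod, card_F4]
  refine e.ge.trans (Nat.card_le_card_of_injective (Sum.elim (fun p => ⟨ι ⟨p.1, 0, p.2⟩, _, _, Or.inl rfl⟩)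
    fun p => ⟨ι ⟨p.1, 0, p.2⟩ * t, _, _, Or.inr rfl⟩) ?_)
  have n : ∀ p q, ι p ≠ ι q * t := fun p q e => f1_tT H (q⁻¹ * p) (by rw [map_mul, e, map_inv, inv_mul_cancel_left])
  rintro (p | p) (q | q) e <;> replace e := congrArg Subtype.val e
  · have := H.inj e
    exact congrArg _ (Prod.ext (congrArg Heis.a this) (congrArg Heis.c this))
  · exact absurd e (n _ _)
  · exact absurd e.symm (n _ _)
  · have := H.inj (mul_right_cancel e)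
    exact congrArg _ (Prod.ext (congrArg Heis.a this) (congrArg Heis.c this))

/-- conjugation by `g` maps `A'⟨t⟩` onto `A⟨t⟩` -/
def f1_P (ι ι' : Heis F4 →* G) (t g : G) : Prop := ∀ x, FA ι t (g * x * g⁻¹) ↔ FA ι' t x

def f1_Pm (ι : Heis F4 →* G) (t g : G) : Prop :=
  f1_P ι ι t g ∧ f1_P (ι.comp gr) (ι.comp gr) t g ∨ f1_P ι (ι.comp gr) t g ∧ f1_P (ι.comp gr) ι t g

theorem f1_P.inv (P : f1_P ι ι' t g) : f1_P ι' ι t g⁻¹ := fun x => by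
  rw [← P, show g * (g⁻¹ * x * g⁻¹⁻¹) * g⁻¹ = x by group]

theorem f1_Pm.inv (P : f1_Pm ι t g) : f1_Pm ι t g⁻¹ :=
  P.imp (fun e => ⟨e.1.inv, e.2.inv⟩) fun e => ⟨e.2.inv, e.1.inv⟩

theorem f1_b [Finite G] (H : Loc ι L S t h) (F : SF ι L S t) (h1 : g * t * g⁻¹ * t = t * (g * t * g⁻¹))
    (h2 : ∀ p, g * t * g⁻¹ * ι p = ι p * (g * t * g⁻¹)) : ∃ g', g' * t * g'⁻¹ = g * t * g⁻¹ ∧ f1_Pm ι t g' := by
  obtain ⟨c, hc, hS⟩ := H.syl.exists_conj_le (U := MulAut.conj g⁻¹ • (S ⊓ centralizer {g * t * g⁻¹}))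
    (IsPGroup.conj_smul (H.syl.isPGroup.to_le inf_le_left) _) ((conj_smul_le_iff _ _ _).2 fun x hx =>
      mem_centralizer_singleton_iff.2 (by
        calc g⁻¹ * x * g⁻¹⁻¹ * t = g⁻¹ * (x * (g * t * g⁻¹)) * g := by group
          _ = _ := by rw [mem_centralizer_singleton_iff.1 hx.2]; group))
  rw [conj_smul_conj_smul] at hS
  have key : ∀ ι' : Heis F4 →* G, Loc ι' L S t h → (∀ p, g * t * g⁻¹ * ι' p = ι' p * (g * t * g⁻¹)) →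
      f1_P ι' ι t (g * c⁻¹) ∨ f1_P ι' (ι.comp gr) t (g * c⁻¹) := fun ι' H' h2 => by
    have m : ∀ x, x ∈ MulAut.conj (c * g⁻¹) • f1_fa H' ↔ FA ι' t (g * c⁻¹ * x * (g * c⁻¹)⁻¹) := fun x => by
      rw [mem_conj_smul_iff, show (c * g⁻¹)⁻¹ * x * (c * g⁻¹) = g * c⁻¹ * x * (g * c⁻¹)⁻¹ by group]; rfl
    have le : f1_fa H' ≤ S ⊓ centralizer {g * t * g⁻¹} := by
      have a1 : ∀ p, ι' p ∈ S ⊓ centralizer {g * t * g⁻¹} := fun p => ⟨H'.TS p, mem_centralizer_singleton_iff.2 (h2 p).symm⟩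
      rintro _ ⟨a, c, rfl | rfl⟩
      exacts [a1 _, mul_mem (a1 _) ⟨H.tS, mem_centralizer_singleton_iff.2 h1.symm⟩]
    refine (F.e32 (MulAut.conj (c * g⁻¹) • f1_fa H') ((pointwise_smul_le_pointwise_smul_iff.2 le).trans hS)
      (fun x hx => ?_) (by rw [card_conj_smul]; exact f1_card H')).imp (fun e x => (m x).symm.trans (e x))
      fun e x => (m x).symm.trans (e x)
    have := f1_sq H' ((m x).1 hx)
    rwa [conj_mul, conj_eq_one_iff] at this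
  have ne : ¬ ∀ x, FA ι t x ↔ FA (ι.comp gr) t x := fun e => by
    obtain ⟨a, c, e | e⟩ := (e _).1 ⟨1, 0, Or.inl rfl⟩
    · exact absurd (H.inj e) ((by decide +kernel : ∀ a c : F4, (⟨1, 0, 0⟩ : Heis F4) ≠ gr ⟨a, 0, c⟩) a c)
    · exact f1_tT H ((gr ⟨a, 0, c⟩)⁻¹ * ⟨1, 0, 0⟩) (by rw [map_mul, e, map_inv]; exact inv_mul_cancel_left _ _)
  refine ⟨g * c⁻¹, ?_, ?_⟩
  · calc g * c⁻¹ * t * (g * c⁻¹)⁻¹ = g * c⁻¹ * (t * c) * g⁻¹ := by group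
      _ = _ := by rw [← mem_centralizer_singleton_iff.1 hc]; group
  · rcases key ι H h2 with a | a <;> rcases key _ H.swap (fun p => h2 _) with b | b
    · exact absurd (fun x => (a.inv x).symm.trans (b.inv x)) ne
    · exact Or.inl ⟨a, b⟩
    · exact Or.inr ⟨a, b⟩
    · exact absurd (fun x => (a.inv x).symm.trans (b.inv x)) ne

theorem f1_cm (H : Loc ι L S t h) {x y : G} (hx : FA ι t x) (hy : FA (ι.comp gr) t y) :
    (∃ c, x * y * x⁻¹ * y⁻¹ = ι ⟨0, 0, c⟩) ∧ ∃ c, y * x * y⁻¹ * x⁻¹ = ι ⟨0, 0, c⟩ := by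
  have e : ∀ a c b d : F4, ∃ e, (⟨a, 0, c⟩ * gr ⟨b, 0, d⟩ * (⟨a, 0, c⟩ : Heis F4)⁻¹ * (gr ⟨b, 0, d⟩)⁻¹ = ⟨0, 0, e⟩) ∧
      gr ⟨b, 0, d⟩ * ⟨a, 0, c⟩ * (gr ⟨b, 0, d⟩)⁻¹ * (⟨a, 0, c⟩ : Heis F4)⁻¹ = ⟨0, 0, e⟩ := by decide +kernel
  have k : ∀ p q (u v : G), (u = 1 ∨ u = t) → (v = 1 ∨ v = t) →
      ι p * u * (ι q * v) * (ι p * u)⁻¹ * (ι q * v)⁻¹ = ι (p * q * p⁻¹ * q⁻¹) := fun p q u v hu hv => by
    have c1 : ∀ w : G, w = 1 ∨ w = t → ∀ p, Commute w (ι p) := by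
      rintro _ (rfl | rfl) p
      exacts [Commute.one_left _, (f1_ct H p).symm]
    have c2 : Commute u v := by rcases hu with rfl | rfl <;> rcases hv with rfl | rfl <;> simp
    have e1 : u * (ι q * v) * u⁻¹ = ι q * v := ((c1 u hu q).mul_right c2).mul_inv_cancel
    have e2 : v * (ι p)⁻¹ * v⁻¹ = (ι p)⁻¹ := (c1 v hv p).inv_right.mul_inv_cancel
    simp only [map_mul, map_inv]
    calc _ = ι p * (u * (ι q * v) * u⁻¹) * (ι p)⁻¹ * (ι q * v)⁻¹ := by group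
      _ = ι p * ι q * (v * (ι p)⁻¹ * v⁻¹) * (ι q)⁻¹ := by rw [e1]; group
      _ = _ := by rw [e2]
  obtain ⟨a, c, u, hu, rfl⟩ : ∃ a c u, (u = 1 ∨ u = t) ∧ x = ι ⟨a, 0, c⟩ * u := by
    obtain ⟨a, c, e | e⟩ := hx
    exacts [⟨a, c, 1, Or.inl rfl, by rwa [mul_one]⟩, ⟨a, c, t, Or.inr rfl, e⟩]
  obtain ⟨b, d, v, hv, rfl⟩ : ∃ a c u, (u = 1 ∨ u = t) ∧ y = ι (gr ⟨a, 0, c⟩) * u := by
    obtain ⟨a, c, e | e⟩ := hy
    exacts [⟨a, c, 1, Or.inl rfl, by rwa [mul_one]⟩, ⟨a, c, t, Or.inr rfl, e⟩]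
  obtain ⟨e, e1, e2⟩ := e a c b d
  exact ⟨⟨e, by rw [k _ _ _ _ hu hv, e1]⟩, e, by rw [k _ _ _ _ hv hu, e2]⟩

theorem f1_D (H : Loc ι L S t h) (P : f1_Pm ι t g) (c : F4) : ∃ c', g * ι ⟨0, 0, c⟩ * g⁻¹ = ι ⟨0, 0, c'⟩ := by
  have e : ∀ c : F4, (⟨0, 0, c⟩ : Heis F4) = ⟨c, 0, 0⟩ * gr ⟨1, 0, 0⟩ * (⟨c, 0, 0⟩ : Heis F4)⁻¹ * (gr ⟨1, 0, 0⟩)⁻¹ := by
    decide +kernel
  have a : FA ι t (ι ⟨c, 0, 0⟩) := ⟨_, _, Or.inl rfl⟩
  have b : FA (ι.comp gr) t (ι (gr ⟨1, 0, 0⟩)) := ⟨_, _, Or.inl rfl⟩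
  rw [e, map_mul, map_mul, map_mul, map_inv, map_inv, ← conj_mul, ← conj_mul, ← conj_mul, ← conj_inv, ← conj_inv]
  rcases P with ⟨p, q⟩ | ⟨p, q⟩
  exacts [(f1_cm H ((p _).2 a) ((q _).2 b)).1, (f1_cm H ((p _).2 b) ((q _).2 a)).2]

theorem f1_z (p : Heis F4) (c : F4) : ι ⟨0, 0, c⟩ * ι p = ι p * ι ⟨0, 0, c⟩ := by
  rw [← map_mul, ← map_mul, Heis.mul_def, Heis.mul_def]; simp [add_comm]

theorem f1_nf [Finite G] (H : Loc ι L S t h) (F : SF ι L S t) {l : G} (hl : l ∈ L) : ¬ IsConj t l := fun c => by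
  obtain ⟨g, e⟩ := isConj_iff.1 c
  obtain ⟨m, -, e'⟩ := H.cls l hl (by rw [← e, conj_mul, H.tt, mul_one, mul_inv_cancel])
    fun e => H.t1 (isConj_one_left.1 (e ▸ c))
  obtain ⟨g, e⟩ := isConj_iff.1 (c.trans (isConj_iff.2 ⟨m, e'⟩))
  obtain ⟨g', e1, P⟩ := f1_b H F (g := g) (e ▸ f1_ct H _) (e ▸ fun p => f1_z p 1)
  obtain ⟨c, e2⟩ := f1_D H P.inv 1
  exact f1_tT H _ (by rw [← e2, ← e, ← e1]; group)

theorem f1S : F1S.{u} := fun G _ _ ι L S t h H F ⟨g0, h1, h2⟩ => by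
  have tz : ∀ l ∈ L, l * l = 1 → l ≠ 1 → IsConj (t * l) (t * ι ⟨0, 0, 1⟩) := fun l hl a b => by
    obtain ⟨m, hm, e⟩ := H.cls l hl a b
    exact isConj_iff.2 ⟨m, by rw [← conj_mul, e, H.tK m hm, mul_inv_cancel_right]⟩
  obtain ⟨l, hl, a1, a2, a3⟩ := f1_a H F h1 h2
  have c0 := (a3.resolve_left (f1_nf H F hl)).trans (tz l hl a1 a2)
  obtain ⟨g1, e1⟩ := isConj_iff.1 c0
  obtain ⟨g, e, P⟩ := f1_b H F (g := g1) (by rw [e1, mul_assoc, f1_ct H]) fun p => by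
    rw [e1, mul_assoc, f1_z, ← mul_assoc, ← f1_ct H, mul_assoc]
  rw [e1] at e
  have fu : ∀ l ∈ L, l * l = 1 → IsConj t (t * l) := fun l hl a => by
    rcases eq_or_ne l 1 with rfl | b
    exacts [by rw [mul_one], c0.trans (tz l hl a b).symm]
  refine ⟨fun k hk c hn => ?_, ?_⟩
  · obtain ⟨n, hn⟩ := hn
    induction n generalizing k with
    | zero => exact Or.inl (by simpa using hn)
    | succ n ih =>
      refine H.rk k hk ((ih (k * k) (mul_mem hk hk) (Commute.mul_left c c) (by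
        rwa [← sq, ← pow_mul, ← pow_succ'])).resolve_right fun r2 => ?_) c
      have b : ∀ x, k * (g * x * g⁻¹) = g * x * g⁻¹ * k → g⁻¹ * k * g * x = x * (g⁻¹ * k * g) := fun x e => by
        calc g⁻¹ * k * g * x = g⁻¹ * (k * (g * x * g⁻¹)) * g := by group
          _ = _ := by rw [e]; group
      have b1 : ∀ ι' : Heis F4 →* G, Loc ι' L S t h → ∀ x, FA ι' t x → k * x = x * k := by
        rintro ι' H' _ ⟨a, c', rfl | rfl⟩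
        exacts [(hk _ (H'.mem _)).symm, Commute.mul_right (hk _ (H'.mem _)).symm c]
      have b2 : ∀ p, Commute (g⁻¹ * k * g) (ι p) := fun p => by
        rw [(by decide +kernel : ∀ p : Heis F4, p = ⟨p.a, 0, p.c + p.a * p.b⟩ * gr ⟨p.b, 0, 0⟩) p, map_mul]
        rcases P with ⟨p, q⟩ | ⟨p, q⟩
        · exact Commute.mul_right (b _ (b1 _ H _ ((p _).2 ⟨_, _, Or.inl rfl⟩)))
            (b _ (b1 _ H.swap _ ((q _).2 ⟨_, _, Or.inl rfl⟩)))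
        · exact Commute.mul_right (b _ (b1 _ H.swap _ ((q _).2 ⟨_, _, Or.inl rfl⟩)))
            (b _ (b1 _ H _ ((p _).2 ⟨_, _, Or.inl rfl⟩)))
      obtain ⟨p, hp⟩ := H.cT _ (f1_cN H (b t (e ▸ Commute.mul_right c (hk _ (H.mem _)).symm))) fun p =>
        ⟨0, by rw [(b2 p).mul_inv_cancel]; exact congrArg ι (mul_one p).symm⟩
      have b3 : ∀ q, q * p = p * q := fun q => H.inj (mul_right_cancel (b := g⁻¹ * k * g) (by
        rw [map_mul, map_mul, mul_assoc, hp _ (H.mem q), mul_assoc, (b2 q).eq, mul_assoc (ι p)]))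
      have b4 := (by decide +kernel : ∀ p : Heis F4, ⟨1, 0, 0⟩ * p = p * ⟨1, 0, 0⟩ → ⟨0, 1, 0⟩ * p = p * ⟨0, 1, 0⟩ →
        p * p = 1) p (b3 _) (b3 _)
      have b5 := mul_mem hp hp
      rw [mul_assoc, ← mul_assoc (g⁻¹ * k * g), (b2 p).eq, mul_assoc, ← mul_assoc (ι p), ← map_mul, b4, map_one, one_mul,
        show g⁻¹ * k * g * (g⁻¹ * k * g) = g⁻¹ * (k * k) * g⁻¹⁻¹ by group, r2] at b5
      have b6 := f1_nK ((inv_mem_iff (x := g)).1 (H.tight _ t H.tK H.tt H.t1 b5)) H.tK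
      rw [e] at b6
      exact absurd (H.KT _ ((mul_mem_cancel_left H.tK).1 b6)) (by decide +kernel)
  have q : ∀ {ι₁ ι₂ : Heis F4 →* G} {g : G}, Loc ι₁ L S t h → Loc ι₂ L S t h → f1_P ι₂ ι₁ t g → ∀ a c, ∃ a' c',
      g * ι₁ ⟨a, 0, c⟩ * g⁻¹ = ι₂ ⟨a', 0, c'⟩ := fun {ι₁ ι₂ g} H1 H2 P a c => by
    obtain ⟨a', c', e | e⟩ := (P _).2 ⟨a, c, Or.inl rfl⟩
    · exact ⟨a', c', e⟩
    · rw [f1_ct H2] at e
      exact absurd ((fu _ (H2.mem _) (f1_sq H2 ⟨a', c', Or.inl rfl⟩)).trans (isConj_iff.2 ⟨g, e⟩).symm)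
        (f1_nf H F (H1.mem _))
  have q2 : ∀ {ι₁ ι₂ : Heis F4 →* G}, Loc ι₁ L S t h → Loc ι₂ L S t h → f1_P ι₁ ι₂ t g → ∀ a c, ∃ a' c',
      g * h * g⁻¹ * ι₁ ⟨a, 0, c⟩ * (g * h * g⁻¹)⁻¹ = ι₁ ⟨a', 0, c'⟩ := fun {ι₁ ι₂} H1 H2 P a c => by
    obtain ⟨a1, c1, e1⟩ := q H1 H2 P.inv a c
    have e2 := H2.ah ⟨a1, 0, c1⟩
    simp only [dg, mul_zero] at e2
    obtain ⟨a3, c3, e3⟩ := q H2 H1 P (om * a1) (om * om * c1)
    exact ⟨a3, c3, by rw [← e3, ← e2, ← e1]; group⟩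
  have qA := P.elim (fun P => q2 H H P.1) fun P => q2 H H.swap P.1
  have qB := P.elim (fun P => q2 H.swap H.swap P.2) fun P => q2 H.swap H P.2
  have ex : ∀ p, ∃ p', g * h * g⁻¹ * ι p * (g * h * g⁻¹)⁻¹ = ι p' := fun p => by
    obtain ⟨a1, c1, e1⟩ := qA p.a (p.c + p.a * p.b)
    obtain ⟨a2, c2, e2⟩ := qB p.b 0
    rw [(by decide +kernel : ∀ p : Heis F4, p = ⟨p.a, 0, p.c + p.a * p.b⟩ * gr ⟨p.b, 0, 0⟩) p, map_mul, ← conj_mul, e1]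
    exact ⟨_, by rw [map_mul]; exact congrArg _ e2⟩
  choose f hf using ex
  have fi : Function.Injective f := fun p q e => H.inj (conj_injective (by rw [hf, hf, e] : _ * ι p * _ = _ * ι q * _))
  have fx : ∀ c, h * ι ⟨0, 0, c⟩ * h⁻¹ = ι ⟨0, 0, c⟩ → c = 0 := fun c e =>
    (by decide +kernel : ∀ c : F4, dg om om ⟨0, 0, c⟩ = ⟨0, 0, c⟩ → c = 0) c (H.inj ((H.ah _).symm.trans e))
  refine ⟨g * h * g⁻¹, MulEquiv.ofBijective (MonoidHom.mk' f fun p q => H.inj (by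
    rw [map_mul, ← hf, ← hf, ← hf, map_mul, conj_mul])) (Finite.injective_iff_bijective.1 fi), hf, ?_, ?_, fun c e => ?_, ?_⟩
  · rintro ⟨a, _, c⟩ rfl
    obtain ⟨a', c', e⟩ := qA a c
    exact congrArg Heis.b (H.inj ((hf _).symm.trans e))
  · rintro ⟨_, b, c⟩ rfl
    obtain ⟨a', c', e⟩ := qB b c
    rw [MonoidHom.comp_apply, MonoidHom.comp_apply, gr_A, gr_A] at e
    exact congrArg Heis.a (H.inj ((hf _).symm.trans e))
  · obtain ⟨c', e1⟩ := f1_D H P.inv c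
    have e2 : g * h * g⁻¹ * ι ⟨0, 0, c⟩ * (g * h * g⁻¹)⁻¹ = ι ⟨0, 0, c⟩ := (hf _).trans (congrArg ι e)
    rw [fx c' (by rw [← e1]; conv_rhs => rw [← e2]
                  group), show ι ⟨0, 0, 0⟩ = 1 from map_one ι, conj_eq_one_iff] at e1
    exact congrArg Heis.c (H.inj (e1.trans (map_one ι).symm))
  · obtain ⟨c1, e1⟩ := f1_D H P.inv 1
    obtain ⟨c2, e2⟩ := f1_D H P (c1 + om * om * c1)
    have e3 : ι ⟨0, 0, c1 + om * om * c1⟩ = ι ⟨0, 0, c1⟩ * (h * ι ⟨0, 0, c1⟩ * h⁻¹)⁻¹ := by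
      rw [H.ah, ← map_inv, ← map_mul]
      exact congrArg ι ((by decide +kernel : ∀ c : F4, ⟨0, 0, c + om * om * c⟩ = ⟨0, 0, c⟩ * (dg om om ⟨0, 0, c⟩)⁻¹) c1)
    have e4 : g⁻¹ * t * g = t * (ι ⟨0, 0, c1⟩)⁻¹ := by
      rw [← e1, eq_mul_inv_iff_mul_eq, show g⁻¹ * t * g * (g⁻¹ * ι ⟨0, 0, 1⟩ * g⁻¹⁻¹) = g⁻¹ * (t * ι ⟨0, 0, 1⟩) * g by
        group, ← e]
      group
    refine ⟨c2, fun e0 => ?_, ?_⟩
    · rw [e0, show ι ⟨0, 0, 0⟩ = 1 from map_one ι, conj_eq_one_iff, e3, mul_inv_eq_one] at e2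
      rw [fx c1 e2.symm, show ι ⟨0, 0, 0⟩ = 1 from map_one ι, conj_eq_one_iff] at e1
      exact absurd (H.inj (e1.trans (map_one ι).symm)) (by decide +kernel)
    · calc g * h * g⁻¹ * t * (g * h * g⁻¹)⁻¹ = g * (h * (g⁻¹ * t * g) * h⁻¹) * g⁻¹ := by group
        _ = g * (h * t * h⁻¹) * (h * ι ⟨0, 0, c1⟩ * h⁻¹)⁻¹ * g⁻¹ := by rw [e4]; group
        _ = g * (t * (ι ⟨0, 0, c1⟩)⁻¹) * g⁻¹ * ι ⟨0, 0, c2⟩ := by rw [H.tK h H.hL, ← e2, e3]; group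
        _ = _ := by rw [← e4]; group

end CL.L34
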