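/-
An element of `C(T)` that moves `t`.
-/
import Cfsg.Agent.L34.Defs

set_option autoImplicit false

universe u

namespace CL.L34
open Subgroup CL.Grp

variable {G : Type u} [Group G]

/-- the additive map with the given values at `1` and `om` -/
def f2L (u w c : F4) : F4 := ⟨c.re, 0⟩ * u + ⟨c.im, 0⟩ * w

theorem f2_lin (g : F4 →+ F4) (c : F4) : g c = f2L (g 1) (g om) c := by
  have h : ∀ c : F4, c = 0 ∨ c = 1 ∨ c = om ∨ c = 1 + om := by decide +kernel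
  have e : ∀ u w : F4, f2L u w 0 = 0 ∧ f2L u w 1 = u ∧ f2L u w om = w ∧ f2L u w (1 + om) = u + w := by
    decide +kernel
  obtain ⟨e0, e1, e2, e3⟩ := e (g 1) (g om)
  rcases h c with rfl | rfl | rfl | rfl
  · rw [e0, map_zero]
  · rw [e1]
  · rw [e2]
  · rw [e3, map_add]

/-- the shape of the action of `x` on `T` and `t` -/
def f2Sh (ι : Heis F4 →* G) (t x : G) (u w c : F4) (χ ψ : F4 →+ F4) : Prop :=
  Act ι x (fun p => ⟨u * p.a, w * p.b, χ p.a + ψ p.b + u * w * p.c⟩) ∧ Tr ι t x ⟨0, 0, c⟩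

theorem f2_mul {ι : Heis F4 →* G} {t x x' : G} {u w c u' w' c' : F4} {χ ψ χ' ψ' : F4 →+ F4}
    (h1 : f2Sh ι t x u w c χ ψ) (h2 : f2Sh ι t x' u' w' c' χ' ψ') :
    f2Sh ι t (x * x') (u * u') (w * w') (c + u * w * c')
      (χ.comp (AddMonoidHom.mulLeft u') + (AddMonoidHom.mulLeft (u * w)).comp χ')
      (ψ.comp (AddMonoidHom.mulLeft w') + (AddMonoidHom.mulLeft (u * w)).comp ψ') := by
  refine ⟨fun p => ?_, ?_⟩
  · have e : x * x' * ι p * (x * x')⁻¹ = x * (x' * ι p * x'⁻¹) * x⁻¹ := by group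
    rw [e, h2.1, h1.1]
    refine congrArg ι (Heis.ext ?_ ?_ ?_)
    · simp only [mul_assoc]
    · simp only [mul_assoc]
    · simp only [AddMonoidHom.add_apply, AddMonoidHom.comp_apply, AddMonoidHom.coe_mulLeft]
      ring
  · have e : x * x' * t * (x * x')⁻¹ = x * (x' * t * x'⁻¹) * x⁻¹ := by group
    have e' : ∀ d : G, x * (t * d) * x⁻¹ = x * t * x⁻¹ * (x * d * x⁻¹) := fun d => by group
    unfold Tr
    rw [e, h2.2, e', h1.2, h1.1, mul_assoc, ← map_mul]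
    refine congrArg (fun p => t * ι p) (Heis.ext ?_ ?_ ?_) <;> simp

theorem f2_h {ι : Heis F4 →* G} {L S : Subgroup G} {t h : G} (H : Loc ι L S t h) : f2Sh ι t h om om 0 0 0 := by
  refine ⟨fun p => (H.ah p).trans (congrArg ι (Heis.ext rfl rfl (by simp [dg]))), ?_⟩
  unfold Tr
  rw [mem_centralizer_iff.1 H.tK h H.hL, mul_inv_cancel_right, ← Heis.one_def, map_one, mul_one]

theorem f2_inner {ι : Heis F4 →* G} {L S : Subgroup G} {t h : G} (H : Loc ι L S t h) (a b : F4) :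
    f2Sh ι t (ι ⟨a, b, 0⟩) 1 1 0 (AddMonoidHom.mulLeft b) (AddMonoidHom.mulLeft a) := by
  refine ⟨fun p => ?_, ?_⟩
  · rw [← map_inv, ← map_mul, ← map_mul]
    refine congrArg ι ?_
    obtain ⟨a', b', c'⟩ := p
    simp only [AddMonoidHom.coe_mulLeft]
    revert a b a' b' c'
    decide +kernel
  · unfold Tr
    rw [mem_centralizer_iff.1 H.tK _ (H.mem _), mul_inv_cancel_right, ← Heis.one_def, map_one, mul_one]

/-- the shape of an automorphism preserving `A` and `B` -/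
theorem f2_shape (f : MulAut (Heis F4)) (hA : ∀ p, p.b = 0 → (f p).b = 0) (hB : ∀ p, p.a = 0 → (f p).a = 0)
    (hD : ∀ c, f ⟨0, 0, c⟩ = ⟨0, 0, c⟩ → c = 0) :
    ∃ (u w : F4) (χ ψ : F4 →+ F4), (u * w = om ∨ u * w = om * om) ∧
      ∀ p, f p = ⟨u * p.a, w * p.b, χ p.a + ψ p.b + u * w * p.c⟩ := by
  have m1 : ∀ a a' : F4, (⟨a + a', 0, 0⟩ : Heis F4) = ⟨a, 0, 0⟩ * ⟨a', 0, 0⟩ := by decide +kernel
  have m2 : ∀ a a' : F4, (⟨0, a + a', 0⟩ : Heis F4) = ⟨0, a, 0⟩ * ⟨0, a', 0⟩ := by decide +kernel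
  have m3 : ∀ a a' : F4, (⟨0, 0, a + a'⟩ : Heis F4) = ⟨0, 0, a⟩ * ⟨0, 0, a'⟩ := by decide +kernel
  have m4 : ∀ a b c : F4, (⟨a, b, c⟩ : Heis F4) = ⟨0, b, 0⟩ * ⟨a, 0, 0⟩ * ⟨0, 0, c⟩ := by decide +kernel
  have m5 : ∀ a b : F4, (⟨a, 0, 0⟩ * ⟨0, b, 0⟩ : Heis F4) = ⟨0, b, 0⟩ * ⟨a, 0, 0⟩ * ⟨0, 0, a * b⟩ := by
    decide +kernel
  let χ : F4 →+ F4 := AddMonoidHom.mk' (fun a => (f ⟨a, 0, 0⟩).c) fun a a' => by
    rw [m1, map_mul, Heis.mul_c, hA ⟨a', 0, 0⟩ rfl, mul_zero, add_zero]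
  let ψ : F4 →+ F4 := AddMonoidHom.mk' (fun a => (f ⟨0, a, 0⟩).c) fun a a' => by
    rw [m2, map_mul, Heis.mul_c, hB ⟨0, a, 0⟩ rfl, zero_mul, add_zero]
  let δ : F4 →+ F4 := AddMonoidHom.mk' (fun a => (f ⟨0, 0, a⟩).c) fun a a' => by
    rw [m3, map_mul, Heis.mul_c, hB ⟨0, 0, a⟩ rfl, zero_mul, add_zero]
  have eD : ∀ c, f ⟨0, 0, c⟩ = ⟨0, 0, δ c⟩ := fun c => Heis.ext (hB _ rfl) (hA _ rfl) rfl
  have eA : ∀ a, f ⟨a, 0, 0⟩ = ⟨(f ⟨a, 0, 0⟩).a, 0, χ a⟩ := fun c => Heis.ext rfl (hA _ rfl) rfl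
  have eB : ∀ b, f ⟨0, b, 0⟩ = ⟨0, (f ⟨0, b, 0⟩).b, ψ b⟩ := fun c => Heis.ext (hB _ rfl) rfl rfl
  have cm : ∀ a b, (f ⟨a, 0, 0⟩).a * (f ⟨0, b, 0⟩).b = δ (a * b) := fun a b => by
    have e := congrArg (fun p => (f p).c) (m5 a b)
    beta_reduce at e
    rw [map_mul, map_mul, map_mul, eA, eB, eD] at e
    simp only [Heis.mul_c, Heis.mul_a, mul_zero, add_zero, zero_add] at e
    linear_combination e
  have k : ∀ d1 d2 : F4, (∀ c, f2L d1 d2 c = 0 → c = 0) → (∀ c, f2L d1 d2 c = c → c = 0) →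
      (d1 = om ∨ d1 = om * om) ∧ ∀ c, f2L d1 d2 c = d1 * c := by decide +kernel
  obtain ⟨k1, k2⟩ := k (δ 1) (δ om) (fun c hc => by
      rw [← f2_lin] at hc
      have e := eD c
      rw [hc, ← Heis.one_def, map_eq_one_iff f f.injective] at e
      exact congrArg Heis.c e)
    (fun c hc => hD c (by rw [← f2_lin] at hc; rw [eD, hc]))
  have k3 : ∀ c, δ c = δ 1 * c := fun c => (f2_lin δ c).trans (k2 c)
  have k4 := cm 1 1
  rw [mul_one] at k4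
  have z : ∀ u w x a : F4, (u * w = om ∨ u * w = om * om) →
      (x * w = u * w * a → x = u * a) ∧ (u * x = u * w * a → x = w * a) := by decide +kernel
  rw [← k4] at k1 k3
  refine ⟨_, _, χ, ψ, k1, fun ⟨a, b, c⟩ => ?_⟩
  have ea := (z _ _ (f ⟨a, 0, 0⟩).a a k1).1 (by rw [cm, mul_one, k3])
  have eb := (z _ _ (f ⟨0, b, 0⟩).b b k1).2 (by rw [cm, one_mul, k3])
  rw [m4 a b c, map_mul, map_mul, eA a, eB b, eD, ← m4 a b c, k3, ea, eb]
  refine Heis.ext ?_ ?_ ?_ <;> simp [add_comm]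

theorem f2_end {ι : Heis F4 →* G} {L S : Subgroup G} {t h v : G} (H : Loc ι L S t h) {u w c : F4}
    {χ ψ : F4 →+ F4} (h0 : f2Sh ι t v u w c χ ψ) (huw : u * w = 1) (hc : c ≠ 0) :
    ∃ v, CT ι v ∧ ∃ c, c ≠ 0 ∧ Tr ι t v ⟨0, 0, c⟩ := by
  have z : ∀ u w c : F4, u * w = 1 → u * u * u = 1 ∧ w * w * w = 1 ∧ c + u * w * c + u * u * (w * w) * c = c := by
    decide +kernel
  obtain ⟨z1, z2, z3⟩ := z u w c huw
  have h1 := f2_mul (f2_mul h0 h0) h0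
  rw [z1, z2, z3] at h1
  generalize v * v * v = v1 at h1
  obtain ⟨χ1, ψ1, h1⟩ : ∃ χ1 ψ1, f2Sh ι t v1 1 1 c χ1 ψ1 := ⟨_, _, h1⟩
  have k : ∀ x1 x2 : F4, ∃ b, ∀ a, b * a + (f2L x1 x2 a + om * om * f2L x1 x2 (om * (om * a))) = 0 := by
    decide +kernel
  obtain ⟨b0, kb⟩ := k (χ1 1) (χ1 om)
  obtain ⟨a0, ka⟩ := k (ψ1 1) (ψ1 om)
  simp only [← f2_lin] at ka kb
  have hh := f2_h H
  obtain ⟨h2, h3⟩ := f2_mul (f2_inner H a0 b0) (f2_mul (f2_mul (f2_mul (f2_mul h1 hh) h1) hh) hh)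
  have o3 : om * (om * om) = 1 := by decide +kernel
  have o3' : ∀ a, om * (om * (om * a)) = a := by decide +kernel
  refine ⟨_, fun p => ?_, _, ?_, h3⟩
  · rw [← mul_inv_eq_iff_eq_mul, h2]
    refine congrArg ι (Heis.ext ?_ ?_ ?_)
    · simp only [one_mul, mul_one, mul_assoc, o3']
    · simp only [one_mul, mul_one, mul_assoc, o3']
    · simp only [AddMonoidHom.add_apply, AddMonoidHom.comp_apply, AddMonoidHom.coe_mulLeft, one_mul, mul_one,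
        AddMonoidHom.zero_apply, mul_zero, add_zero, mul_assoc, o3', o3]
      linear_combination kb p.a + ka p.b
  · have q : ∀ c : F4, c + om * om * c = 0 → c = 0 := by decide +kernel
    intro e
    exact hc (q c (by simpa using e))

theorem f2S : F2S.{u} := by
  intro G _ ι L S t h y f H hy hA hB hD ⟨c, hc, ht⟩
  obtain ⟨u, w, χ, ψ, huw, e⟩ := f2_shape f hA hB hD
  have h0 : f2Sh ι t y u w c χ ψ := ⟨fun p => (hy p).trans (congrArg ι (e p)), ht⟩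
  have hh := f2_h H
  have z : ∀ u w : F4, (u * w = om → u * om * (w * om) = 1) ∧ (u * w = om * om → u * om * om * (w * om * om) = 1) := by
    decide +kernel
  rcases huw with k | k
  · exact f2_end H (f2_mul h0 hh) ((z u w).1 k) (by simpa using hc)
  · exact f2_end H (f2_mul (f2_mul h0 hh) hh) ((z u w).2 k) (by simpa using hc)

end CL.L34
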