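/-
Standard subgroups of type `L_3(4)` whose centralizer has 2-rank one: assembling the parts.
-/
import Cfsg.Agent.L34.Defs
import Cfsg.Agent.C2Low.Basic

set_option autoImplicit false

universe u

namespace CL.L34
open Subgroup CL.Grp

variable {G : Type u} [Group G] [Finite G]

/-- the doubling -/
theorem dbl_of (sf : SFS.{u}) (sg : SGS.{u}) (f1 : F1S.{u}) (f2 : F2S.{u}) (q : QS.{u}) (w : WS.{u}) (y : YS.{u})
    (p1 : P1S.{u}) (p2 : P2S.{u}) {ι : Heis F4 →* G} {L S : Subgroup G} {t h : G} (H : Loc ι L S t h)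
    (ni : ∃ g : G, g * t * g⁻¹ ≠ t ∧ g * t * g⁻¹ * t = t * (g * t * g⁻¹)) :
    SF ι L S t ∧ SG ι S t ∧ ∃ (ν : F4) (Φ : Heis (R16 ν) →* G), Dbl ι t Φ := by
  have hF := sf G ι L S t h H
  obtain ⟨two, y0, f, a1, a2, a3, a4, a5⟩ := f1 G ι L S t h H hF ni
  have fu : Fus ι L t := ⟨two, f2 G ι L S t h y0 f H a1 a2 a3 a4 a5⟩
  obtain ⟨Q, hQ⟩ := q G ι L S t h H fu
  obtain ⟨Q', hQ'⟩ := q G _ L S t h H.swap fu.swap
  obtain ⟨w0, l, hw⟩ := w G ι L S Q t h H fu hQ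
  obtain ⟨YA, hA⟩ := y G ι L S Q t h w0 l H hQ hw
  obtain ⟨YB, hB⟩ := y G _ L S Q' t h w0 l H.swap hQ' hw.swap
  exact ⟨hF, sg G ι L S t h H fu, p2 G ι L S YA YB t h w0 H hA hB (p1 G ι L S YA YB t h w0 l H fu hw hA hB)⟩

omit [Finite G] in
theorem rk_of_rank {K : Subgroup G} (hr : Cfsg.PRankLE 2 1 K) {t x : G} (ht : t ∈ K) (tt : t * t = 1) (t1 : t ≠ 1)
    (hx : x ∈ K) (xx : x * x = 1) (hc : x * t = t * x) : x = 1 ∨ x = t := by
  by_contra hn
  push Not at hn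
  let a : K := ⟨t, ht⟩
  let b : K := ⟨x, hx⟩
  have aa : a * a = 1 := Subtype.ext tt
  have bb : b * b = 1 := Subtype.ext xx
  have ab : b * a = a * b := Subtype.ext hc
  let E : Subgroup K :=
    { carrier := {1, a, b, a * b}
      one_mem' := by simp
      mul_mem' := by
        have e1 : a * (a * b) = b := by rw [← mul_assoc, aa, one_mul]
        have e2 : b * (a * b) = a := by rw [← mul_assoc, ab, mul_assoc, bb, mul_one]
        have e3 : a * b * a = b := by rw [mul_assoc, ab, e1]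
        have e4 : a * b * b = a := by rw [mul_assoc, bb, mul_one]
        have e5 : a * b * (a * b) = 1 := by rw [mul_assoc, e2, aa]
        rintro u v (rfl | rfl | rfl | rfl) (rfl | rfl | rfl | rfl) <;> simp [aa, bb, ab, e1, e2, e3, e4, e5]
      inv_mem' := by
        have e5 : a * b * (a * b) = 1 := by rw [mul_assoc, ← mul_assoc b, ab, mul_assoc, bb, mul_one, aa]
        rintro u (rfl | rfl | rfl | rfl)
        · simp
        · simp [inv_eq_of_mul_eq_one_right aa]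
        · simp [inv_eq_of_mul_eq_one_right bb]
        · rw [inv_eq_of_mul_eq_one_right e5]; simp }
  have sq : ∀ u ∈ E, u ^ 2 = 1 := by
    have e5 : a * b * (a * b) = 1 := by rw [mul_assoc, ← mul_assoc b, ab, mul_assoc, bb, mul_one, aa]
    rintro u (rfl | rfl | rfl | rfl) <;> simp [pow_two, aa, bb, e5]
  have h4 := hr E ⟨⟨fun u v => Subtype.ext (by
    have h1 := sq _ (mul_mem u.2 v.2)
    have h2 := sq _ u.2
    have h3 := sq _ v.2
    rw [pow_two] at h1 h2 h3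
    show (u : K) * v = v * u
    rw [← inv_eq_of_mul_eq_one_right h1, mul_inv_rev, inv_eq_of_mul_eq_one_right h2,
      inv_eq_of_mul_eq_one_right h3])⟩⟩ sq
  have a1 : a ≠ 1 := fun e => t1 (congrArg Subtype.val e)
  have b1 : b ≠ 1 := fun e => hn.1 (congrArg Subtype.val e)
  have ba : b ≠ a := fun e => hn.2 (congrArg Subtype.val e)
  have h3 : Nat.card E = ({1, a, b, a * b} : Set K).ncard := (Nat.card_coe_set_eq _)
  have h5 : ({1, a, b} : Set K).ncard ≤ ({1, a, b, a * b} : Set K).ncard :=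
    Set.ncard_le_ncard (by intro u; simp; tauto) (Set.toFinite _)
  rw [Set.ncard_insert_of_notMem (by simp [a1.symm, b1.symm]), Set.ncard_pair ba.symm] at h5
  omega

theorem cyc_of (m1 : ModS) (m2 : LocS.{u}) (sf : SFS.{u}) (sg : SGS.{u}) (f1 : F1S.{u}) (f2 : F2S.{u}) (q : QS.{u})
    (w : WS.{u}) (y : YS.{u}) (p1 : P1S.{u}) (p2 : P2S.{u}) (e1 : SigS) (e2 : DichS) (ta : TaS.{u}) (tb : TbS.{u})
    (tc : TcS.{u}) (np : NpS.{u}) (tr : TrS.{u}) : Cyc.{u} := by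
  intro G _ _ _ hG L hL hZ F _ _ hF e hr
  obtain ⟨⟨t, ht⟩, h2⟩ := exists_prime_orderOf_dvd_card' (G := centralizer (L : Set G)) 2 hL.2.1.1.two_dvd
  have ho : orderOf t = 2 := by rw [← h2, ← orderOf_coe]
  have tt : t * t = 1 := by rw [← pow_two, ← ho, pow_orderOf_eq_one]
  have t1 : t ≠ 1 := fun e => by simp [e] at ho
  obtain ⟨ι, S, h, H⟩ := m2 m1 G L hL hZ F hF e t ht tt t1 fun x hx => rk_of_rank hr ht tt t1 hx
  obtain ⟨hF, hS, ν, Φ, hD⟩ := dbl_of sf sg f1 f2 q w y p1 p2 H (by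
    by_contra hn
    push Not at hn
    exact CL.C2Low.not_isolated_of_simple hG t ⟨ho, fun g hg => by_contra fun hc => hn g hc hg.symm⟩)
  have hA := ta G ι L S t h ν Φ H hF hS hD
  have hB := tb G ι L S t h ν Φ H hS hD hA
  obtain ⟨sig, hs⟩ := e1 (R16 ν)
  obtain ⟨d1, ⟨d2, d3⟩ | ⟨ε, d2⟩⟩ := e2 ν
  · obtain ⟨U, u1, u2, u3⟩ := np G ι L S t h ν Φ sig H hD hA hB hs (Or.inl d2)
    exact tr G ι S U t ν Φ sig hG tt hD hA hs d1 (Or.inl d3) u1 u2 u3
  · have hC := tc G ι L S t h ν Φ sig ε H hD hB hs d2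
    obtain ⟨U, u1, u2, u3⟩ := np G ι L S t h ν Φ sig H hD hA hB hs (Or.inr ⟨ε, d2, hC⟩)
    exact tr G ι S U t ν Φ sig hG tt hD hA hs d1 (Or.inr ⟨ε, d2, hC⟩) u1 u2 u3

end CL.L34
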