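/-
Standard subgroups of type `L_3(4)`: from the model to the local structure.
-/
import Cfsg.Agent.L34.Defs
import Cfsg.Agent.Fgs.SchurBasic

set_option autoImplicit false

universe u

namespace CL.L34
open Subgroup CL.Grp

variable {G : Type u} [Group G] {Γ : Type} [Group Γ]

/-- `Θ` is the action of `N(L)` on `L / Z(L)` -/
structure m2_Cf (L : Subgroup G) (L0 : Subgroup Γ) (Θ : G → Γ) : Prop where
  mul : ∀ {x y}, x ∈ normalizer (L : Set G) → y ∈ normalizer (L : Set G) → Θ (x * y) = Θ x * Θ y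
  ker : ∀ {x}, x ∈ normalizer (L : Set G) → (Θ x = 1 ↔ x ∈ centralizer (L : Set G))
  mem : ∀ {x}, x ∈ L → Θ x ∈ L0
  surj : ∀ y ∈ L0, ∃ x ∈ L, Θ x = y
  odd : ∀ {x}, x ∈ L → x ∈ centralizer (L : Set G) → Odd (orderOf x)

namespace m2_Cf
variable {L : Subgroup G} {L0 : Subgroup Γ} {Θ : G → Γ} (h : m2_Cf L L0 Θ)
include h

/-- as a homomorphism -/
def hom : normalizer (L : Set G) →* Γ := MonoidHom.mk' (fun n => Θ n) fun a b => h.mul a.2 b.2

theorem one : Θ 1 = 1 := h.hom.map_one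

theorem inv {x : G} (hx : x ∈ normalizer (L : Set G)) : Θ x⁻¹ = (Θ x)⁻¹ := h.hom.map_inv ⟨x, hx⟩

theorem cj {n x : G} (hn : n ∈ normalizer (L : Set G)) (hx : x ∈ normalizer (L : Set G)) :
    Θ (n * x * n⁻¹) = Θ n * Θ x * (Θ n)⁻¹ := by
  rw [h.mul (mul_mem hn hx) (inv_mem hn), h.mul hn hx, h.inv hn]

theorem conj (hn : L0.Normal) (γ : Γ) : m2_Cf L L0 fun x => γ * Θ x * γ⁻¹ := by
  refine ⟨fun hx hy => by rw [h.mul hx hy]; group, fun hx => by rw [← h.ker hx]; simp,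
    fun hx => hn.conj_mem _ (h.mem hx) γ, fun y hy => ?_, h.odd⟩
  obtain ⟨x, hx, e⟩ := h.surj _ (hn.conj_mem' _ hy γ)
  exact ⟨x, hx, by rw [e]; group⟩

theorem lift {x y : G} (hx : x ∈ L) (hy : y ∈ L) (h1 : Two x) (h2 : Two y) (e : Θ x = Θ y) : x = y := by
  have hz : x⁻¹ * y ∈ L := mul_mem (inv_mem hx) hy
  have hk := (h.ker (le_normalizer hz)).1 (by
    rw [h.mul (le_normalizer (inv_mem hx)) (le_normalizer hy), h.inv (le_normalizer hx), e, inv_mul_cancel])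
  obtain ⟨a, ha⟩ := h1
  obtain ⟨b, hb⟩ := h2
  have h3 : Commute x (x⁻¹ * y) := hk x hx
  have h5 := h3.mul_pow (2 ^ (a + b))
  rw [mul_inv_cancel_left, show y ^ 2 ^ (a + b) = 1 by rw [add_comm, pow_add, pow_mul, hb, one_pow],
    show x ^ 2 ^ (a + b) = 1 by rw [pow_add, pow_mul, ha, one_pow], one_mul] at h5
  exact inv_mul_eq_one.1 (orderOf_eq_one_iff.1 (Nat.Coprime.eq_one_of_dvd
    (Nat.Coprime.pow_right _ (Nat.coprime_two_right.2 (h.odd hz hk))) (orderOf_dvd_of_pow_eq_one h5.symm)))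

theorem rel {n x y : G} (hn : n ∈ normalizer (L : Set G)) (hx : x ∈ L) (hy : y ∈ L) (h1 : Two x) (h2 : Two y)
    (e : Θ n * Θ x * (Θ n)⁻¹ = Θ y) : n * x * n⁻¹ = y :=
  h.lift ((mem_normalizer_iff.1 hn x).1 hx) hy (h1.imp fun k hk => by rw [conj_pow, hk]; simp) h2
    ((h.cj hn (le_normalizer hx)).trans e)

theorem split {k l : G} (hk : k ∈ centralizer (L : Set G)) (hl : l ∈ L) (e : k * l * (k * l) = 1) :
    ∃ k' ∈ centralizer (L : Set G), ∃ l' ∈ L, k * l = k' * l' ∧ k' * k' = 1 ∧ l' * l' = 1 := by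
  have c1 : Commute l k := hk l hl
  have e1 : k * k * (l * l) = 1 := by
    calc _ = k * (k * l) * l := by group
      _ = k * (l * k) * l := by rw [c1.eq]
      _ = _ := by rw [← e]; group
  have z1 : l * l ∈ L := mul_mem hl hl
  have z2 : l * l ∈ centralizer (L : Set G) := eq_inv_of_mul_eq_one_right e1 ▸ inv_mem (mul_mem hk hk)
  obtain ⟨m, hm⟩ := h.odd z1 z2
  have s1 := pow_mem z1 (m + 1)
  have s2 := pow_mem z2 (m + 1)
  have s3 : (l * l) ^ (m + 1) * (l * l) ^ (m + 1) = l * l := by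
    rw [← pow_add, show m + 1 + (m + 1) = 2 * m + 1 + 1 by ring, pow_succ, ← hm, pow_orderOf_eq_one, one_mul]
  generalize (l * l) ^ (m + 1) = s at s1 s2 s3
  have c2 : Commute s k := hk s s1
  have c3 : Commute l s := s2 l hl
  refine ⟨k * s, mul_mem hk s2, s⁻¹ * l, mul_mem (inv_mem s1) hl, by group, ?_, ?_⟩
  · rw [← e1, ← s3, mul_assoc, mul_assoc, ← mul_assoc s k s, c2.eq, mul_assoc]
  · rw [mul_assoc, ← mul_assoc l, c3.inv_right.eq, mul_assoc, ← s3]; group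

end m2_Cf

theorem m2_exists_cf [Finite G] {ι0 : Heis F4 →* Γ} {L0 S0 : Subgroup Γ} {h0 : Γ} (D : Mod ι0 L0 S0 h0)
    (L : Subgroup G) (hp : Group.IsPerfect L) (ho : Odd (Nat.card (center L))) (q : L ⧸ center L ≃* L0) :
    ∃ Θ, m2_Cf L L0 Θ := by
  classical
  let ρ : L →* L0 := q.toMonoidHom.comp (QuotientGroup.mk' _)
  have hs : Function.Surjective ρ := q.surjective.comp (QuotientGroup.mk'_surjective _)
  have hk : ρ.ker = center L := by ext x; simp [ρ]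
  have h1 : ∀ x : normalizer (L : Set G), ∃ γ : Γ, ∀ m : L,
      (ρ (L.normalizerMonoidHom x m) : Γ) = γ * ρ m * γ⁻¹ := fun x => by
    obtain ⟨γ, hγ⟩ := D.aut (MulAut.congr q (QuotientGroup.congr (center L) (center L) (L.normalizerMonoidHom x)
      (characteristic_iff_map_eq.1 inferInstance _)))
    refine ⟨γ, fun m => ?_⟩
    rw [← hγ]
    simp [ρ]
    rfl
  choose Θ₀ h1 using h1
  have h2 : ∀ γ γ' : Γ, (∀ m : L, γ * ρ m * γ⁻¹ = γ' * ρ m * γ'⁻¹) → γ = γ' := fun γ γ' h =>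
    (inv_mul_eq_one.1 (D.cen (γ'⁻¹ * γ) fun l hl => by
      obtain ⟨m, hm⟩ := hs ⟨l, hl⟩
      have := h m
      rw [hm] at this
      calc l * (γ'⁻¹ * γ) = γ'⁻¹ * (γ' * l * γ'⁻¹) * γ := by group
        _ = _ := by rw [← this]; group)).symm
  let Θ : normalizer (L : Set G) →* Γ := MonoidHom.mk' Θ₀ fun x y => h2 _ _ fun m => by
    rw [← h1, map_mul, MulAut.mul_apply, h1, h1]; group
  have h3 : ∀ m : L, Θ ⟨m, le_normalizer m.2⟩ = ρ m := fun m => h2 _ _ fun m' => by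
    show Θ₀ _ * _ * (Θ₀ _)⁻¹ = _
    rw [← h1, ← coe_mul, ← coe_inv, ← coe_mul, ← map_mul, ← map_inv, ← map_mul]
    rfl
  refine ⟨fun x => if hx : x ∈ normalizer (L : Set G) then Θ ⟨x, hx⟩ else 1, fun hx hy => ?_, fun {x} hx => ?_,
    fun {x} hx => ?_, fun y hy => ?_, fun {x} hx hc => ?_⟩
  · rw [dif_pos hx, dif_pos hy, dif_pos (mul_mem hx hy), ← map_mul]; rfl
  · rw [dif_pos hx]
    refine ⟨fun e m hm => ?_, fun e => h2 _ _ fun m => ?_⟩
    · have h5 := CL.Schur.lift_unique_of_perfect hk.le hp (L.normalizerMonoidHom ⟨x, hx⟩).toMonoidHom (MonoidHom.id L)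
        (MonoidHom.ext fun m => Subtype.ext ((h1 ⟨x, hx⟩ m).trans (by
          rw [show Θ₀ ⟨x, hx⟩ = 1 from e]; simp)))
      exact (mul_inv_eq_iff_eq_mul.1 (congrArg Subtype.val (DFunLike.congr_fun h5 ⟨m, hm⟩))).symm
    · show Θ₀ _ * _ * (Θ₀ _)⁻¹ = _
      rw [← h1, show L.normalizerMonoidHom ⟨x, hx⟩ m = m from
        Subtype.ext (mul_inv_eq_iff_eq_mul.2 (e m m.2).symm)]
      simp
  · rw [dif_pos (le_normalizer hx), h3 ⟨x, hx⟩]; exact (ρ ⟨x, hx⟩).2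
  · obtain ⟨m, hm⟩ := hs ⟨y, hy⟩
    exact ⟨m, m.2, by rw [dif_pos (le_normalizer m.2), h3 m, hm]⟩
  · refine ho.of_dvd_nat ?_
    rw [← Subgroup.orderOf_mk x hx]
    exact Subgroup.orderOf_dvd_natCard _ (mem_center_iff.2 fun y => Subtype.ext (hc y y.2))

theorem m2_exists_iota [Finite G] {ι0 : Heis F4 →* Γ} {L0 S0 : Subgroup Γ} {h0 : Γ} (D : Mod ι0 L0 S0 h0)
    {L T : Subgroup G} {Θ : G → Γ} (h : m2_Cf L L0 Θ) (hT : IsSylowIn 2 T L) (hS : ∀ s ∈ T, Θ s ∈ S0) :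
    ∃ ι : Heis F4 →* G, (∀ p, ι p ∈ T) ∧ ∀ p, Θ (ι p) = ι0 p := by
  have := D.fin
  let ρ : L →* L0 := (h.hom.comp (inclusion le_normalizer)).codRestrict _ fun x => h.mem x.2
  have hs : Function.Surjective ρ := fun ⟨y, hy⟩ =>
    let ⟨x, hx, e⟩ := h.surj y hy
    ⟨⟨x, hx⟩, Subtype.ext e⟩
  have e1 : S0.subgroupOf L0 = (hT.toSylow.mapSurjective hs : Subgroup L0) :=
    (hT.toSylow.mapSurjective hs).3 (D.sS.isPGroup.comap_subtype (K := L0)) (by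
      rintro _ ⟨x, hx, rfl⟩
      exact hS x hx)
  have h1 : ∀ p, ∃ x ∈ T, Θ x = ι0 p := fun p => by
    obtain ⟨x, hx, e⟩ := e1.le (show (⟨ι0 p, D.sT.le ⟨p, rfl⟩⟩ : L0) ∈ S0.subgroupOf L0 from D.TS p)
    exact ⟨x, hx, congrArg Subtype.val e⟩
  choose f h1 h2 using h1
  have tw : ∀ x ∈ T, Two x := fun x hx => (hT.isPGroup ⟨x, hx⟩).imp fun k hk => congrArg Subtype.val hk
  refine ⟨MonoidHom.mk' f fun p q => ?_, h1, h2⟩
  have := mul_mem (h1 p) (h1 q)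
  exact h.lift (hT.le (h1 _)) (hT.le this) (tw _ (h1 _)) (tw _ this) (by
    rw [h.mul (le_normalizer (hT.le (h1 p))) (le_normalizer (hT.le (h1 q))), h2, h2, h2, map_mul])

theorem locS : LocS.{u} := by
  rintro ⟨Γ, _, ι0, L0, S0, h0, D⟩ G _ _ L ⟨⟨hp, -⟩, ⟨-, htight⟩, -, hN⟩ ho F _ _ hF ⟨e⟩ t tK tt t1 rk
  have := D.fin
  obtain ⟨e'⟩ := D.iso F hF
  obtain ⟨Θ', h'⟩ := m2_exists_cf D L hp ho (e.trans e'.symm)
  have tight : ∀ g : G, ∀ x ∈ centralizer (L : Set G), x * x = 1 → x ≠ 1 → g * x * g⁻¹ ∈ centralizer (L : Set G) →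
      g ∈ normalizer (L : Set G) := fun g x hx a b c => by_contra fun hg => by
    have h1 : Odd (orderOf x) := (htight g (hN ▸ hg)).of_dvd_nat (by
      rw [← (MulAut.conj g).orderOf_eq]
      exact Subgroup.orderOf_dvd_natCard _ ⟨c, _, hx, rfl⟩)
    rw [orderOf_eq_prime (by rw [pow_two, a]) b] at h1
    exact absurd h1 (by decide)
  have hC : centralizer {t} ≤ normalizer (L : Set G) := fun g hg => tight g t tK tt t1 (by
    rwa [mem_centralizer_singleton_iff.1 hg, mul_inv_cancel_right])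
  obtain ⟨S, hS, tS⟩ := exists_isSylowIn_ge (p := 2) (U := zpowers t) (H := centralizer {t})
    (IsPGroup.of_card (n := 1) (by rw [Nat.card_zpowers, orderOf_eq_prime (by rw [pow_two, tt]) t1]; rfl))
    (zpowers_le.2 (mem_centralizer_singleton_iff.2 rfl))
  obtain ⟨γ, -, hγ⟩ := D.sS.exists_conj_le ((hS.isPGroup.comap_subtype (K := normalizer (L : Set G))).map h'.hom) le_top
  have h := h'.conj D.nor γ
  have hS0 : ∀ s ∈ S, (fun x => γ * Θ' x * γ⁻¹) s ∈ S0 := fun s hs =>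
    (conj_smul_le_iff _ _ _).1 hγ _ ⟨⟨s, hC (hS.le hs)⟩, hs, rfl⟩
  generalize (fun x => γ * Θ' x * γ⁻¹) = Θ at h hS0
  obtain ⟨ι, i1, i2⟩ := m2_exists_iota D h (hS.inf_of_normalized
    (fun l hl => mem_centralizer_singleton_iff.2 (tK l hl)) hC) fun s hs => hS0 s hs.1
  have iL : ∀ p, ι p ∈ L := fun p => (i1 p).2
  have iN : ∀ p, ι p ∈ normalizer (L : Set G) := fun p => le_normalizer (iL p)
  have tw : ∀ p, Two (ι p) := fun p => (hS.isPGroup ⟨_, (i1 p).1⟩).imp fun k hk => congrArg Subtype.val hk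
  have rel : ∀ {n}, n ∈ normalizer (L : Set G) → ∀ {p q}, Θ n * ι0 p * (Θ n)⁻¹ = ι0 q → n * ι p * n⁻¹ = ι q :=
    fun hn p q e => h.rel hn (iL p) (iL q) (tw p) (tw q) (by rw [i2, i2, e])
  have ker : ∀ {n}, n ∈ normalizer (L : Set G) → ∀ {p}, ι0 p * Θ n = 1 → ι p * n ∈ centralizer (L : Set G) :=
    fun hn p e => (h.ker (mul_mem (iN p) hn)).1 (by rw [h.mul (iN p) hn, i2, e])
  have cm : ∀ {n}, n ∈ normalizer (L : Set G) → ∀ {p}, n * ι p = ι p * n → Θ n * ι0 p = ι0 p * Θ n :=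
    fun hn p e => by rw [← i2, ← h.mul hn (iN p), e, h.mul (iN p) hn]
  obtain ⟨k, hk, rfl⟩ := h.surj h0 D.hL
  have k3 : k ^ 3 ∈ centralizer (L : Set G) := (h.ker (le_normalizer (pow_mem hk 3))).1
    ((h.hom.map_pow ⟨k, le_normalizer hk⟩ 3).trans D.h3)
  refine ⟨ι, S, k, fun p q e => D.inj (by rw [← i2, e, i2]), iL, tK, tt, t1,
    fun p hp => D.inj (by rw [← i2, (h.ker (iN p)).2 hp, map_one]), hk, ?_, k3,
    fun p => rel (le_normalizer hk) (D.ah p), tight, rk, fun k hk l hl => h.split hk hl, fun l hl a b => ?_,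
    fun n hn a => ?_, fun n hn a => ?_, fun n hn a => ?_, ?_, ?_, fun x hx y hy a => ?_, hS, fun p => (i1 p).1,
    tS (mem_zpowers t), fun s hs => ?_⟩
  · refine ((by decide : Odd 3).mul (h.odd (pow_mem hk 3) k3)).of_dvd_nat (orderOf_dvd_of_pow_eq_one ?_)
    rw [pow_mul, pow_orderOf_eq_one]
  · have tl : Two l := ⟨1, by rw [pow_one, pow_two, a]⟩
    obtain ⟨_, hm', e⟩ := D.cls _ (h.mem hl) (by rw [← h.mul (le_normalizer hl) (le_normalizer hl), a, h.one])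
      fun e => b (h.lift hl (one_mem _) tl ⟨0, one_pow _⟩ (e.trans h.one.symm))
    obtain ⟨m, hm, rfl⟩ := h.surj _ hm'
    exact ⟨m, hm, h.rel (le_normalizer hm) hl (iL _) tl (tw _) (e.trans (i2 _).symm)⟩
  · obtain ⟨x, c, e⟩ := D.cA (Θ n) fun x c => cm hn (a x c)
    exact ⟨x, c, ker hn e⟩
  · obtain ⟨x, c, e⟩ := D.cB (Θ n) fun x c => cm hn (a x c)
    exact ⟨x, c, ker hn e⟩
  · obtain ⟨p, e⟩ := D.cT (Θ n) fun p => (a p).imp fun c e => by rw [← i2, ← h.cj hn (iN p), e, i2]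
    exact ⟨p, ker hn e⟩
  · obtain ⟨_, hm', a1, a2⟩ := D.mA
    obtain ⟨m, hm, rfl⟩ := h.surj _ hm'
    exact ⟨m, hm, fun c => rel (le_normalizer hm) (a1 c),
      fun a c => (a2 a c).imp fun p e => (rel (le_normalizer hm) e.symm).symm⟩
  · obtain ⟨_, hm', a1, a2⟩ := D.mB
    obtain ⟨m, hm, rfl⟩ := h.surj _ hm'
    exact ⟨m, hm, fun c => rel (le_normalizer hm) (a1 c),
      fun a c => (a2 a c).imp fun p e => (rel (le_normalizer hm) e.symm).symm⟩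
  · obtain ⟨lam, hl⟩ := D.lam
    have hc := mul_mem (mul_mem (mul_mem hx hy) (inv_mem hx)) (inv_mem hy)
    have e1 : Θ (x * y * x⁻¹ * y⁻¹) = Θ x * Θ y * (Θ x)⁻¹ * (Θ y)⁻¹ := by
      rw [h.mul (mul_mem (mul_mem hx hy) (inv_mem hx)) (inv_mem hy), h.cj hx hy, h.inv hy]
    have e2 := congrArg (fun z => lam (Θ z)) a
    simp only [h.mul hc hc, h.one, e1, map_mul, map_inv, map_one] at e2
    obtain ⟨l, hl', e⟩ := h.surj _ ((hl (Θ (x * y * x⁻¹ * y⁻¹))).1 (by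
      simp only [e1, map_mul, map_inv]
      exact (by decide : ∀ a b : DihedralGroup 6, a * b * a⁻¹ * b⁻¹ * (a * b * a⁻¹ * b⁻¹) = 1 →
        a * b * a⁻¹ * b⁻¹ = 1) _ _ e2))
    have hi := inv_mem (le_normalizer hl')
    exact ⟨_, (h.ker (mul_mem hc hi)).1 (by rw [h.mul hc hi, h.inv (le_normalizer hl'), e, mul_inv_cancel]), l, hl',
      (inv_mul_cancel_right _ _).symm⟩
  · obtain ⟨p, i, j, a1, a2⟩ := D.act _ (hS0 s hs)
    have hn := hC (hS.le hs)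
    exact ⟨p, i, j, fun q => rel (mul_mem (iN p) hn) (by rw [h.mul (iN p) hn, i2]; exact a1 q),
      fun b1 b2 => ker hn (a2 b1 b2)⟩

end CL.L34
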