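/-
Standard subgroups of type `L_3(4)`: a Sylow 2-subgroup of `G` normalizes `P` (job L34-NP).
-/
import Cfsg.Agent.L34.Defs

set_option autoImplicit false

universe u

namespace CL.L34
open Subgroup CL.Grp

/-- the centralizer of `(a, b, *)` -/
def npH {R : Type} [CommRing R] (a b : R) : Subgroup (Heis R) where
  carrier := {q | a * q.b = q.a * b}
  mul_mem' := by
    intro p q hp hq
    simp only [Set.mem_setOf_eq, Heis.mul_a, Heis.mul_b] at hp hq ⊢
    linear_combination hp + hq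
  one_mem' := by simp
  inv_mem' := by
    intro p hp
    simp only [Set.mem_setOf_eq, Heis.inv_a, Heis.inv_b] at hp ⊢
    linear_combination -hp

theorem np_mem {R : Type} [CommRing R] {a b : R} {q : Heis R} : q ∈ npH a b ↔ a * q.b = q.a * b := Iff.rfl

theorem np_comm {R : Type} [CommRing R] {a b r s : R} (h : r * a + s * b = 1) {p q : Heis R} (hp : p ∈ npH a b)
    (hq : q ∈ npH a b) : p * q = q * p := by
  rw [np_mem] at hp hq
  refine Heis.ext (add_comm _ _) (add_comm _ _) ?_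
  simp only [Heis.mul_c]
  linear_combination (q.a * p.b - p.a * q.b) * h + (r * p.a + s * p.b) * hq - (r * q.a + s * q.b) * hp

theorem np_card {ν : F4} {a b r s : R16 ν} (h : r * a + s * b = 1) : Nat.card (npH a b) = 256 := by
  have e : R16 ν × R16 ν ≃ npH a b :=
    { toFun := fun k => ⟨⟨k.1 * a, k.1 * b, k.2⟩, by rw [np_mem]; ring⟩
      invFun := fun q => (r * q.1.a + s * q.1.b, q.1.c)
      left_inv := fun k => Prod.ext (by simp only; linear_combination k.1 * h) rfl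
      right_inv := fun q => Subtype.ext (Heis.ext (by
        have := np_mem.1 q.2
        simp only; linear_combination q.1.a * h + s * this) (by
        have := np_mem.1 q.2
        simp only; linear_combination q.1.b * h - r * this) rfl) }
  rw [← Nat.card_congr e, Nat.card_prod, card_R16]

variable {G : Type u} [Group G]

theorem np_core [Finite G] {ν : F4} (Ψ : Heis (R16 ν) →* G) (hΨ : Function.Injective Ψ) (U Y : Subgroup G)
    (hU : IsPGroup 2 U) (t : G) (A : Set G) (q0 : Heis (R16 ν)) {r s : R16 ν} (huni : r * q0.a + s * q0.b = 1)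
    (hPU : ∀ q, Ψ q ∈ U) (htU : t ∈ U) (hYU : Y ≤ U) (hA : ∀ y ∈ A, ∃ q, Ψ q = y ∧ q * q0 = q0 * q)
    (htA : t ∈ centralizer A) (hYA : Y ≤ centralizer A)
    (hb : ∀ X : Subgroup G, IsPGroup 2 X → X ≤ centralizer A → Nat.card X ≤ 512) (hYc : Nat.card Y = 256)
    (hab : ∀ y ∈ Y, ∀ y' ∈ Y, y * y' = y' * y) (htY : t ∉ Y) (hfix : ∀ y ∈ Y, y * t = t * y → y ∈ A)
    (hAc : Nat.card A ≤ 16) : Y ≤ Ψ.range := by
  set H := (npH q0.a q0.b).map Ψ with hH
  set Z := U ⊓ centralizer A with hZ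
  have hHc : Nat.card H = 256 := by
    rw [hH, ← Nat.card_congr ((npH q0.a q0.b).equivMapOfInjective Ψ hΨ).toEquiv, np_card huni]
  have hHZ : H ≤ Z := by
    rintro _ ⟨q, hq, rfl⟩
    refine ⟨hPU q, mem_centralizer_iff.2 fun y hy => ?_⟩
    obtain ⟨q', rfl, e⟩ := hA y hy
    have h' : q' ∈ npH q0.a q0.b := by
      have := congrArg Heis.c e
      simp only [Heis.mul_c] at this
      rw [np_mem]; linear_combination -this
    rw [← map_mul, ← map_mul, np_comm huni h' hq]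
  have hYZ : Y ≤ Z := le_inf hYU hYA
  have hZc : Nat.card Z ≤ 512 := hb Z (hU.to_le inf_le_left) inf_le_right
  have htZ : t ∈ Z := ⟨htU, htA⟩
  have hi : Y.relIndex Z = 2 := by
    have e := (Y.subgroupOf Z).card_mul_index
    rw [Nat.card_congr (subgroupOfEquivOfLe hYZ).toEquiv, hYc] at e
    have h1 : Y.relIndex Z ≠ 1 := fun h => htY (relIndex_eq_one.1 h htZ)
    have h0 : Y.relIndex Z ≠ 0 := index_ne_zero_of_finite
    change 256 * Y.relIndex Z = _ at e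
    omega
  by_cases hHY : H ≤ Y
  · rw [← eq_of_le_of_card_ge hHY (by rw [hHc, hYc])]
    exact map_le_range _ _
  exfalso
  obtain ⟨z, hz, hzY⟩ := SetLike.not_le_iff_exists.1 hHY
  have hy : z * t⁻¹ ∈ Y := by
    have := (mul_mem_iff_of_index_two (H := Y.subgroupOf Z) hi (a := ⟨z, hHZ hz⟩) (b := ⟨t⁻¹, inv_mem htZ⟩)).2
      (by simp only [mem_subgroupOf, inv_mem_iff, hzY, htY])
    exact this
  have h1 : ((Y ⊓ H : Subgroup G) : Set G) ⊆ A := by
    rintro y ⟨hyY, hyH⟩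
    refine hfix y hyY ?_
    have c1 : y * z = z * y := by
      obtain ⟨p, hp, rfl⟩ := hyH
      obtain ⟨q, hq, rfl⟩ := hz
      rw [← map_mul, ← map_mul, np_comm huni hp hq]
    have c2 := hab y hyY _ hy
    have : t = (z * t⁻¹)⁻¹ * z := by group
    rw [this]
    exact ((Commute.inv_right c2).mul_right c1)
  have h2 : Nat.card (Y ⊓ H : Subgroup G) ≤ 16 := (Nat.card_mono (Set.toFinite A) h1).trans hAc
  have h3 : Y.relIndex H ≤ 2 := hi ▸ relIndex_le_of_le_right hHZ (by omega)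
  have e := (Y.subgroupOf H).card_mul_index
  rw [← inf_subgroupOf_right, Nat.card_congr (subgroupOfEquivOfLe (inf_le_right : Y ⊓ H ≤ H)).toEquiv,
    inf_subgroupOf_right, hHc] at e
  change _ * Y.relIndex H = _ at e
  nlinarith

theorem np_uni {ν : F4} {sig : MulAut (Heis (R16 ν)) →* RingAut (R16 ν)} (hs : Sig sig)
    (f : MulAut (Heis (R16 ν))) (hd : (∀ r : R16 ν, r ≠ 0 → ∃ s, s * r = 1) ∨ ∃ ε, Spl ε ∧ sig f ε = 1 + ε)
    {q : Heis (R16 ν)} (hq : f q = q) (h0 : ¬ (q.a = 0 ∧ q.b = 0)) : ∃ r s, r * q.a + s * q.b = 1 := by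
  rcases hd with hd | ⟨ε, hε, e⟩
  · by_cases ha : q.a = 0
    · obtain ⟨s, hs⟩ := hd q.b fun hb => h0 ⟨ha, hb⟩
      exact ⟨0, s, by rw [zero_mul, zero_add, hs]⟩
    · obtain ⟨s, hs⟩ := hd q.a ha
      exact ⟨s, 0, by rw [zero_mul, add_zero, hs]⟩
  rcases hε.uni q.a q.b with h | ⟨h1, h2⟩ | ⟨h1, h2⟩
  · exact h
  · obtain ⟨a1, a2⟩ := (hs f).2 ε q 1 h1.symm h2.symm
    rw [map_one, hq, e] at a1 a2
    simp only [Heis.one_a, Heis.one_b] at a1 a2
    exact (h0 ⟨by linear_combination -a1 - h1, by linear_combination -a2 - h2⟩).elim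
  · have t2 := two_R16 ν
    obtain ⟨a1, a2⟩ := (hs f).2 (1 + ε) q 1 (by simp only [Heis.one_a]; linear_combination -h1 - q.a * t2)
      (by simp only [Heis.one_b]; linear_combination -h2 - q.b * t2)
    rw [map_one, hq, map_add, map_one, e] at a1 a2
    simp only [Heis.one_a, Heis.one_b] at a1 a2
    exact (h0 ⟨by linear_combination -a1 - h1 - q.a * t2, by linear_combination -a2 - h2 - q.b * t2⟩).elim

theorem np_aut {X : Type} [Group X] {Φ : X →* G} (hΦ : Function.Injective Φ) {g : G}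
    (hg : g ∈ normalizer (Φ.range : Set G)) : ∃ f : MulAut X, ∀ q, g * Φ q * g⁻¹ = Φ (f q) := by
  let e := MonoidHom.ofInjective hΦ
  refine ⟨e.trans ((Φ.range.normalizerMonoidHom ⟨g, hg⟩).trans e.symm), fun q => ?_⟩
  have : ∀ y : Φ.range, Φ (e.symm y) = y := fun y => MonoidHom.apply_ofInjective_symm hΦ y
  simp only [MulEquiv.trans_apply, this]
  rfl

theorem np_star {ν : F4} {r : R16 ν} (h : star r = r) : r = ⟨r.re, 0⟩ := by
  have := congrArg QuadraticAlgebra.re h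
  simp only [QuadraticAlgebra.re_star, one_mul, add_eq_left] at this
  exact QuadraticAlgebra.ext rfl this

theorem np_fix {ι : Heis F4 →* G} {t : G} {ν : F4} {Φ : Heis (R16 ν) →* G} (D : Dbl ι t Φ) {q : Heis (R16 ν)}
    (h : Φ q * t = t * Φ q) : Φ q = ι ⟨q.a.re, q.b.re, q.c.re⟩ := by
  have e : (⟨star q.a, star q.b, star q.c⟩ : Heis (R16 ν)) = q := D.inj (by rw [← D.act, ← h]; group)
  rw [← D.ext, ← np_star (congrArg Heis.a e), ← np_star (congrArg Heis.b e), ← np_star (congrArg Heis.c e)]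

theorem npS : NpS.{u} := by
  intro G _ _ ι L S t h ν Φ sig H D T B hs hd
  have hP : IsPGroup 2 Φ.range := IsPGroup.of_card (n := 12) (by
    rw [← Nat.card_congr (MonoidHom.ofInjective D.inj).toEquiv, Heis.card, card_R16]; norm_num)
  obtain ⟨U, hU, hle⟩ := exists_isSylowIn_ge (IsPGroup.to_sup_of_normal_right' H.syl.isPGroup hP T.nS)
    (le_top : S ⊔ Φ.range ≤ ⊤)
  have hSU : S ≤ U := le_sup_left.trans hle
  have hPU : ∀ q, Φ q ∈ U := fun q => hle (mem_sup_right ⟨q, rfl⟩)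
  refine ⟨U, hU, hSU H.tS, ?_⟩
  by_contra hn
  have hlt : U ⊓ normalizer (Φ.range : Set G) < U :=
    lt_of_le_of_ne inf_le_left fun e => hn (e.symm.le.trans inf_le_right)
  obtain ⟨x, hx1, hx0⟩ := SetLike.exists_of_lt (lt_inf_normalizer_of_isPGroup hU.isPGroup hlt)
  obtain ⟨hxU, hxN⟩ := mem_inf.1 hx1
  have hCS : U ⊓ centralizer {t} = S :=
    H.syl.eq_of_le (hU.isPGroup.to_le inf_le_left) (le_inf hSU H.syl.le) inf_le_right
  have ht' : x * t * x⁻¹ ∈ normalizer (Φ.range : Set G) :=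
    ((mem_normalizer_iff.1 hxN t).1 ⟨hSU H.tS, T.nS H.tS⟩).2
  obtain ⟨B1, -, -, B4⟩ := B x ht' fun q e => by
    rw [← hCS]
    refine mem_inf.2 ⟨mul_mem (mul_mem (inv_mem hxU) (hPU q)) hxU, mem_centralizer_singleton_iff.2 ?_⟩
    calc x⁻¹ * Φ q * x * t = x⁻¹ * (Φ q * (x * t * x⁻¹)) * x := by group
      _ = t * (x⁻¹ * Φ q * x) := by rw [e]; group
  obtain ⟨f, hf⟩ := np_aut D.inj ht'
  have tι : ∀ p, ι p * t = t * ι p := fun p => mem_centralizer_iff.1 H.tK _ (H.mem p)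
  have uni : ∀ p q, Φ q = x * ι p * x⁻¹ → ¬ (p.a = 0 ∧ p.b = 0) → ∃ r s, r * q.a + s * q.b = 1 := by
    intro p q e hp
    have c : Φ q * (x * t * x⁻¹) = x * t * x⁻¹ * Φ q := by
      calc Φ q * (x * t * x⁻¹) = x * (ι p * t) * x⁻¹ := by rw [e]; group
        _ = _ := by rw [tι, e]; group
    refine np_uni hs f (hd.imp id fun ⟨ε, a1, a2⟩ => ⟨ε, a1, a2 x f hf⟩) (D.inj (by rw [← hf, ← c]; group)) ?_
    rintro ⟨a1, a2⟩
    have eq : q = ⟨0, 0, q.c⟩ := Heis.ext a1 a2 rfl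
    obtain ⟨c', e'⟩ := B4 q.c (eq ▸ c)
    rw [← eq, e] at e'
    have := H.inj (mul_left_cancel (mul_right_cancel e'))
    exact hp ⟨congrArg Heis.a this, congrArg Heis.b this⟩
  let Ψ : Heis (R16 ν) →* G := (MulAut.conj x⁻¹).toMonoidHom.comp Φ
  have hΨ : ∀ q, Ψ q = x⁻¹ * Φ q * x := fun q => by simp [Ψ]
  have iΨ : Function.Injective Ψ := (MulAut.conj x⁻¹).injective.comp D.inj
  have ΨU : ∀ q, Ψ q ∈ U := fun q => hΨ q ▸ mul_mem (mul_mem (inv_mem hxU) (hPU q)) hxU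
  have tP : t ∉ Φ.range := by
    rintro ⟨q, rfl⟩
    refine T.nW 1 fun u => ?_
    rw [one_mul, inv_one, mul_one, ← map_mul, ← map_mul]
    exact congrArg Φ (Heis.ext (by simp) (by simp) (by simp [add_comm]))
  have key : ∀ (a b r s : R16 ν) (j : F4 × F4 → Heis F4) (k0 : F4 × F4), r * a + s * b = 1 →
      ¬ ((j k0).a = 0 ∧ (j k0).b = 0) → (∀ k, j k * j k0 = j k0 * j k) →
      (∀ k, ∃ q ∈ npH a b, Φ q = ι (j k)) → (∀ q ∈ npH a b, ∃ k, j k = ⟨q.a.re, q.b.re, q.c.re⟩) →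
      (∀ X : Subgroup G, IsPGroup 2 X → (∀ y ∈ X, ∀ k, y * ι (j k) = ι (j k) * y) → Nat.card X ≤ 512) →
      (npH a b).map Φ ≤ Ψ.range := by
    intro a b r s j k0 h1 h2 h3 h4 h5 h6
    obtain ⟨q0, e0⟩ := B1 (j k0)
    obtain ⟨r0, s0, u0⟩ := uni _ _ e0 h2
    have ab : ∀ y ∈ (npH a b).map Φ, ∀ y' ∈ (npH a b).map Φ, y * y' = y' * y := by
      rintro _ ⟨p, hp, rfl⟩ _ ⟨q, hq, rfl⟩
      rw [← map_mul, ← map_mul, np_comm h1 hp hq]
    refine np_core Ψ iΨ U _ hU.isPGroup t (Set.range fun k => ι (j k)) q0 u0 ΨU (hSU H.tS) ?_ ?_ ?_ ?_ ?_ ?_ ab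
      (fun h => tP (map_le_range _ _ h)) ?_ ?_
    · rintro _ ⟨q, -, rfl⟩; exact hPU q
    · rintro _ ⟨k, rfl⟩
      obtain ⟨q, e⟩ := B1 (j k)
      refine ⟨q, by rw [hΨ, e]; group, D.inj ?_⟩
      rw [map_mul, map_mul, e, e0]
      calc x * ι (j k) * x⁻¹ * (x * ι (j k0) * x⁻¹) = x * ι (j k * j k0) * x⁻¹ := by rw [map_mul]; group
        _ = _ := by rw [h3, map_mul]; group
    · exact mem_centralizer_iff.2 (by rintro _ ⟨k, rfl⟩; exact tι _)
    · intro y hy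
      refine mem_centralizer_iff.2 ?_
      rintro _ ⟨k, rfl⟩
      obtain ⟨q, hq, e⟩ := h4 k
      exact ab _ ⟨q, hq, e⟩ y hy
    · exact fun X hX hc => h6 X hX fun y hy k => (mem_centralizer_iff.1 (hc hy) _ ⟨k, rfl⟩).symm
    · rw [← Nat.card_congr ((npH a b).equivMapOfInjective Φ D.inj).toEquiv, np_card h1]
    · rintro _ ⟨q, hq, rfl⟩ e
      obtain ⟨k, hk⟩ := h5 q hq
      exact ⟨k, by rw [np_fix D e, ← hk]⟩
    · exact (Finite.card_range_le _).trans (by rw [Nat.card_prod, card_F4])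
  have z0 : (⟨0, 0⟩ : R16 ν) = 0 := rfl
  have kA := key 1 0 1 0 (fun k => ⟨k.1, 0, k.2⟩) (1, 0) (by ring) (by decide +kernel) (by decide +kernel)
    (fun k => ⟨_, by rw [np_mem, z0]; ring, D.ext _ _ _⟩)
    (fun q hq => ⟨(q.a.re, q.c.re), by
      have : q.b = 0 := by simpa [np_mem] using hq
      rw [this]; rfl⟩)
    fun X hX hc => T.cA X hX fun y hy a c => hc y hy (a, c)
  have kB := key 0 1 0 1 (fun k => ⟨0, k.1, k.2⟩) (1, 0) (by ring) (by decide +kernel) (by decide +kernel)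
    (fun k => ⟨_, by rw [np_mem, z0]; ring, D.ext _ _ _⟩)
    (fun q hq => ⟨(q.b.re, q.c.re), by
      have : 0 = q.a := by simpa [np_mem] using hq
      rw [← this]; rfl⟩)
    fun X hX hc => T.cB X hX fun y hy a c => by
      simpa only [MonoidHom.comp_apply, gr_A] using hc y hy (a, c)
  refine hx0 ⟨hxU, mem_normalizer_fintype ?_⟩
  rintro _ ⟨q, rfl⟩
  have : Φ q ∈ Ψ.range := by
    have e : q = ⟨0, q.b, 0⟩ * ⟨q.a, 0, q.c⟩ := Heis.ext (by simp) (by simp) (by simp)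
    rw [e, map_mul]
    exact mul_mem (kB ⟨_, by simp [np_mem], rfl⟩) (kA ⟨_, by simp [np_mem], rfl⟩)
  obtain ⟨q', e⟩ := this
  exact ⟨q', by rw [← e, hΨ]; group⟩

end CL.L34
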