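/-
Standard subgroups of type `L_3(4)`: the commutator `[Y_A, Y_B]` lies in `W = Y_A ⊓ Y_B`.
-/
import Cfsg.Agent.L34.Defs

set_option autoImplicit false

universe u

namespace CL.L34
open Subgroup CL.Grp

variable {G : Type u} [Group G] {ι : Heis F4 →* G} {L S YA YB : Subgroup G} {t h w : G} {l : F4}

theorem p1_comm {Y : Subgroup G} (hY : ∀ x ∈ Y, x * x = 1) {x y : G} (hx : x ∈ Y) (hy : y ∈ Y) :
    x * y = y * x := by
  have h1 := hY _ (Y.mul_mem hx hy)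
  have h2 := hY x hx
  have h3 := hY y hy
  calc x * y = (x * y)⁻¹ := (inv_eq_of_mul_eq_one_right h1).symm
    _ = y * x := by rw [mul_inv_rev, inv_eq_of_mul_eq_one_right h2, inv_eq_of_mul_eq_one_right h3]

theorem p1_t (H : Loc ι L S t h) (p : Heis F4) : ι p * t = t * ι p := H.tK _ (H.mem p)

theorem p1_gg : (ι.comp gr).comp gr = ι := MonoidHom.ext fun p => congrArg ι (gr_gr p)

theorem p1_Ya {Y : Subgroup G} (H : Ya ι L t h w Y) : Ya ((ι.comp gr).comp gr) L t h w Y := by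
  rwa [p1_gg]

theorem p1_D (H : Loc ι L S t h) {p : Heis F4} (hp : CT ι (ι p)) : p.a = 0 ∧ p.b = 0 :=
  (by decide +kernel : ∀ p : Heis F4, (∀ q, p * q = q * p) → p.a = 0 ∧ p.b = 0) p
    fun q => H.inj (by rw [map_mul, map_mul, hp q])

theorem p1_CT_mul {x y : G} (hx : CT ι x) (hy : CT ι y) : CT ι (x * y) := fun p =>
  (Commute.mul_left (hx p) (hy p) : Commute (x * y) (ι p))

theorem p1_CT_inv {x : G} (hx : CT ι x) : CT ι x⁻¹ := fun p => (Commute.inv_left (hx p) : Commute x⁻¹ (ι p))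

theorem p1_fix {x v : G} (h1 : x * t * x⁻¹ = v * t * v⁻¹) : v⁻¹ * x * t = t * (v⁻¹ * x) := by
  calc v⁻¹ * x * t = v⁻¹ * (x * t * x⁻¹) * x := by group
    _ = t * (v⁻¹ * x) := by rw [h1]; group

section
variable (H : Loc ι L S t h) (HW : Wa ι L t h w l) (HA : Ya ι L t h w YA) (HB : Ya (ι.comp gr) L t h w YB)
include H HW HA HB

theorem p1_w (c : F4) : ∃ v, v ∈ YA ∧ v ∈ YB ∧ CT ι v ∧ Tr ι t v ⟨0, 0, c⟩ := by
  have ht : h * t = t * h := H.tK _ H.hL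
  have step : ∀ c, (∃ v, v ∈ YA ∧ v ∈ YB ∧ CT ι v ∧ Tr ι t v ⟨0, 0, c⟩) →
      ∃ v, v ∈ YA ∧ v ∈ YB ∧ CT ι v ∧ Tr ι t v ⟨0, 0, om * om * c⟩ := by
    rintro c ⟨v, h1, h2, h3, h4⟩
    refine ⟨h * v * h⁻¹, HA.nh v h1, HB.nh v h2, fun p => ?_, ?_⟩
    · obtain ⟨q, rfl⟩ := (by decide +kernel : ∀ p, ∃ q, dg om om q = p) p
      rw [← H.ah q]
      calc h * v * h⁻¹ * (h * ι q * h⁻¹) = h * (v * ι q) * h⁻¹ := by group
        _ = h * ι q * h⁻¹ * (h * v * h⁻¹) := by rw [h3 q]; group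
    · have e : dg om om ⟨0, 0, c⟩ = ⟨0, 0, om * om * c⟩ := by simp [dg]
      unfold Tr at h4 ⊢
      rw [← e, ← H.ah]
      calc h * v * h⁻¹ * t * (h * v * h⁻¹)⁻¹ = h * v * (h⁻¹ * (t * h)) * v⁻¹ * h⁻¹ := by group
        _ = h * (v * t * v⁻¹) * h⁻¹ := by rw [← ht]; group
        _ = t * (h * ι ⟨0, 0, c⟩ * h⁻¹) := by rw [h4, ← mul_assoc h, ht]; group
  have h1 : ∃ v, v ∈ YA ∧ v ∈ YB ∧ CT ι v ∧ Tr ι t v ⟨0, 0, 1⟩ := ⟨w, HA.mw, HB.mw, HW.ct, HW.tr⟩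
  rcases (by decide +kernel : ∀ c : F4, c = 0 ∨ c = 1 ∨ c = om * om * 1 ∨ c = om * om * (om * om * 1)) c with
    rfl | rfl | rfl | rfl
  · refine ⟨1, YA.one_mem, YB.one_mem, fun p => by simp, ?_⟩
    unfold Tr
    rw [← Heis.one_def, map_one]; simp
  · exact h1
  · exact step _ h1
  · exact step _ (step _ h1)

omit H HW in
theorem p1_ct1 {x : G} (hx : x ∈ YA ⊓ YB) : CT ι x := by
  rintro ⟨a, b, c⟩
  have e : (⟨a, b, c⟩ : Heis F4) = ⟨0, b, 0⟩ * ⟨a, 0, c⟩ := by simp [Heis.mul_def]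
  have h1 := p1_comm HA.sq hx.1 (HA.mA a c)
  have h2 := p1_comm HB.sq hx.2 (HB.mA b 0)
  rw [MonoidHom.comp_apply, gr_A] at h2
  rw [e, map_mul]
  exact (Commute.mul_right h2 h1 : Commute x _)

omit H HW in
theorem p1_Dmem (c : F4) : ι ⟨0, 0, c⟩ ∈ YA ⊓ YB :=
  mem_inf.mpr ⟨HA.mA 0 c, by simpa only [MonoidHom.comp_apply, gr_A] using HB.mA 0 c⟩

theorem p1_ct2 {x : G} (hx : x ∈ YA) (hc : CT ι x) : x ∈ YB := by
  obtain ⟨a, c, h1⟩ := HA.tr x hx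
  have h2 : CT ι (ι ⟨a, 0, c⟩) := by
    have e : ι ⟨a, 0, c⟩ = t⁻¹ * (x * t * x⁻¹) := by rw [h1]; group
    have h3 : CT ι t := fun p => (p1_t H p).symm
    rw [e]
    exact p1_CT_mul (p1_CT_inv h3) (p1_CT_mul (p1_CT_mul hc h3) (p1_CT_inv hc))
  obtain rfl : a = 0 := (p1_D H h2).1
  obtain ⟨v, v1, v2, v3, v4⟩ := p1_w H HW HA HB c
  obtain ⟨a', c', e⟩ := HA.fix _ (YA.mul_mem (YA.inv_mem v1) hx) (p1_fix (h1.trans v4.symm))
  obtain rfl : a' = 0 := (p1_D H (e ▸ p1_CT_mul (p1_CT_inv v3) hc)).1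
  have := YB.mul_mem v2 (e ▸ (p1_Dmem HA HB c').2 : v⁻¹ * x ∈ YB)
  simpa using this

omit HW in
theorem p1_Wt {u : G} (hu : u ∈ YA ⊓ YB) (ht : u * t = t * u) : ∃ d, u = ι ⟨0, 0, d⟩ := by
  obtain ⟨a, c, e⟩ := HA.fix u hu.1 ht
  obtain rfl : a = 0 := (p1_D H (e ▸ p1_ct1 HA HB hu)).1
  exact ⟨c, e⟩

end

/-- `n` centralizes `W` and `T W / W` -/
def P1M (ι : Heis F4 →* G) (W : Subgroup G) (n : G) : Prop :=
  (∀ u ∈ W, n * u = u * n) ∧ ∀ p, ∃ u ∈ W, n * ι p * n⁻¹ = ι p * u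

theorem P1M.mul {W : Subgroup G} {n m : G} (hn : P1M ι W n) (hm : P1M ι W m) : P1M ι W (n * m) := by
  refine ⟨fun u hu => (Commute.mul_left (hn.1 u hu) (hm.1 u hu) : Commute (n * m) u), fun p => ?_⟩
  obtain ⟨u, hu, e⟩ := hm.2 p
  obtain ⟨u', hu', e'⟩ := hn.2 p
  refine ⟨u' * u, W.mul_mem hu' hu, ?_⟩
  calc n * m * ι p * (n * m)⁻¹ = n * (m * ι p * m⁻¹) * n⁻¹ := by group
    _ = n * ι p * n⁻¹ * (n * u) * n⁻¹ := by rw [e]; group
    _ = ι p * (u' * u) := by rw [e', hn.1 u hu]; group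

theorem P1M.step {W : Subgroup G} {n m : G} (hn : P1M ι W n) {q p : Heis F4} (hq : Tr ι t n q)
    (hm : ∃ u ∈ W, m * t * m⁻¹ = t * ι p * u) : ∃ u ∈ W, n * m * t * (n * m)⁻¹ = t * ι (q * p) * u := by
  obtain ⟨u, hu, e⟩ := hm
  obtain ⟨u', hu', e'⟩ := hn.2 p
  refine ⟨u' * u, W.mul_mem hu' hu, ?_⟩
  calc n * m * t * (n * m)⁻¹ = n * (m * t * m⁻¹) * n⁻¹ := by group
    _ = n * t * n⁻¹ * (n * ι p * n⁻¹) * (n * u) * n⁻¹ := by rw [e]; group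
    _ = t * ι (q * p) * (u' * u) := by rw [e', hn.1 u hu, hq, map_mul]; group

section
variable (H : Loc ι L S t h) (HW : Wa ι L t h w l) (HA : Ya ι L t h w YA) (HB : Ya (ι.comp gr) L t h w YB)
include H HW HA HB

theorem p1_MA {x : G} (hx : x ∈ YA) : P1M ι (YA ⊓ YB) x := by
  refine ⟨fun u hu => p1_comm HA.sq hx hu.1, ?_⟩
  rintro ⟨a, b, c⟩
  have e : (⟨a, b, c⟩ : Heis F4) = ⟨0, b, 0⟩ * ⟨a, 0, c⟩ := by simp [Heis.mul_def]
  obtain ⟨y, hy, hc, h1⟩ := HA.cB x hx b 0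
  refine ⟨y, ⟨hy, p1_ct2 H HW HA HB hy hc⟩, ?_⟩
  have h2 := p1_comm HA.sq hx (HA.mA a c)
  have h3 : x⁻¹ = x := inv_eq_of_mul_eq_one_right (HA.sq x hx)
  have h4 : x * ι ⟨0, b, 0⟩ * x⁻¹ = ι ⟨0, b, 0⟩ * y := by
    calc x * ι ⟨0, b, 0⟩ * x⁻¹ = x⁻¹ * (ι ⟨0, b, 0⟩ * x * (ι ⟨0, b, 0⟩)⁻¹) * ι ⟨0, b, 0⟩ := by
          rw [h3]; group
      _ = ι ⟨0, b, 0⟩ * y := by rw [h1, ← hc]; group
  rw [e, map_mul]
  calc x * (ι ⟨0, b, 0⟩ * ι ⟨a, 0, c⟩) * x⁻¹ = x * ι ⟨0, b, 0⟩ * x⁻¹ * (x * ι ⟨a, 0, c⟩) * x⁻¹ := by group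
    _ = ι ⟨0, b, 0⟩ * (y * ι ⟨a, 0, c⟩) := by rw [h4, h2]; group
    _ = _ := by rw [hc]; group

theorem p1_MB {y : G} (hy : y ∈ YB) : P1M ι (YA ⊓ YB) y := by
  obtain ⟨h1, h2⟩ := p1_MA H.swap HW.swap HB (p1_Ya HA) hy
  rw [inf_comm] at h1 h2
  refine ⟨h1, fun p => ?_⟩
  simpa only [MonoidHom.comp_apply, gr_gr] using h2 (gr p)

theorem p1_cm0 {x y : G} (hx : x ∈ YA) (hy : y ∈ YB) {c : F4} (h1 : Tr ι t x ⟨0, 0, c⟩) :
    x * y * x⁻¹ * y⁻¹ ∈ YA ⊓ YB := by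
  obtain ⟨v, v1, v2, -, v4⟩ := p1_w H HW HA HB c
  obtain ⟨a', c', e⟩ := HA.fix _ (YA.mul_mem (YA.inv_mem v1) hx) (p1_fix (h1.trans v4.symm))
  obtain ⟨u, hu, e'⟩ := (p1_MB H HW HA HB hy).2 ⟨a', 0, c'⟩⁻¹
  rw [map_inv, ← e] at e'
  have h2 := p1_comm HB.sq v2 hy
  have h3 : x * y * x⁻¹ * y⁻¹ = v * u * v⁻¹ := by
    calc x * y * x⁻¹ * y⁻¹ = x * (y * (v⁻¹ * x)⁻¹ * y⁻¹) * y * (y * v)⁻¹ := by group
      _ = v * u * v⁻¹ := by rw [e', ← h2]; group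
  rw [h3]
  exact mul_mem (mul_mem (show v ∈ YA ⊓ YB from ⟨v1, v2⟩) hu) (inv_mem (show v ∈ YA ⊓ YB from ⟨v1, v2⟩))

omit HW in
theorem p1_key {z v o : G} {p q : Heis F4} (hz : P1M ι (YA ⊓ YB) z) (hzo : CO L t z) (hq : Tr ι t z q)
    (hv : v ∈ YA ⊓ YB) (ho : o ∈ centralizer (L : Set G)) (hot : o * t = t * o) (hodd : Odd (orderOf o))
    (hc : z * (v * ι p * o) * z⁻¹ = (v * ι p * o)⁻¹) : o = 1 ∧ p * q = q * p := by
  obtain ⟨u, hu, e⟩ := hz.2 p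
  have c1 : Commute z o := hzo o ho hot hodd
  have c2 : Commute z v := hz.1 v hv
  have c3 : Commute (ι p) o := ho _ (H.mem p)
  have c4 : Commute u o := HA.co u hu.1 o ho hot hodd
  have c5 : Commute v o := HA.co v hv.1 o ho hot hodd
  have c6 : Commute v (ι p) := p1_ct1 HA HB hv p
  have c7 : Commute u (ι p) := p1_ct1 HA HB hu p
  have c8 : Commute u v := p1_comm HA.sq hu.1 hv.1
  have h1 : v * (ι p * u) * o * (v * ι p * o) = 1 := by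
    rw [← e]
    calc v * (z * ι p * z⁻¹) * o * (v * ι p * o) =
        (v * z) * ι p * (z⁻¹ * o) * (v * ι p * o) := by group
      _ = 1 := by
        rw [← c2.eq, c1.inv_left.eq]
        calc z * v * ι p * (o * z⁻¹) * (v * ι p * o) = z * (v * ι p * o) * z⁻¹ * (v * ι p * o) := by group
          _ = 1 := by rw [hc, inv_mul_cancel]
  have h2 : ι p * ι p * u * (o * o) = 1 := by
    rw [← h1]
    symm
    calc v * (ι p * u) * o * (v * ι p * o) = v * (ι p * u * o * v) * ι p * o := by group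
      _ = v * (v * (ι p * u * o)) * ι p * o := by
          rw [((c6.mul_right c8.symm).mul_right c5).eq]
      _ = (v * v) * ι p * (u * o * ι p) * o := by group
      _ = ι p * ι p * u * (o * o) := by
          rw [HA.sq v hv.1, (c7.mul_left c3.symm).eq]; group
  obtain ⟨d, hd⟩ := (by decide +kernel : ∀ p : Heis F4, ∃ d, p * p = ⟨0, 0, d⟩) p
  have h3 : ι p * ι p * u ∈ YA ⊓ YB := mul_mem (by rw [← map_mul, hd]; exact p1_Dmem HA HB d) hu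
  have h4 : o ^ 4 = 1 := by
    have h5 := HA.sq _ h3.1
    rw [eq_inv_of_mul_eq_one_left h2, ← mul_inv_rev, inv_eq_one] at h5
    rw [← h5]; simp only [pow_succ, pow_zero, one_mul, mul_assoc]
  have h5 : o = 1 := by
    rw [← orderOf_eq_one_iff]
    exact Nat.eq_one_of_dvd_coprimes (a := 2 ^ 2) (Nat.Coprime.pow_left 2 (Nat.coprime_two_left.mpr hodd))
      (orderOf_dvd_of_pow_eq_one h4) dvd_rfl
  refine ⟨h5, H.inj ?_⟩
  rw [h5, mul_one, mul_one] at h2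
  have c9 : Commute (ι p) t := p1_t H p
  have c10 : Commute u t := by
    rw [eq_inv_of_mul_eq_one_right h2]
    exact (c9.mul_left c9).inv_left
  have c11 : Commute (ι p * u) (t * ι q) := by
    rw [← e, ← hq]
    exact c9.conj z
  have c12 : Commute (ι p * u) (ι q) := by
    simpa using ((c9.mul_left c10).inv_right.mul_right c11)
  have c13 : Commute u (ι q) := p1_ct1 HA HB hu q
  rw [map_mul, map_mul]
  simpa using (c12.mul_left c13.inv_left).eq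

theorem p1_cm [Finite G] (HF : Fus ι L t) {x y : G} (hx : x ∈ YA) (hy : y ∈ YB) :
    x * y * x⁻¹ * y⁻¹ ∈ YA ⊓ YB := by
  obtain ⟨a, c1, h1⟩ := HA.tr x hx
  obtain ⟨b, c2, h2⟩ := HB.tr y hy
  by_cases ha : a = 0
  · subst ha; exact p1_cm0 H HW HA HB hx hy h1
  by_cases hb : b = 0
  · subst hb
    have := inv_mem (p1_cm0 H.swap HW.swap HB (p1_Ya HA) hy hx h2)
    rw [inf_comm] at this
    simpa [mul_assoc] using this
  have h2' : Tr ι t y ⟨0, b, c2⟩ := by simpa only [Tr, MonoidHom.comp_apply, gr_A] using h2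
  have xx : x⁻¹ = x := inv_eq_of_mul_eq_one_right (HA.sq x hx)
  have yy : y⁻¹ = y := inv_eq_of_mul_eq_one_right (HB.sq y hy)
  have Mx := p1_MA H HW HA HB hx
  have My := p1_MB H HW HA HB hy
  have ec : x * y * x⁻¹ * y⁻¹ = x * (y * (x * y)) := by rw [xx, yy]; group
  rw [ec]
  set c := x * (y * (x * y)) with hc
  have Mc : P1M ι (YA ⊓ YB) c := Mx.mul (My.mul (Mx.mul My))
  obtain ⟨u, hu, e⟩ := Mx.step h1 (My.step h2' (Mx.step h1 (m := y) (p := ⟨0, b, c2⟩)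
    ⟨1, one_mem _, by rw [mul_one]; exact h2'⟩))
  obtain ⟨d0, hd0⟩ := (by decide +kernel : ∀ a c1 b c2 : F4, ∃ d, (⟨a, 0, c1⟩ : Heis F4) * (⟨0, b, c2⟩ *
    (⟨a, 0, c1⟩ * ⟨0, b, c2⟩)) = ⟨0, 0, d⟩) a c1 b c2
  rw [hd0, ← hc, mul_assoc t] at e
  have hw' := mul_mem (p1_Dmem HA HB d0) hu
  generalize ι ⟨0, 0, d0⟩ * u = w' at e hw'
  have tt : t⁻¹ = t := inv_eq_of_mul_eq_one_right H.tt
  obtain ⟨d, rfl⟩ := p1_Wt H HA HB hw' (by
    have h3 : t * w' * (t * w') = 1 := by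
      rw [← e]
      calc c * t * c⁻¹ * (c * t * c⁻¹) = c * (t * t) * c⁻¹ := by group
        _ = 1 := by rw [H.tt]; group
    rw [← inv_eq_of_mul_eq_one_right h3, mul_inv_rev, tt, inv_eq_of_mul_eq_one_right (HA.sq _ hw'.1)])
  obtain ⟨v, v1, v2, -, v4⟩ := p1_w H HW HA HB d
  have hv : v ∈ YA ⊓ YB := ⟨v1, v2⟩
  have nt := p1_fix (e.trans v4.symm)
  have Mn := (p1_MA H HW HA HB (YA.inv_mem v1)).mul Mc
  obtain ⟨p0, hk⟩ := H.cT (v⁻¹ * c) (H.tight _ t H.tK H.tt H.t1 (by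
    rw [nt, mul_inv_cancel_right]; exact H.tK)) (fun p => by
      obtain ⟨u', hu', e'⟩ := Mn.2 p
      have c9 : Commute (ι p) t := p1_t H p
      have c10 : Commute (v⁻¹ * c) t := nt
      obtain ⟨d', rfl⟩ := p1_Wt H HA HB hu' (by
        rw [← inv_mul_eq_iff_eq_mul] at e'
        rw [← e']
        exact (c9.inv_left.mul_left ((c10.mul_left c9).mul_left c10.inv_left)).eq)
      exact ⟨d', by rw [e', map_mul]⟩)
  set k := ι p0 * (v⁻¹ * c) with hkdef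
  have kt : Commute k t := Commute.mul_left (p1_t H p0) nt
  have ck : c = v * ι p0⁻¹ * k := by rw [hkdef, map_inv]; group
  obtain ⟨j, m, hm, hjm⟩ := Nat.exists_eq_two_pow_mul_odd (orderOf_pos k).ne'
  have hodd : Odd (orderOf k) := by
    rcases HF.two (k ^ m) (pow_mem hk m) (kt.pow_left m).eq
      ⟨j, by rw [← pow_mul, mul_comm, ← hjm, pow_orderOf_eq_one]⟩ with h3 | h3
    · exact hm.of_dvd_nat (orderOf_dvd_of_pow_eq_one h3)
    · exfalso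
      have h4 : (k * t) ^ m = 1 := by
        obtain ⟨r, rfl⟩ := hm
        rw [kt.mul_pow, h3, pow_succ t, pow_mul, pow_two, H.tt, one_pow, one_mul, H.tt]
      have h5 : Commute w (k * t) := HW.co _ (mul_mem hk H.tK) (kt.mul_left (Commute.refl t)).eq
        (hm.of_dvd_nat (orderOf_dvd_of_pow_eq_one h4))
      have hw : w ∈ YA ⊓ YB := ⟨HA.mw, HB.mw⟩
      have h6 : Commute w k := Commute.mul_right (HW.ct p0) (Mn.1 w hw).symm
      have h7 : Commute w t := by simpa using h6.inv_right.mul_right h5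
      have h8 := HW.tr
      unfold Tr at h8
      rw [h7.eq, mul_inv_cancel_right, left_eq_mul, ← map_one ι] at h8
      exact absurd (H.inj h8) (by decide +kernel)
  have k1 := p1_key H HA HB Mx (HA.co x hx) h1 hv hk kt.eq hodd (p := p0⁻¹) (by
    rw [← ck, hc, xx]
    simp only [mul_inv_rev, xx, yy, ← mul_assoc, HA.sq x hx, one_mul])
  have k2 := p1_key H HA HB My (HB.co y hy) h2' hv hk kt.eq hodd (p := p0⁻¹) (by
    rw [← ck, hc, yy]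
    simp only [mul_inv_rev, xx, yy, mul_assoc, HB.sq y hy, mul_one])
  obtain ⟨d1, hd1⟩ := (by decide +kernel : ∀ (p : Heis F4) (a b : F4), a ≠ 0 → b ≠ 0 → a * p.b = 0 →
      p.a * b = 0 → ∃ d, p = ⟨0, 0, d⟩) p0⁻¹ a b ha hb
    (by have := congrArg Heis.c k1.2; simp only [Heis.mul_c, mul_zero, add_zero] at this
        linear_combination -this)
    (by have := congrArg Heis.c k2.2; simp only [Heis.mul_c, zero_mul, add_zero] at this
        linear_combination this)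
  rw [ck, k1.1, mul_one, hd1]
  exact mul_mem hv (p1_Dmem HA HB d1)

end

theorem p1S : P1S.{u} := by
  intro G _ _ ι L S YA YB t h w l H HF HW HA HB
  exact ⟨fun x hx => ⟨fun hx' => p1_ct1 HA HB ⟨hx, hx'⟩, p1_ct2 H HW HA HB hx⟩,
    fun x hx => ⟨fun hx' => p1_ct1 HA HB ⟨hx', hx⟩,
      fun hc => p1_ct2 H.swap HW.swap HB (p1_Ya HA) hx hc.swap⟩,
    fun x hx y hy => p1_cm H HW HA HB HF hx hy⟩

end CL.L34
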