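/-
Project L34, job P2: `Y_A Y_B` is the Heisenberg group over `R16 ν`.
-/
import Cfsg.Agent.L34.Defs

set_option autoImplicit false

universe u

namespace CL.L34
open Subgroup CL.Grp

variable {G : Type u} [Group G]

theorem p2_comm {Y : Subgroup G} (h : ∀ x ∈ Y, x * x = 1) {x y : G} (hx : x ∈ Y) (hy : y ∈ Y) : Commute x y := by
  have i : ∀ x ∈ Y, x⁻¹ = x := fun x hx => inv_eq_of_mul_eq_one_right (h x hx)
  have := i _ (mul_mem hx hy)
  rw [mul_inv_rev, i x hx, i y hy] at this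
  exact this.symm

def p2_e (x : G) (a : ZMod 2) : G := if a = 0 then 1 else x

theorem p2_e_add {x : G} (hx : x * x = 1) (a b : ZMod 2) : p2_e x (a + b) = p2_e x a * p2_e x b := by
  have h2 : (1 : ZMod 2) + 1 = 0 := rfl
  obtain rfl | rfl : a = 0 ∨ a = 1 := by revert a; decide
  all_goals obtain rfl | rfl : b = 0 ∨ b = 1 := by revert b; decide
  all_goals simp [p2_e, h2, hx]

theorem p2_e_mem {Y : Subgroup G} {x : G} (hx : x ∈ Y) (a : ZMod 2) : p2_e x a ∈ Y := by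
  unfold p2_e; split_ifs; exacts [one_mem _, hx]

theorem p2_e_mul (x y : G) (a : ZMod 2) : p2_e (x * y) a = p2_e x a * p2_e y a := by
  unfold p2_e; split_ifs <;> simp

theorem p2_e_conj (g x : G) (a : ZMod 2) : g * p2_e x a * g⁻¹ = p2_e (g * x * g⁻¹) a := by
  unfold p2_e; split_ifs <;> simp

/-- an `R16`-line in an elementary abelian group -/
def p2_fam {ν : F4} (g x : G) (em : F4 → G) (r : R16 ν) : G :=
  em r.re * (p2_e x r.im.re * p2_e (g * x * g⁻¹) r.im.im)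

theorem p2_ind {ν : F4} (Q : R16 ν → Prop) (ha : ∀ r s, Q r → Q s → Q (r + s)) (ho : ∀ r, Q r → Q (⟨om, 0⟩ * r))
    (h1 : Q 1) (hX : Q ⟨0, 1⟩) (r : R16 ν) : Q r := by
  have k : ∀ u, Q u → ∀ a : F4, Q (⟨a, 0⟩ * u) := fun u hu a => by
    obtain rfl | rfl | rfl | rfl : a = 1 + 1 ∨ a = 1 ∨ a = om ∨ a = om + 1 := by revert a; decide +kernel
    · convert ha _ _ hu hu using 1
      ext <;> simp [add_mul]
    · convert hu using 1
      ext <;> simp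
    · exact ho u hu
    · convert ha _ _ (ho u hu) hu using 1
      ext <;> simp [add_mul]
  convert ha _ _ (k _ h1 r.re) (k _ hX r.im) using 1
  ext <;> simp [QuadraticAlgebra.re_one, QuadraticAlgebra.im_one]

structure P2Lin (Y : Subgroup G) (g t x : G) (em : F4 → G) : Prop where
  sq : ∀ y ∈ Y, y * y = 1
  nh : ∀ y ∈ Y, g * y * g⁻¹ ∈ Y
  nm : g * (g * x * g⁻¹) * g⁻¹ = x * (g * x * g⁻¹)
  xm : x ∈ Y
  mm : ∀ c, em c ∈ Y
  ea : ∀ c d, em (c + d) = em c * em d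
  eo : ∀ c, em (om * c) = g * em c * g⁻¹
  ei : ∀ c, em c = 1 → c = 0
  gt : g * t = t * g
  et : ∀ c, t * em c * t⁻¹ = em c
  tx : t * x * t⁻¹ = x * em 1

namespace P2Lin

variable {Y : Subgroup G} {g t x : G} {em : F4 → G} {ν : F4} (h : P2Lin Y g t x em)
include h

theorem em0 : em 0 = 1 := by simpa using h.ea 0 0

theorem mem (r : R16 ν) : p2_fam g x em r ∈ Y :=
  mul_mem (h.mm _) (mul_mem (p2_e_mem h.xm _) (p2_e_mem (h.nh _ h.xm) _))

theorem re (c : F4) : p2_fam g x em (⟨c, 0⟩ : R16 ν) = em c := by simp [p2_fam, p2_e]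

theorem one : p2_fam g x em (1 : R16 ν) = em 1 := h.re 1

theorem zero : p2_fam g x em (0 : R16 ν) = 1 := (h.re 0).trans h.em0

theorem im (c : F4) : p2_fam g x em (⟨c, 1⟩ : R16 ν) = em c * x := by
  simp [p2_fam, p2_e, QuadraticAlgebra.re_one, QuadraticAlgebra.im_one]

theorem add (r s : R16 ν) : p2_fam g x em (r + s) = p2_fam g x em r * p2_fam g x em s := by
  have h1 := h.nh _ h.xm
  simp only [p2_fam, QuadraticAlgebra.re_add, QuadraticAlgebra.im_add, h.ea, p2_e_add (h.sq _ h.xm),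
    p2_e_add (h.sq _ h1)]
  rw [(p2_comm h.sq (p2_e_mem h.xm _) (p2_e_mem h1 _)).mul_mul_mul_comm,
    (p2_comm h.sq (h.mm _) (mul_mem (p2_e_mem h.xm _) (p2_e_mem h1 _))).mul_mul_mul_comm]

theorem omm (r : R16 ν) : p2_fam g x em (⟨om, 0⟩ * r) = g * p2_fam g x em r * g⁻¹ := by
  have h1 := h.nh _ h.xm
  have e1 : ((⟨om, 0⟩ : R16 ν) * r).re = om * r.re := by simp
  have e2 : ((⟨om, 0⟩ : R16 ν) * r).im = om * r.im := by simp
  have e3 : ∀ s : F4, (om * s).re = s.im ∧ (om * s).im = s.re + s.im := by decide +kernel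
  rw [p2_fam, p2_fam, e1, e2, (e3 _).1, (e3 _).2, h.eo, ← conj_mul, ← conj_mul, p2_e_conj, p2_e_conj, h.nm, p2_e_mul x,
    p2_e_add (h.sq _ h1), ← mul_assoc (p2_e x _), (p2_comm h.sq (p2_e_mem h.xm _) (p2_e_mem h1 _)).eq,
    mul_assoc (p2_e _ _)]

theorem st (r : R16 ν) : t * p2_fam g x em r * t⁻¹ = p2_fam g x em (star r) := by
  induction r using p2_ind with
  | ha r s h1 h2 => rw [star_add, h.add, h.add, ← conj_mul, h1, h2]
  | ho r h1 =>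
    rw [show star ((⟨om, 0⟩ : R16 ν) * r) = ⟨om, 0⟩ * star r by ext <;> simp [mul_add], h.omm, h.omm, ← h1]
    calc _ = t * g * p2_fam g x em r * (t * g)⁻¹ := by group
      _ = _ := by rw [← h.gt]; group
  | h1 => rw [star_one, h.one, h.et]
  | hX =>
    rw [show star (⟨0, 1⟩ : R16 ν) = ⟨1, 1⟩ from QuadraticAlgebra.ext (by simp)
      (by show -(1 : F4) = 1; decide +kernel), h.im, h.im, h.em0, one_mul, h.tx, (p2_comm h.sq h.xm (h.mm 1)).eq]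

theorem st' (a : F4) : t * p2_fam g x em (⟨0, a⟩ : R16 ν) * t⁻¹ = p2_fam g x em (⟨0, a⟩ : R16 ν) * em a := by
  rw [h.st, ← h.re (ν := ν) a, ← h.add]
  exact congrArg _ (QuadraticAlgebra.ext (by simp) (by
    show -a = a + 0
    revert a; decide +kernel))

theorem inj (r : R16 ν) (e : p2_fam g x em r = 1) : r = 0 := by
  have h1 := h.add r (star r)
  rw [← h.st, e, show r + star r = ⟨r.im, 0⟩ from QuadraticAlgebra.ext (by
    show r.re + (r.re + 1 * r.im) = r.im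
    generalize r.re = a; generalize r.im = b; revert a b; decide +kernel) (add_neg_cancel _), h.re] at h1
  have h2 := h.ei _ (by simpa using h1)
  obtain ⟨a, b⟩ := r
  obtain rfl : b = 0 := h2
  rw [h.re] at e
  rw [h.ei a e]; rfl

theorem onto {W : Subgroup G} {g' w : G} {em' : F4 → G} (h' : P2Lin W g' t w em') (hW : W ≤ Y)
    (h1 : ∀ y ∈ Y, ∃ a c, t * y * t⁻¹ = y * (em a * em' c))
    (h2 : ∀ y ∈ Y, t * y * t⁻¹ = y → ∃ a c, y = em a * em' c) {y : G} (hy : y ∈ Y) :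
    ∃ r u : R16 ν, y = p2_fam g x em r * p2_fam g' w em' u := by
  obtain ⟨a, c, e⟩ := h1 y hy
  have m1 := h.mem (⟨0, a⟩ : R16 ν)
  have m2 := hW (h'.mem (⟨0, c⟩ : R16 ν))
  have m3 := mul_mem (h.mm a) (hW (h'.mm c))
  obtain ⟨a', c', e'⟩ := h2 _ (mul_mem hy (mul_mem m1 m2)) (by
    rw [← conj_mul, ← conj_mul, e, h.st', h'.st', (p2_comm h.sq (h.mm a) m2).mul_mul_mul_comm,
      (p2_comm h.sq m3 (mul_mem m1 m2)).mul_mul_mul_comm, h.sq _ m3, mul_one])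
  refine ⟨⟨a', 0⟩ + ⟨0, a⟩, ⟨c', 0⟩ + ⟨0, c⟩, ?_⟩
  rw [h.add, h'.add, h.re, h'.re, (p2_comm h.sq m1 (hW (h'.mm c'))).mul_mul_mul_comm, ← e', mul_assoc,
    h.sq _ (mul_mem m1 m2), mul_one]

end P2Lin

section one

variable {ι : Heis F4 →* G} {L S Y : Subgroup G} {t h w x : G} (H : Loc ι L S t h) (A : Ya ι L t h w Y)
include H

theorem p2_ht : h * t = t * h := H.tK h H.hL

theorem p2_ti (p : Heis F4) : t * ι p * t⁻¹ = ι p := by rw [← H.tK _ (H.mem p), mul_inv_cancel_right]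

include A

theorem p2_h3 (hx : x ∈ Y) : h * (h * (h * x * h⁻¹) * h⁻¹) * h⁻¹ = x := by
  have := A.co x hx _ H.h3 ((Commute.pow_left (p2_ht H) 3).eq) (H.ho.of_dvd_nat (orderOf_pow_dvd 3))
  calc _ = h ^ 3 * x * (h ^ 3)⁻¹ := by simp only [pow_succ, pow_zero]; group
    _ = _ := by rw [← this, mul_inv_cancel_right]

theorem p2_tc (hx : x ∈ Y) {a c : F4} (e : Tr ι t x ⟨a, 0, c⟩) : t * x * t⁻¹ = x * ι ⟨a, 0, c⟩ := by
  rw [(p2_comm A.sq hx (A.mA a c)).eq, inv_eq_of_mul_eq_one_right H.tt]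
  calc _ = t * (x * t * x⁻¹) * x := by group
    _ = _ := by rw [e, ← mul_assoc, H.tt, one_mul]

theorem p2_nm (hx : x ∈ Y) : h * (h * x * h⁻¹) * h⁻¹ = x * (h * x * h⁻¹) := by
  have h1 := A.nh _ hx
  have h2 := A.nh _ h1
  have hn := mul_mem (mul_mem hx h1) h2
  have e : h * (x * (h * x * h⁻¹) * (h * (h * x * h⁻¹) * h⁻¹)) * h⁻¹ =
      x * (h * x * h⁻¹) * (h * (h * x * h⁻¹) * h⁻¹) := by
    rw [← conj_mul, ← conj_mul, p2_h3 H A hx, (p2_comm A.sq (mul_mem h1 h2) hx).eq, mul_assoc x]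
  have k : ∀ a c : F4, h * ι ⟨a, 0, c⟩ * h⁻¹ = ι ⟨a, 0, c⟩ → ι ⟨a, 0, c⟩ = 1 := fun a c e => by
    rw [(by decide +kernel : ∀ a c : F4, dg om om ⟨a, 0, c⟩ = ⟨a, 0, c⟩ → (⟨a, 0, c⟩ : Heis F4) = 1) a c
      (H.inj ((H.ah _).symm.trans e)), map_one]
  have e1 : x * (h * x * h⁻¹) * (h * (h * x * h⁻¹) * h⁻¹) = 1 := by
    generalize x * (h * x * h⁻¹) * (h * (h * x * h⁻¹) * h⁻¹) = n at hn e
    obtain ⟨a, c, e2⟩ := A.tr n hn
    have e3 := p2_tc H A hn e2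
    have e4 : h * (t * n * t⁻¹) * h⁻¹ = t * n * t⁻¹ := by
      calc _ = h * t * n * (h * t)⁻¹ := by group
        _ = t * (h * n * h⁻¹) * t⁻¹ := by rw [p2_ht H]; group
        _ = _ := by rw [e]
    rw [e3, ← conj_mul, e, mul_left_cancel_iff] at e4
    rw [k a c e4, mul_one] at e3
    obtain ⟨a, c, rfl⟩ := A.fix n hn (mul_inv_eq_iff_eq_mul.1 e3).symm
    exact k a c e
  rw [eq_inv_of_mul_eq_one_right e1, inv_eq_of_mul_eq_one_right (A.sq _ (mul_mem hx h1))]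

theorem p2_lin (hx : x ∈ Y) (e : t * x * t⁻¹ = x * ι ⟨1, 0, 0⟩) : P2Lin Y h t x fun c => ι ⟨c, 0, 0⟩ :=
  ⟨A.sq, A.nh, p2_nm H A hx, hx, fun c => A.mA c 0, fun c d => by rw [← map_mul]; simp [Heis.mul_def],
    fun c => by rw [H.ah]; simp [dg], fun c e => congrArg Heis.a (H.inj (e.trans (map_one ι).symm)), p2_ht H,
    fun c => p2_ti H _, e⟩

theorem p2_tr (y : G) (hy : y ∈ Y) : ∃ a c, t * y * t⁻¹ = y * (ι ⟨a, 0, 0⟩ * ι ⟨0, 0, c⟩) := by
  obtain ⟨a, c, e⟩ := A.tr y hy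
  exact ⟨a, c, by rw [p2_tc H A hy e, ← map_mul]; simp [Heis.mul_def]⟩

omit H in
theorem p2_fx (y : G) (hy : y ∈ Y) (e : t * y * t⁻¹ = y) : ∃ a c, y = ι ⟨a, 0, 0⟩ * ι ⟨0, 0, c⟩ := by
  obtain ⟨a, c, e⟩ := A.fix y hy (mul_inv_eq_iff_eq_mul.1 e).symm
  exact ⟨a, c, by rw [e, ← map_mul]; simp [Heis.mul_def]⟩

end one

/-- the commutator -/
def p2_be (x y : G) : G := x * y * x⁻¹ * y⁻¹

theorem p2_be_conj (g x y : G) : g * p2_be x y * g⁻¹ = p2_be (g * x * g⁻¹) (g * y * g⁻¹) := by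
  simp only [p2_be]; group

theorem p2S : P2S.{u} := by
  intro G _ ι L S YA YB t h w H A B P
  have H' := H.swap
  have cA : ∀ {x y}, x ∈ YA → y ∈ YA → Commute x y := p2_comm A.sq
  have cB : ∀ {x y}, x ∈ YB → y ∈ YB → Commute x y := p2_comm B.sq
  have bm : ∀ {x y}, x ∈ YA → y ∈ YB → p2_be x y ∈ YA ⊓ YB := fun hx hy => P.cm _ hx _ hy
  have bl : ∀ {x x' y}, x ∈ YA → x' ∈ YA → y ∈ YB → p2_be (x * x') y = p2_be x y * p2_be x' y :=
    fun {x x' y} hx hx' hy => by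
      calc _ = x * p2_be x' y * x⁻¹ * p2_be x y := by simp only [p2_be]; group
        _ = _ := by rw [(cA hx (bm hx' hy).1).eq, mul_inv_cancel_right, (cA (bm hx hy).1 (bm hx' hy).1).eq]
  have br : ∀ {x y y'}, x ∈ YA → y ∈ YB → y' ∈ YB → p2_be x (y * y') = p2_be x y * p2_be x y' :=
    fun {x y y'} hx hy hy' => by
      calc _ = p2_be x y * (y * p2_be x y' * y⁻¹) := by simp only [p2_be]; group
        _ = _ := by rw [(cB hy (bm hx hy').2).eq, mul_inv_cancel_right]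
  have bil : ∀ {x y}, x ∈ YA → y ∈ YB → p2_be (h * x * h⁻¹) y = h * h * p2_be x y * (h * h)⁻¹ ∧
      p2_be x (h * y * h⁻¹) = h * h * p2_be x y * (h * h)⁻¹ := fun {x y} hx hy => by
    have x1 := A.nh _ hx
    have y1 := B.nh _ hy
    have e1 := p2_be_conj h (h * x * h⁻¹) y
    have e2 := p2_be_conj h x (h * y * h⁻¹)
    rw [p2_nm H A hx, bl hx x1 y1, ← p2_be_conj] at e1
    rw [p2_nm H' B hy, br x1 hy y1, ← p2_be_conj] at e2
    have m1 := (bm hx hy).1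
    have m2 := (bm x1 hy).1
    have m3 := (bm hx y1).1
    generalize p2_be x y = b1 at *
    generalize p2_be (h * x * h⁻¹) y = b2 at *
    generalize p2_be x (h * y * h⁻¹) = b3 at *
    have n1 := p2_nm H A m1
    have e3 := p2_nm H A m2
    have s1 := A.sq _ (A.nh _ m1)
    rw [e1, ← conj_mul, e2, n1, ← e1, mul_assoc b2, mul_left_cancel_iff, (cA m1 (A.nh _ m1)).eq, ← mul_assoc, s1,
      one_mul] at e3
    have e4 : h * h * b1 * (h * h)⁻¹ = h * (h * b1 * h⁻¹) * h⁻¹ := by group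
    refine ⟨by rw [e4, e3, p2_h3 H A m2], ?_⟩
    rw [e4, n1, ← mul_one b3, ← s1, ← mul_assoc b3, ← e1, ← e3]
  have iB : ∀ b c, ι ⟨0, b, c⟩ ∈ YB := fun b c => by simpa only [MonoidHom.comp_apply, gr_A] using B.mA b c
  have bi : ∀ a b, p2_be (ι ⟨a, 0, 0⟩) (ι ⟨0, b, 0⟩) = ι ⟨0, 0, a * b⟩ := fun a b => by
    simp only [p2_be, ← map_inv, ← map_mul]
    congr 1
    ext <;> simp
  have zm : ∀ c, ι ⟨0, 0, c⟩ ∈ YA ⊓ YB := fun c => ⟨A.mA 0 c, iB 0 c⟩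
  have wf : ∀ {v v'}, v ∈ YA ⊓ YB → v' ∈ YA ⊓ YB → t * v * t⁻¹ = v * ι ⟨0, 0, 1⟩ → t * v' * t⁻¹ = v' * ι ⟨0, 0, 1⟩ →
      ∃ c, v * ι ⟨0, 0, c⟩ = v' := fun {v v'} hv hv' e e' => by
    have hm := mul_mem hv hv'
    obtain ⟨a, c, e1⟩ := A.fix _ hm.1 (mul_inv_eq_iff_eq_mul.1 (by
      rw [← conj_mul, e, e', (cA (zm 1).1 hv'.1).mul_mul_mul_comm, A.sq _ (zm 1).1, mul_one])).symm
    have e2 := (P.ct _ hm.1).1 hm.2 ⟨0, 1, 0⟩
    rw [e1, ← map_mul, ← map_mul] at e2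
    obtain rfl : a = 0 := by simpa using congrArg Heis.c (H.inj e2)
    exact ⟨c, by rw [← e1, ← mul_assoc, A.sq _ hv.1, one_mul]⟩
  obtain ⟨x, hx, ex⟩ := A.onto 1 0
  replace ex := p2_tc H A hx ex
  have ha := A.mA 1 0
  have hb := iB 1 0
  have hw := bm hx hb
  have ew : t * p2_be x (ι ⟨0, 1, 0⟩) * t⁻¹ = p2_be x (ι ⟨0, 1, 0⟩) * ι ⟨0, 0, 1⟩ := by
    rw [p2_be_conj, ex, p2_ti H, bl hx ha hb, bi, mul_one]
  obtain ⟨y, hy, ey, e12⟩ : ∃ y ∈ YB, t * y * t⁻¹ = y * ι ⟨0, 1, 0⟩ ∧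
      p2_be (ι ⟨1, 0, 0⟩) y = p2_be x (ι ⟨0, 1, 0⟩) := by
    obtain ⟨y, hy, ey⟩ := B.onto 1 0
    replace ey := p2_tc H' B hy ey
    rw [MonoidHom.comp_apply, gr_A] at ey
    obtain ⟨c, ec⟩ := wf (bm ha hy) hw (by rw [p2_be_conj, ey, p2_ti H, br ha hy hb, bi, mul_one]) ew
    refine ⟨y * ι ⟨0, c, 0⟩, mul_mem hy (iB c 0), ?_, by rw [br ha hy (iB c 0), bi, one_mul, ec]⟩
    rw [← conj_mul, ey, p2_ti H, mul_assoc, (cB hb (iB c 0)).eq, mul_assoc]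
  obtain ⟨ν, eν⟩ := wf hw (bm hx hy) ew (by
    rw [p2_be_conj, ex, ey, bl hx ha (mul_mem hy hb), br hx hy hb, br ha hy hb, e12, bi, mul_one, mul_assoc,
      ← mul_assoc _ _ (ι _), A.sq _ hw.1, one_mul])
  have LA := p2_lin H A hx ex
  have LB : P2Lin YB h t y fun c => ι ⟨0, c, 0⟩ := by
    simpa only [MonoidHom.comp_apply, gr_A] using p2_lin H' B hy (by rwa [MonoidHom.comp_apply, gr_A])
  have hh : ∀ v, h * h * v * (h * h)⁻¹ = h * (h * v * h⁻¹) * h⁻¹ := fun v => by group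
  have LW : P2Lin (YA ⊓ YB) (h * h) t (p2_be x (ι ⟨0, 1, 0⟩)) fun c => ι ⟨0, 0, c⟩ := by
    refine ⟨fun v hv => A.sq v hv.1, fun v hv => hh v ▸ ⟨A.nh _ (A.nh _ hv.1), B.nh _ (B.nh _ hv.2)⟩, ?_, hw, zm,
      fun c d => by rw [← map_mul]; congr 1; simp [Heis.mul_def], fun c => ?_,
      fun c e => congrArg Heis.c (H.inj (e.trans (map_one ι).symm)), (Commute.mul_left (p2_ht H) (p2_ht H)).eq,
      fun c => p2_ti H _, ew⟩
    · rw [hh, hh, p2_h3 H A hw.1, p2_nm H A hw.1, ← mul_assoc (p2_be _ _), A.sq _ hw.1, one_mul]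
    · rw [hh, H.ah, H.ah]
      exact congrArg ι ((by decide +kernel : ∀ c : F4, (⟨0, 0, om * c⟩ : Heis F4) = dg om om (dg om om ⟨0, 0, c⟩)) c)
  set ξ : R16 ν → G := p2_fam h x fun c => ι ⟨c, 0, 0⟩
  set η : R16 ν → G := p2_fam h y fun c => ι ⟨0, c, 0⟩
  set ζ : R16 ν → G := p2_fam (h * h) (p2_be x (ι ⟨0, 1, 0⟩)) fun c => ι ⟨0, 0, c⟩
  have mξ : ∀ r, ξ r ∈ YA := LA.mem
  have mη : ∀ r, η r ∈ YB := LB.mem
  have mζ : ∀ r, ζ r ∈ YA ⊓ YB := LW.mem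
  have aξ : ∀ r s, ξ (r + s) = ξ r * ξ s := LA.add
  have aη : ∀ r s, η (r + s) = η r * η s := LB.add
  have aζ : ∀ r s, ζ (r + s) = ζ r * ζ s := LW.add
  have ξ1 : ξ 1 = ι ⟨1, 0, 0⟩ := LA.one
  have η1 : η 1 = ι ⟨0, 1, 0⟩ := LB.one
  have ξX : ξ ⟨0, 1⟩ = x := (LA.im 0).trans (by rw [LA.em0, one_mul])
  have ηX : η ⟨0, 1⟩ = y := (LB.im 0).trans (by rw [LB.em0, one_mul])
  have ζX : ζ ⟨0, 1⟩ = p2_be x (ι ⟨0, 1, 0⟩) := (LW.im 0).trans (by rw [LW.em0, one_mul])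
  have key : ∀ r s, p2_be (ξ r) (η s) = ζ (r * s) := fun r s => by
    have k : ∀ r, p2_be (ξ r) (η 1) = ζ (r * 1) → p2_be (ξ r) (η ⟨0, 1⟩) = ζ (r * ⟨0, 1⟩) → ∀ s,
        p2_be (ξ r) (η s) = ζ (r * s) := fun r h1 h2 s => by
      induction s using p2_ind with
      | ha s s' e e' => rw [aη, br (mξ r) (mη s) (mη s'), e, e', mul_add, aζ]
      | ho s e => rw [show η _ = _ from LB.omm s, (bil (mξ r) (mη s)).2, e, mul_left_comm]; exact (LW.omm _).symm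
      | h1 => exact h1
      | hX => exact h2
    induction r using p2_ind with
    | ha r r' e e' => rw [aξ, bl (mξ r) (mξ r') (mη s), e, e', add_mul, aζ]
    | ho r e => rw [show ξ _ = _ from LA.omm r, (bil (mξ r) (mη s)).1, e, mul_assoc _ r]; exact (LW.omm _).symm
    | h1 =>
      refine k _ ?_ ?_ s
      · rw [ξ1, η1, bi, mul_one, mul_one]; exact LW.one.symm
      · rw [ξ1, ηX, one_mul, ζX, e12]
    | hX =>
      refine k _ ?_ ?_ s
      · rw [ξX, η1, mul_one, ζX]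
      · rw [ξX, ηX, ← eν, show (⟨0, 1⟩ : R16 ν) * ⟨0, 1⟩ = ⟨ν, 1⟩ by ext <;> simp, (cA hw.1 (zm ν).1).eq]
        exact (LW.im ν).symm
  have ξ0 : ξ 0 = 1 := LA.zero
  have η0 : η 0 = 1 := LB.zero
  let Φ : Heis (R16 ν) →* G := MonoidHom.mk' (fun p => η p.b * ξ p.a * ζ p.c) fun p q => by
    simp only [Heis.mul_a, Heis.mul_b, Heis.mul_c, aξ, aη, aζ, ← key]
    have c1 := (cB (mζ p.c).2 (mη q.b)).mul_right (cA (mζ p.c).1 (mξ q.a))
    have hm := bm (mξ p.a) (mη q.b)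
    have c2 := ((cB hm.2 (mη q.b)).mul_right ((cA hm.1 (mξ p.a)).mul_right (cA hm.1 (mξ q.a)))).mul_right
      ((cA hm.1 (mζ p.c).1).mul_right (cA hm.1 (mζ q.c).1))
    calc _ = η p.b * (η q.b * (ξ p.a * ξ q.a) * (ζ p.c * ζ q.c) * p2_be (ξ p.a) (η q.b)) := by group
      _ = η p.b * ξ p.a * (η q.b * ξ q.a * ζ p.c) * ζ q.c := by rw [← c2.eq]; simp only [p2_be]; group
      _ = _ := by rw [← c1.eq]; group
  have eΦ : ∀ p, Φ p = η p.b * ξ p.a * ζ p.c := fun _ => rfl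
  refine ⟨ν, Φ, (injective_iff_map_eq_one Φ).2 fun p e => ?_, fun a b c => ?_, fun p => ?_, fun v a1 a2 a3 => ?_,
    fun v a1 a2 a3 => ?_⟩
  · rw [eΦ] at e
    have h1 : η p.b ∈ YA := by
      rw [mul_assoc] at e
      rw [eq_inv_of_mul_eq_one_left e]; exact inv_mem (mul_mem (mξ _) (mζ _).1)
    have h2 : p.b = 0 := LW.inj _ (by
      have := key 1 p.b
      rw [one_mul, p2_be, (cA (mξ 1) h1).eq] at this
      exact this.symm.trans (by group))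
    rw [h2, η0, one_mul] at e
    have h3 : ξ p.a ∈ YB := by rw [eq_inv_of_mul_eq_one_left e]; exact inv_mem (mζ _).2
    have h4 : p.a = 0 := LW.inj _ (by
      have := key p.a 1
      rw [mul_one, p2_be, (cB h3 (mη 1)).eq] at this
      exact this.symm.trans (by group))
    rw [h4, ξ0, one_mul] at e
    exact Heis.ext h4 h2 (LW.inj _ e)
  · rw [eΦ, show η _ = _ from LB.re b, show ξ _ = _ from LA.re a, show ζ _ = _ from LW.re c, ← map_mul, ← map_mul]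
    simp [Heis.mul_def]
  · rw [eΦ, eΦ, ← conj_mul, ← conj_mul, show t * η _ * _ = _ from LB.st _, show t * ξ _ * _ = _ from LA.st _,
      show t * ζ _ * _ = _ from LW.st _]
  · have k : ∀ v ∈ YA, ∃ r u, v = Φ ⟨r, 0, u⟩ := fun v hv => by
      obtain ⟨r, u, e⟩ := LA.onto (ν := ν) LW inf_le_left (p2_tr H A) (p2_fx A) hv
      exact ⟨r, u, by rw [eΦ, η0, one_mul]; exact e⟩
    rcases A.two v a1 a2 a3 with hv | hv <;> obtain ⟨r, u, e⟩ := k _ hv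
    · exact ⟨r, u, Or.inl e⟩
    · exact ⟨r, u, Or.inr (by rw [← e, mul_assoc, H.tt, mul_one])⟩
  · have k : ∀ v ∈ YB, ∃ r u, v = Φ ⟨0, r, u⟩ := fun v hv => by
      obtain ⟨r, u, e⟩ := LB.onto (ν := ν) LW inf_le_right
        (by simpa only [MonoidHom.comp_apply, gr_A] using p2_tr H' B)
        (by simpa only [MonoidHom.comp_apply, gr_A] using p2_fx B) hv
      exact ⟨r, u, by rw [eΦ, ξ0, mul_one]; exact e⟩
    rcases B.two v a1 a2 (by simpa only [Tr, MonoidHom.comp_apply, gr_A] using a3) with hv | hv <;>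
      obtain ⟨r, u, e⟩ := k _ hv
    · exact ⟨r, u, Or.inl e⟩
    · exact ⟨r, u, Or.inr (by rw [← e, mul_assoc, H.tt, mul_one])⟩

end CL.L34
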