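/-
The `2`-group `Q_A`.
-/
import Cfsg.Agent.L34.Defs

set_option autoImplicit false

universe u

namespace CL.L34
open Subgroup CL.Grp

variable {G : Type u} [Group G]

theorem q_odd {o : G} (ho : Odd (orderOf o)) {n : ℕ} (h : o ^ 2 ^ n = 1) : o = 1 := by
  have h1 : orderOf o ∣ 2 ^ n := orderOf_dvd_of_pow_eq_one h
  have h2 : (orderOf o).Coprime (2 ^ n) := (Nat.coprime_two_right.2 ho).pow_right n
  exact orderOf_eq_one_iff.1 (Nat.Coprime.eq_one_of_dvd h2 h1)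

/-- the abstract form -/
theorem q_abs (A : Subgroup G) (t : G) (O : G → Prop) (tt : t * t = 1) (hA2 : ∀ a ∈ A, a * a = 1)
    (hAc : ∀ a ∈ A, ∀ b ∈ A, Commute a b) (hAt : ∀ a ∈ A, Commute a t)
    (hO : ∀ o, O o → Odd (orderOf o) ∧ Commute t o ∧ ∀ a ∈ A, Commute a o)
    (dec : ∀ x, (∀ a ∈ A, Commute x a) → Commute x t → ∃ v o, (v ∈ A ∨ v * t ∈ A) ∧ O o ∧ x = v * o) :
    ∃ Q : Subgroup G,
      (∀ x, x ∈ Q ↔ (∀ a ∈ A, Commute x a) ∧ (∀ o, O o → Commute x o) ∧ (∃ p ∈ A, x * t * x⁻¹ = t * p) ∧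
        x * x ∈ A) ∧
      (∀ x ∈ Q, Commute x t → x ∈ A ∨ x * t ∈ A) ∧
      ∀ x, (∀ a ∈ A, Commute x a) → Two x → ∀ y ∈ Q, x * t * x⁻¹ = y * t * y⁻¹ → x ∈ Q := by
  have vform : ∀ v, (v ∈ A ∨ v * t ∈ A) → ∃ a ∈ A, v = a ∨ v = a * t := by
    rintro v (h | h)
    · exact ⟨v, h, Or.inl rfl⟩
    · exact ⟨v * t, h, Or.inr (by rw [mul_assoc, tt, mul_one])⟩
  have vcomm : ∀ v, (v ∈ A ∨ v * t ∈ A) → ∀ z, (∀ a ∈ A, Commute a z) → Commute t z → Commute v z := by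
    intro v hv z h1 h2
    obtain ⟨a, ha, rfl | rfl⟩ := vform v hv
    · exact h1 _ ha
    · exact (h1 a ha).mul_left h2
  have vt : ∀ v, (v ∈ A ∨ v * t ∈ A) → Commute v t := fun v hv => vcomm v hv t hAt (Commute.refl t)
  have vA : ∀ v, (v ∈ A ∨ v * t ∈ A) → ∀ a ∈ A, Commute v a :=
    fun v hv a ha => vcomm v hv a (fun b hb => hAc b hb a ha) (hAt a ha).symm
  have vO : ∀ v, (v ∈ A ∨ v * t ∈ A) → ∀ o, O o → Commute v o :=
    fun v hv o ho => vcomm v hv o (hO o ho).2.2 (hO o ho).2.1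
  have vsq : ∀ v, (v ∈ A ∨ v * t ∈ A) → v * v = 1 := by
    intro v hv
    obtain ⟨a, ha, rfl | rfl⟩ := vform v hv
    · exact hA2 _ ha
    · calc a * t * (a * t) = a * (t * a) * t := by group
        _ = a * a * (t * t) := by rw [← (hAt a ha).eq]; group
        _ = 1 := by rw [hA2 a ha, tt, mul_one]
  let V : Subgroup G :=
    { carrier := {v | v ∈ A ∨ v * t ∈ A}
      one_mem' := Or.inl (one_mem _)
      mul_mem' := by
        intro v w hv hw
        have hwt := vt w hw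
        rcases hv with hv | hv <;> rcases hw with hw | hw
        · exact Or.inl (mul_mem hv hw)
        · exact Or.inr (by rw [mul_assoc]; exact mul_mem hv hw)
        · refine Or.inr ?_
          have : v * w * t = v * t * w := by rw [mul_assoc, hwt.eq, mul_assoc]
          rw [this]; exact mul_mem hv hw
        · refine Or.inl ?_
          have : v * w = v * t * (w * t) := by
            rw [hwt.eq, mul_assoc, ← mul_assoc t t, tt, one_mul]
          rw [this]; exact mul_mem hv hw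
      inv_mem' := by
        intro v hv
        rw [inv_eq_of_mul_eq_one_right (vsq v hv)]; exact hv }
  have oV : ∀ o, O o → o * o ∈ V → o = 1 := fun o ho h =>
    q_odd (hO o ho).1 (n := 2) (by
      calc o ^ 2 ^ 2 = o * o * (o * o) := by norm_num [pow_succ, mul_assoc]
        _ = 1 := vsq _ h)
  have sqV : ∀ x, (∀ a ∈ A, Commute x a) → Commute x t → x * x ∈ V → x ∈ V := by
    intro x h1 h2 h3
    obtain ⟨v, o, hv, ho, rfl⟩ := dec x h1 h2
    have e : v * o * (v * o) = o * o := by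
      calc v * o * (v * o) = v * (o * v) * o := by group
        _ = v * v * (o * o) := by rw [← (vO v hv o ho).eq]; group
        _ = o * o := by rw [vsq v hv, one_mul]
    rw [oV o ho (e ▸ h3), mul_one]; exact hv
  have trm : ∀ x y p q : G, q ∈ A → (∀ a ∈ A, Commute x a) → x * t * x⁻¹ = t * p → y * t * y⁻¹ = t * q →
      x * y * t * (x * y)⁻¹ = t * (p * q) := by
    intro x y p q hq hx h1 h2
    calc x * y * t * (x * y)⁻¹ = x * (y * t * y⁻¹) * x⁻¹ := by group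
      _ = x * t * x⁻¹ * (x * q * x⁻¹) := by rw [h2]; group
      _ = t * (p * q) := by rw [h1, (hx q hq).eq]; group
  have tri : ∀ x p : G, p ∈ A → (∀ a ∈ A, Commute x a) → x * t * x⁻¹ = t * p → x⁻¹ * t * x⁻¹⁻¹ = t * p⁻¹ := by
    intro x p hp hx h1
    calc x⁻¹ * t * x⁻¹⁻¹ = x⁻¹ * (t * p) * (p⁻¹ * x) := by group
      _ = t * (x⁻¹ * (p⁻¹ * x)) := by rw [← h1]; group
      _ = t * p⁻¹ := by rw [← (hx _ (inv_mem hp)).eq]; group
  have nV : ∀ x p : G, p ∈ A → (∀ a ∈ A, Commute x a) → x * t * x⁻¹ = t * p → ∀ v ∈ V, x * v * x⁻¹ ∈ V := by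
    intro x p hp hx h1 v hv
    obtain ⟨a, ha, rfl | rfl⟩ := vform v hv
    · rw [(hx _ ha).eq, mul_inv_cancel_right]; exact hv
    · have : x * (a * t) * x⁻¹ = a * t * p := by
        calc x * (a * t) * x⁻¹ = x * a * x⁻¹ * (x * t * x⁻¹) := by group
          _ = a * t * p := by rw [h1, (hx a ha).eq]; group
      rw [this]; exact mul_mem hv (Or.inl hp)
  let Q : Subgroup G :=
    { carrier := {x | (∀ a ∈ A, Commute x a) ∧ (∀ o, O o → Commute x o) ∧ (∃ p ∈ A, x * t * x⁻¹ = t * p) ∧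
        x * x ∈ A}
      one_mem' := ⟨fun a _ => Commute.one_left a, fun o _ => Commute.one_left o, ⟨1, one_mem _, by group⟩,
        by rw [mul_one]; exact one_mem _⟩
      inv_mem' := by
        rintro x ⟨h1, h2, ⟨p, hp, h3⟩, h4⟩
        exact ⟨fun a ha => (h1 a ha).inv_left, fun o ho => (h2 o ho).inv_left,
          ⟨p⁻¹, inv_mem hp, tri x p hp h1 h3⟩, by rw [← mul_inv_rev]; exact inv_mem h4⟩
      mul_mem' := by
        rintro x y ⟨x1, x2, ⟨p, hp, x3⟩, x4⟩ ⟨y1, y2, ⟨q, hq, y3⟩, y4⟩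
        have xy1 : ∀ a ∈ A, Commute (x * y) a := fun a ha => (x1 a ha).mul_left (y1 a ha)
        have xy3 := trm x y p q hq x1 x3 y3
        have yx3 := trm y x q p hp y1 y3 x3
        refine ⟨xy1, fun o ho => (x2 o ho).mul_left (y2 o ho), ⟨p * q, mul_mem hp hq, xy3⟩, ?_⟩
        have c1 : ∀ a ∈ A, Commute ((y * x)⁻¹ * (x * y)) a := fun a ha =>
          ((y1 a ha).mul_left (x1 a ha)).inv_left.mul_left (xy1 a ha)
        have c2 : Commute ((y * x)⁻¹ * (x * y)) t := by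
          have e : x * y * t * (x * y)⁻¹ = y * x * t * (y * x)⁻¹ := by rw [xy3, yx3, (hAc p hp q hq).eq]
          calc (y * x)⁻¹ * (x * y) * t = (y * x)⁻¹ * (x * y * t * (x * y)⁻¹) * (x * y) := by group
            _ = t * ((y * x)⁻¹ * (x * y)) := by rw [e]; group
        obtain ⟨v, o, hv, ho, e⟩ := dec _ c1 c2
        have hv' : y⁻¹ * v * y⁻¹⁻¹ ∈ V := nV y⁻¹ q⁻¹ (inv_mem hq) (fun a ha => (y1 a ha).inv_left)
          (tri y q hq y1 y3) v hv
        have e1 : v * o * (y⁻¹ * (v * o) * y) = 1 := by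
          rw [← e]
          calc (y * x)⁻¹ * (x * y) * (y⁻¹ * ((y * x)⁻¹ * (x * y)) * y)
              = x⁻¹ * y⁻¹ * y⁻¹ * (x * (y * y)) := by group
            _ = 1 := by rw [(x1 _ y4).eq]; group
        have e2 : o * o = (y⁻¹ * v * y⁻¹⁻¹)⁻¹ * v⁻¹ := by
          have a1 := (vO v hv o ho).eq
          have a2 := (y2 o ho).eq
          have a3 := (vO _ hv' o ho).eq
          have : v * (y⁻¹ * v * y⁻¹⁻¹) * (o * o) = 1 := by
            calc v * (y⁻¹ * v * y⁻¹⁻¹) * (o * o) = v * (y⁻¹ * v * y⁻¹⁻¹ * o) * o := by group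
              _ = v * o * (y⁻¹ * v * (y * o)) := by rw [a3]; group
              _ = 1 := by rw [a2, ← e1]; group
          rw [← mul_inv_rev]
          exact eq_inv_of_mul_eq_one_right this
        have o1 : o = 1 := oV o ho (e2 ▸ mul_mem (inv_mem hv') (V.inv_mem hv))
        rw [o1, mul_one] at e
        have e3 : x * y * (x * y) = x * x * (y * y) * (y⁻¹ * v * y⁻¹⁻¹)⁻¹ := by rw [← e]; group
        have hsq : x * y * (x * y) ∈ V :=
          e3 ▸ mul_mem (mul_mem (Or.inl x4 : x * x ∈ V) (Or.inl y4 : y * y ∈ V)) (inv_mem hv')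
        rcases id hsq with h | h
        · exact h
        · have ct : Commute (x * y) t := by
            have a1 := xy1 _ h
            have a2 : Commute (x * y) (x * y * (x * y)) := (Commute.refl _).mul_right (Commute.refl _)
            have a3 := a2.inv_right.mul_right a1
            rwa [inv_mul_cancel_left] at a3
          rw [vsq _ (sqV _ xy1 ct hsq)]; exact one_mem _ }
  have VQ : ∀ v ∈ V, v ∈ Q := fun v hv =>
    ⟨vA v hv, vO v hv, ⟨1, one_mem _, by rw [(vt v hv).eq]; group⟩, by rw [vsq v hv]; exact one_mem _⟩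
  refine ⟨Q, fun x => Iff.rfl, fun x hx hxt => sqV x hx.1 hxt (Or.inl hx.2.2.2), ?_⟩
  rintro x x1 ⟨n, hn⟩ y hy e
  have c2 : Commute (y⁻¹ * x) t := by
    calc y⁻¹ * x * t = y⁻¹ * (x * t * x⁻¹) * x := by group
      _ = t * (y⁻¹ * x) := by rw [e]; group
  obtain ⟨v, o, hv, ho, e1⟩ := dec _ (fun a ha => (hy.1 a ha).inv_left.mul_left (x1 a ha)) c2
  have hz : y * v ∈ Q := mul_mem hy (VQ v hv)
  have e2 : x = y * v * o := by rw [mul_assoc, ← e1]; group
  have z4 : (y * v) ^ 4 = 1 := by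
    calc (y * v) ^ 4 = y * v * (y * v) * (y * v * (y * v)) := by norm_num [pow_succ, mul_assoc]
      _ = 1 := hA2 _ hz.2.2.2
  have o1 : o = 1 := by
    refine q_odd (hO o ho).1 (n := n + 2) ?_
    have a1 : x ^ 2 ^ (n + 2) = 1 := by rw [pow_add, pow_mul, hn, one_pow]
    have a2 : (y * v) ^ 2 ^ (n + 2) = 1 := by
      rw [show 2 ^ (n + 2) = 4 * 2 ^ n by ring, pow_mul, z4, one_pow]
    rwa [e2, (hz.2.1 o ho).mul_pow, a2, one_mul] at a1
  rw [e2, o1, mul_one]; exact hz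

theorem qS : QS.{u} := by
  intro G _ _ ι L S t h H F
  have hmul : ∀ a c a' c' : F4, (⟨a, 0, c⟩ : Heis F4) * ⟨a', 0, c'⟩ = ⟨a + a', 0, c + c'⟩ := by decide +kernel
  have hsq : ∀ a c : F4, (⟨a, 0, c⟩ : Heis F4) * ⟨a, 0, c⟩ = 1 := by decide +kernel
  have sq : ∀ a c : F4, ι ⟨a, 0, c⟩ * ι ⟨a, 0, c⟩ = 1 := fun a c => by rw [← map_mul, hsq, map_one]
  let A : Subgroup G :=
    { carrier := {x | ∃ a c, x = ι ⟨a, 0, c⟩}
      one_mem' := ⟨0, 0, (map_one ι).symm⟩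
      mul_mem' := by
        rintro _ _ ⟨a, c, rfl⟩ ⟨a', c', rfl⟩
        exact ⟨a + a', c + c', by rw [← map_mul, hmul]⟩
      inv_mem' := by
        rintro _ ⟨a, c, rfl⟩
        exact ⟨a, c, inv_eq_of_mul_eq_one_right (sq a c)⟩ }
  have hCA : ∀ x, (∀ a ∈ A, Commute x a) ↔ CA ι x :=
    fun x => ⟨fun hx a c => (hx _ ⟨a, c, rfl⟩).eq, by rintro hx _ ⟨a, c, rfl⟩; exact hx a c⟩
  have hKA : ∀ k ∈ centralizer (L : Set G), ∀ a ∈ A, Commute a k := by
    rintro k hk _ ⟨a, c, rfl⟩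
    exact hk _ (H.mem _)
  obtain ⟨Q, q1, q2, q3⟩ := q_abs A t (fun o => o ∈ centralizer (L : Set G) ∧ o * t = t * o ∧ Odd (orderOf o)) H.tt
    (by rintro _ ⟨a, c, rfl⟩; exact sq a c)
    (by
      rintro _ ⟨a, c, rfl⟩ _ ⟨a', c', rfl⟩
      change _ * _ = _ * _
      rw [← map_mul, ← map_mul, hmul, hmul, add_comm a, add_comm c])
    (hKA t H.tK) (fun o ho => ⟨ho.2.2, ho.2.1.symm, hKA o ho.1⟩) (by
      intro x x1 x2
      have xN : x ∈ normalizer (L : Set G) :=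
        H.tight x t H.tK H.tt H.t1 (by rw [x2.eq, mul_inv_cancel_right]; exact H.tK)
      obtain ⟨a, c, hk⟩ := H.cA x xN ((hCA x).1 x1)
      set k := ι ⟨a, 0, c⟩ * x with hkd
      have aA : ι ⟨a, 0, c⟩ ∈ A := ⟨a, c, rfl⟩
      have kt : Commute k t := (hKA t H.tK _ aA).mul_left x2
      have xk : x = ι ⟨a, 0, c⟩ * k := by rw [hkd, ← mul_assoc, sq, one_mul]
      obtain ⟨n, m, hm, e⟩ := Nat.exists_eq_two_pow_mul_odd (orderOf_pos k).ne'
      have two : Two (k ^ m) := ⟨n, by rw [← pow_mul, mul_comm, ← e, pow_orderOf_eq_one]⟩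
      rcases F.two _ (pow_mem hk m) (kt.pow_left m).eq two with e1 | e1
      · exact ⟨_, k, Or.inl aA, ⟨hk, kt.eq, hm.of_dvd_nat (orderOf_dvd_of_pow_eq_one e1)⟩, xk⟩
      · have tm : t ^ m = t := by
          obtain ⟨r, rfl⟩ := hm
          rw [pow_succ, pow_mul, pow_two, H.tt, one_pow, one_mul]
        refine ⟨ι ⟨a, 0, c⟩ * t, t * k, Or.inr (by rw [mul_assoc, H.tt, mul_one]; exact aA),
          ⟨mul_mem H.tK hk, ((Commute.refl t).mul_left kt).eq, hm.of_dvd_nat (orderOf_dvd_of_pow_eq_one ?_)⟩, ?_⟩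
        · rw [kt.symm.mul_pow, tm, e1, H.tt]
        · rw [mul_assoc, ← mul_assoc t, H.tt, one_mul]; exact xk)
  refine ⟨Q, fun x => (q1 x).trans ?_, fun x hx hxt => ?_, fun x x1 => q3 x ((hCA x).2 x1)⟩
  · refine and_congr (hCA x) (and_congr ⟨fun hx o o1 o2 o3 => hx o ⟨o1, o2, o3⟩,
      fun hx o ho => hx o ho.1 ho.2.1 ho.2.2⟩ (and_congr ⟨?_, ?_⟩ Iff.rfl))
    · rintro ⟨_, ⟨a, c, rfl⟩, e⟩
      exact ⟨a, c, e⟩
    · rintro ⟨a, c, e⟩
      exact ⟨_, ⟨a, c, rfl⟩, e⟩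
  · rcases q2 x hx hxt with ⟨a, c, e⟩ | ⟨a, c, e⟩
    · exact ⟨a, c, Or.inl e⟩
    · exact ⟨a, c, Or.inr (by rw [← e, mul_assoc, H.tt, mul_one])⟩

end CL.L34
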