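/-
Standard subgroups of type `L_3(4)`: outer involutions and elementary abelian subgroups of order 32.
-/
import Cfsg.Agent.L34.Defs

set_option autoImplicit false

universe u

namespace CL.L34
open Subgroup CL.Grp

/-- the action of an element of `S` -/
def s1f (a b : F4) (i j : Bool) (q : Heis F4) : Heis F4 :=
  ⟨(th i j q).a, (th i j q).b, (th i j q).c + (th i j q).a * b - a * (th i j q).b⟩

theorem s1_dA : ∀ (i j : Bool) (a b : F4), (i = true ∨ j = true) → (∀ q, s1f a b i j (s1f a b i j q) = q) →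
    ∃ a' b' : F4, ∀ q, ⟨a', b', 0⟩ * s1f a b i j ((⟨a', b', 0⟩ : Heis F4)⁻¹ * q * ⟨a', b', 0⟩) *
      (⟨a', b', 0⟩ : Heis F4)⁻¹ = th i j q := by decide +kernel
theorem s1_d1 : ∀ (a b : F4) (i : Bool) (p : Heis F4), s1f a b i true p = p → p * p = 1 → p.a = 0 ∧ p.b = 0 := by
  decide +kernel
theorem s1_d2 : ∀ (a b : F4) (j : Bool) (p : Heis F4), s1f a b true j p = p → p.a = 0 ∧ p.b = 0 →
    p = ⟨0, 0, 0⟩ ∨ p = ⟨0, 0, 1⟩ := by decide +kernel
theorem s1_d3 : ∀ a b : F4, (Finset.univ.filter fun p : Heis F4 => p.b = 0 ∧ s1f a b true false p = p).card ≤ 4 ∧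
    (Finset.univ.filter fun p : Heis F4 => p.a = 0 ∧ s1f a b true false p = p).card ≤ 4 := by decide +kernel
theorem s1_d4 : (Finset.univ.filter fun p : Heis F4 => p.a = 0 ∧ p.b = 0).card ≤ 4 := by decide +kernel
theorem s1_d5 : ∀ p q : Heis F4, p * p = 1 → p.b ≠ 0 → p * q = q * p → q.a = 0 := by decide +kernel
theorem s1_d6 : ∀ (i j : Bool) (q q' : Heis F4), q'.a = (th i j q).a → q'.b = (th i j q).b →
    (th i j q').a = q.a ∧ (th i j q').b = q.b := by decide +kernel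
theorem s1_d7 : ∀ p : Heis F4, (∀ q, p * q = q * p) → ∃ q : Heis F4,
    q * (gr q)⁻¹ * dg om om (p⁻¹ * (q * (gr q)⁻¹)⁻¹) = 1 ∧ ∀ x, q * (gr q)⁻¹ * gr x * (q * (gr q)⁻¹)⁻¹ = gr x := by
  decide +kernel

variable {G : Type u} [Group G] {ι : Heis F4 →* G} {L S : Subgroup G} {t h : G}

/-- the conclusion for an outer involution -/
def S1Out (L : Subgroup G) (y : G) : Prop :=
  ∃ x ∈ L, ∃ x' ∈ L, ∃ m ∈ L, x * y = y * x ∧ x' * y = y * x' ∧ x * x' * x⁻¹ * x'⁻¹ ≠ 1 ∧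
    x * x' * x⁻¹ * x'⁻¹ * (x * x' * x⁻¹ * x'⁻¹) = 1 ∧ m * y * m⁻¹ = y * (x * x' * x⁻¹ * x'⁻¹)

theorem s1_conj {y g : G} (hg : g ∈ L) (h : S1Out L (g * y * g⁻¹)) : S1Out L y := by
  obtain ⟨x, hx, x', hx', m, hm, a1, a2, a3, a4, a5⟩ := h
  have c : ∀ z ∈ L, g⁻¹ * z * g ∈ L := fun z hz => mul_mem (mul_mem (inv_mem hg) hz) hg
  have d : ∀ z, z * (g * y * g⁻¹) = g * y * g⁻¹ * z → g⁻¹ * z * g * y = y * (g⁻¹ * z * g) := fun z e => by
    calc _ = g⁻¹ * (z * (g * y * g⁻¹)) * g := by group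
      _ = _ := by rw [e]; group
  have e : g⁻¹ * x * g * (g⁻¹ * x' * g) * (g⁻¹ * x * g)⁻¹ * (g⁻¹ * x' * g)⁻¹ =
      g⁻¹ * (x * x' * x⁻¹ * x'⁻¹) * g⁻¹⁻¹ := by group
  refine ⟨_, c x hx, _, c x' hx', _, c m hm, d x a1, d x' a2, ?_, ?_, ?_⟩ <;> rw [e]
  · rwa [Ne, conj_eq_one_iff]
  · rw [conj_mul, a4]; simp
  · calc _ = g⁻¹ * (m * (g * y * g⁻¹) * m⁻¹) * g := by group
      _ = _ := by rw [a5]; group

theorem s1_gen (H : Loc ι L S t h) {y x : G} {f : Heis F4 → Heis F4} (yy : y * y = 1) (ay : Act ι y f)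
    (hx : x ∈ L) (xy : x * y = y * x) (x' c m : Heis F4) (e : x * ι x' * x⁻¹ * (ι x')⁻¹ = ι c)
    (d : f x' = x' ∧ c ≠ 1 ∧ c * c = 1 ∧ f m * m⁻¹ = c) : S1Out L y := by
  refine ⟨x, hx, _, H.mem x', _, H.mem m, xy, (mul_inv_eq_iff_eq_mul.1 (by rw [ay, d.1])).symm, ?_, ?_, ?_⟩ <;> rw [e]
  · exact fun e1 => d.2.1 (H.inj (by rw [e1, map_one]))
  · rw [← map_mul, d.2.2.1, map_one]
  · rw [← d.2.2.2, map_mul, ← ay, map_inv]
    calc _ = y * y * ι m * y * (ι m)⁻¹ := by rw [yy, one_mul]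
      _ = _ := by rw [inv_eq_of_mul_eq_one_right yy]; group

theorem s1_N (H : Loc ι L S t h) {s : G} (hs : s ∈ S) : s ∈ normalizer (L : Set G) :=
  H.tight s t H.tK H.tt H.t1 (by
    rw [mem_centralizer_singleton_iff.1 (H.syl.le hs), mul_inv_cancel_right]; exact H.tK)

theorem s1_act (H : Loc ι L S t h) {s : G} (hs : s ∈ S) : ∃ a b i j, Act ι s (s1f a b i j) ∧
    (i = false → j = false → ∃ p, ι p * s ∈ centralizer (L : Set G)) := by
  obtain ⟨p, i, j, a1, a2⟩ := H.act s hs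
  refine ⟨p.a, p.b, i, j, fun q => ?_, fun hi hj => ⟨p, a2 hi hj⟩⟩
  have e : s1f p.a p.b i j q = p⁻¹ * th i j q * p := Heis.ext (by simp [s1f]) (by simp [s1f]) (by simp [s1f]; ring)
  rw [e, map_mul, map_mul, ← a1, map_inv]
  group

theorem s1_gr (H : Loc ι L S t h) {y : G} (yN : y ∈ normalizer (L : Set G)) (yy : y * y = 1) (ay : Act ι y gr) :
    S1Out L y := by
  have yi : y⁻¹ = y := inv_eq_of_mul_eq_one_right yy
  have hL' : y * h * y⁻¹ ∈ L := (mem_normalizer_iff.1 yN h).1 H.hL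
  have nL : h⁻¹ * (y * h * y⁻¹) ∈ L := mul_mem (inv_mem H.hL) hL'
  have nT : ∀ q, h⁻¹ * (y * h * y⁻¹) * ι q * (h⁻¹ * (y * h * y⁻¹))⁻¹ = ι q := fun q => by
    calc _ = h⁻¹ * (y * (h * (y⁻¹ * ι q * y⁻¹⁻¹) * h⁻¹) * y⁻¹) * h := by group
      _ = h⁻¹ * (h * ι q * h⁻¹) * h := by
        rw [show y⁻¹ * ι q * y⁻¹⁻¹ = ι (gr q) by rw [yi, ay], H.ah, ay, H.ah,
          (by decide +kernel : ∀ q, gr (dg om om (gr q)) = dg om om q)]
      _ = _ := by group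
  obtain ⟨p, hp⟩ := H.cT _ (le_normalizer nL) fun q => ⟨0, by rw [nT, ← Heis.one_def, mul_one]⟩
  obtain ⟨k, hk⟩ : ∃ k, k = ι p * (h⁻¹ * (y * h * y⁻¹)) := ⟨_, rfl⟩
  rw [← hk] at hp
  have kc : ∀ l ∈ L, l * k = k * l := fun l hl => mem_centralizer_iff.1 hp l hl
  obtain ⟨q, q1, q2⟩ := s1_d7 p fun q => H.inj (by
    have e := kc _ (H.mem q)
    rw [hk, mul_assoc (ι p), mul_inv_eq_iff_eq_mul.1 (nT q), ← mul_assoc, ← mul_assoc (ι p), mul_left_inj] at e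
    rw [map_mul, map_mul, e])
  obtain ⟨z, hz⟩ : ∃ z, z = q * (gr q)⁻¹ := ⟨_, rfl⟩
  rw [← hz] at q1 q2
  have e0 : ι q * y * (ι q)⁻¹ = ι z * y := by rw [hz, map_mul, map_inv, ← ay]; group
  refine s1_conj (H.mem q) ?_
  obtain ⟨y2, hy2⟩ : ∃ y2, y2 = ι q * y * (ι q)⁻¹ := ⟨_, rfl⟩
  rw [← hy2] at e0 ⊢
  have yy2 : y2 * y2 = 1 := by rw [hy2, conj_mul, yy]; simp
  have ay2 : Act ι y2 gr := fun x => by
    rw [e0, ← q2 x, map_mul, map_mul, map_inv, ← ay x]; group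
  have e1 : y2 * h * y2⁻¹ = h * k := by
    have e2 := congrArg ι q1
    rw [map_mul, ← H.ah, map_mul, map_inv, map_inv, map_one] at e2
    calc _ = ι z * h * (ι p)⁻¹ * (k * (ι z)⁻¹) := by rw [e0, hk]; group
      _ = ι z * (h * ((ι p)⁻¹ * (ι z)⁻¹) * h⁻¹) * (h * k) := by rw [← kc _ (inv_mem (H.mem z))]; group
      _ = _ := by rw [e2, one_mul]
  refine s1_gen H yy2 ay2 (x := h * (h * k)) (mul_mem H.hL (mul_mem H.hL (hk ▸ mul_mem (H.mem p) nL))) ?_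
    ⟨0, 0, 1⟩ ⟨0, 0, om * om⟩ ⟨om, om, 0⟩ ?_ (by decide +kernel)
  · refine (mul_inv_eq_iff_eq_mul.1 ?_).symm
    calc _ = y2 * h * y2⁻¹ * (y2 * (h * k) * y2⁻¹) := by group
      _ = h * k * (y2 * y2 * h * (y2 * y2)⁻¹) := by rw [← e1]; group
      _ = _ := by rw [yy2, one_mul, inv_one, mul_one, mul_assoc, ← kc _ H.hL]
  · calc _ = h * (h * (k * ι ⟨0, 0, 1⟩ * k⁻¹) * h⁻¹) * h⁻¹ * (ι ⟨0, 0, 1⟩)⁻¹ := by group
      _ = _ := by
        rw [← kc _ (H.mem _), mul_inv_cancel_right, H.ah, H.ah, ← map_inv, ← map_mul]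
        exact congrArg ι (by decide +kernel)

theorem s1_out (H : Loc ι L S t h) {y : G} (hy : y ∈ S) (yy : y * y = 1)
    (hn : ∀ k ∈ centralizer (L : Set G), ∀ l ∈ L, y ≠ k * l) : S1Out L y := by
  obtain ⟨a, b, i, j, ay, a2⟩ := s1_act H hy
  have hij : i = true ∨ j = true := by
    by_contra h0
    simp only [not_or, Bool.not_eq_true] at h0
    obtain ⟨p, hp⟩ := a2 h0.1 h0.2
    exact hn _ hp _ (inv_mem (H.mem p)) (by
      rw [← mem_centralizer_iff.1 hp _ (inv_mem (H.mem p)), inv_mul_cancel_left])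
  obtain ⟨a', b', e⟩ := s1_dA i j a b hij fun q => H.inj (by
    rw [← ay, ← ay]
    calc _ = y * y * ι q * (y * y)⁻¹ := by group
      _ = _ := by rw [yy]; simp)
  set r : Heis F4 := ⟨a', b', 0⟩
  refine s1_conj (H.mem r) ?_
  have yy1 : ι r * y * (ι r)⁻¹ * (ι r * y * (ι r)⁻¹) = 1 := by rw [conj_mul, yy]; simp
  have ay1 : Act ι (ι r * y * (ι r)⁻¹) (th i j) := fun q => by
    rw [← e, map_mul, map_mul, ← ay, map_mul, map_mul, map_inv]; group
  have c : ∀ x, th i j x = x → ι x * (ι r * y * (ι r)⁻¹) = ι r * y * (ι r)⁻¹ * ι x := fun x e =>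
    (mul_inv_eq_iff_eq_mul.1 (by rw [ay1, e])).symm
  have cm : ∀ x x' : Heis F4, ι x * ι x' * (ι x)⁻¹ * (ι x')⁻¹ = ι (x * x' * x⁻¹ * x'⁻¹) := fun x x' => by simp
  cases i <;> cases j
  · simp at hij
  · exact s1_gr H (mul_mem (mul_mem (le_normalizer (H.mem r)) (s1_N H hy)) (le_normalizer (inv_mem (H.mem r))))
      yy1 ay1
  · exact s1_gen H yy1 ay1 (H.mem ⟨1, 0, 0⟩) (c _ (by decide +kernel)) ⟨0, 1, 0⟩ _ ⟨0, 0, om⟩ (cm _ _)
      (by decide +kernel)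
  · exact s1_gen H yy1 ay1 (H.mem ⟨1, 1, om⟩) (c _ (by decide +kernel)) ⟨om, om * om, om⟩ _ ⟨0, 0, om⟩ (cm _ _)
      (by decide +kernel)

theorem s1_tc (H : Loc ι L S t h) (p : Heis F4) : Commute (ι p) t := mem_centralizer_iff.1 H.tK _ (H.mem p)

theorem s1_U (H : Loc ι L S t h) {e : G} (he : e ∈ S) (ee : e * e = 1) {p : Heis F4}
    (hp : ι p * e ∈ centralizer (L : Set G)) : ∃ q, e = ι q ∨ e = ι q * t := by
  have c1 : Commute (ι p) (ι p * e) := mem_centralizer_iff.1 hp _ (H.mem p)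
  have c2 : Commute (ι p) e := by simpa using (Commute.refl (ι p)).inv_right.mul_right c1
  have e1 : ι p * e * (ι p * e) = ι (p * p) := by
    rw [map_mul, mul_assoc, ← mul_assoc e, ← c2.eq, mul_assoc, ee, mul_one]
  have e2 := H.KT _ (e1 ▸ mul_mem hp hp)
  rcases H.rk _ hp (by rw [e1, e2, map_one])
    ((s1_tc H p).mul_left (mem_centralizer_singleton_iff.1 (H.syl.le he))) with e3 | e3
  · exact ⟨p⁻¹, .inl (by rw [map_inv, eq_inv_of_mul_eq_one_right e3])⟩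
  · exact ⟨p⁻¹, .inr (by rw [map_inv, ← e3, inv_mul_cancel_left])⟩

theorem s1_card {E : Subgroup G} {X : Type} [Finite X] (τ : E → X) (Φ : Finset (Heis F4))
    (h1 : ∀ e e' : E, τ e = τ e' → ∃ q, (e * e' : G) = ι q ∨ (e * e' : G) = ι q * t)
    (h2 : ∀ q, ι q ∈ E ∨ ι q * t ∈ E → q ∈ Φ) : Nat.card E ≤ Nat.card X * (2 * Φ.card) := by
  let g : X × Bool × Φ → G := fun y =>
    ((Function.invFun τ y.1 : E) : G)⁻¹ * cond y.2.1 (ι y.2.2) (ι y.2.2 * t)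
  have key : ∀ e : E, ∃ y, g y = e := fun e => by
    obtain ⟨q, hq⟩ := h1 _ e (Function.invFun_eq ⟨e, rfl⟩)
    have m := mul_mem (Function.invFun τ (τ e)).2 e.2
    rcases hq with hq | hq
    · exact ⟨(τ e, true, ⟨q, h2 q (.inl (hq ▸ m))⟩), inv_mul_eq_iff_eq_mul.2 hq.symm⟩
    · exact ⟨(τ e, false, ⟨q, h2 q (.inr (hq ▸ m))⟩), inv_mul_eq_iff_eq_mul.2 hq.symm⟩
  choose φ hφ using key
  have := Nat.card_le_card_of_injective φ fun a b e => Subtype.ext (by rw [← hφ, ← hφ, e])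
  simpa [Nat.card_prod] using this

theorem s1_FA {E : Subgroup G} [Finite G] (h1 : ∀ x ∈ E, FA ι t x) (h2 : 32 ≤ Nat.card E) (x : G) :
    x ∈ E ↔ FA ι t x := by
  let g : Bool × F4 × F4 → G := fun y => cond y.1 (ι ⟨y.2.1, 0, y.2.2⟩) (ι ⟨y.2.1, 0, y.2.2⟩ * t)
  have e : {x | FA ι t x} ⊆ g '' Set.univ := by
    rintro _ ⟨a, c, rfl | rfl⟩
    exacts [⟨(true, a, c), trivial, rfl⟩, ⟨(false, a, c), trivial, rfl⟩]
  have h3 := (Set.ncard_le_ncard e).trans (Set.ncard_image_le Set.finite_univ)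
  rw [Set.ncard_univ, Nat.card_prod, Nat.card_prod, card_F4, Nat.card_eq_fintype_card, Fintype.card_bool] at h3
  exact Set.ext_iff.1 (Set.eq_of_subset_of_ncard_le (s := (E : Set G)) (t := {x | FA ι t x}) h1 (h3.trans h2)) x

theorem sfS : SFS.{u} := by
  intro G _ _ ι L S t h H
  refine ⟨fun y hy yy hn => s1_out H hy yy hn, fun E hE ee h32 => ?_⟩
  have ec : ∀ x ∈ E, ∀ y ∈ E, Commute x y := fun x hx y hy => by
    have e := eq_inv_of_mul_eq_one_left (ee _ (mul_mem hx hy))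
    rwa [mul_inv_rev, inv_eq_of_mul_eq_one_right (ee x hx), inv_eq_of_mul_eq_one_right (ee y hy)] at e
  have ct : ∀ x ∈ E, Commute x t := fun x hx => mem_centralizer_singleton_iff.1 (H.syl.le (hE hx))
  have cF : ∀ q, ι q ∈ E ∨ ι q * t ∈ E → ∀ x ∈ E, Commute x (ι q) := fun q hq x hx => hq.elim (ec x hx _) fun hq => by
    simpa using (ec x hx _ hq).mul_right (ct x hx).inv_right
  have sq : ∀ q, ι q ∈ E ∨ ι q * t ∈ E → q * q = 1 := fun q hq => H.inj (by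
    rw [map_mul, map_one]
    refine hq.elim (ee _) fun hq => ?_
    have e := ee _ hq
    rwa [mul_assoc, ← mul_assoc t, ← (s1_tc H q).eq, mul_assoc, H.tt, mul_one] at e)
  have AB : (∀ q, ι q ∈ E ∨ ι q * t ∈ E → q.b = 0) ∨ ∀ q, ι q ∈ E ∨ ι q * t ∈ E → q.a = 0 := by
    refine or_iff_not_imp_left.2 fun h0 q hq => ?_
    obtain ⟨p, h0⟩ := not_forall.1 h0
    obtain ⟨hp, h0⟩ := Classical.not_imp.1 h0
    refine s1_d5 p q (sq p hp) h0 (H.inj ?_)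
    rw [map_mul, map_mul]
    refine hp.elim (cF q hq _) fun hp => ?_
    simpa using ((cF q hq _ hp).mul_left (s1_tc H q).symm.inv_left).eq
  choose a b i j ha hij using fun e : E => s1_act H (hE e.2)
  have fx : ∀ q, ι q ∈ E ∨ ι q * t ∈ E → ∀ e : E, s1f (a e) (b e) (i e) (j e) q = q := fun q hq e =>
    H.inj (by rw [← ha e q, (cF q hq e e.2).eq, mul_inv_cancel_right])
  have same : ∀ e e' : E, i e = i e' → j e = j e' → ∃ q, (e * e' : G) = ι q ∨ (e * e' : G) = ι q * t := by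
    intro e e' h1 h2
    have m := mul_mem e.2 e'.2
    obtain ⟨p, hp⟩ := H.cT _ (s1_N H (hE m)) fun q => by
      obtain ⟨d1, d2⟩ := s1_d6 (i e) (j e) q (s1f (a e') (b e') (i e') (j e') q) (by rw [h1, h2]; rfl)
        (by rw [h1, h2]; rfl)
      refine ⟨(s1f (a e) (b e) (i e) (j e) (s1f (a e') (b e') (i e') (j e') q)).c - q.c, ?_⟩
      rw [show (e * e' : G) * ι q * (e * e' : G)⁻¹ = e * (e' * ι q * (e' : G)⁻¹) * (e : G)⁻¹ by group, ha, ha]
      exact congrArg ι (Heis.ext (d1.trans (by simp)) (d2.trans (by simp)) (by simp))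
    exact s1_U H (hE m) (ee _ m) hp
  by_cases hj : ∃ e, j e = true
  · obtain ⟨e1, hj⟩ := hj
    have hD : ∀ q, ι q ∈ E ∨ ι q * t ∈ E → q.a = 0 ∧ q.b = 0 := fun q hq =>
      s1_d1 _ _ _ q (hj ▸ fx q hq e1) (sq q hq)
    by_cases hi : ∃ e, i e = true
    · obtain ⟨e2, hi⟩ := hi
      have := s1_card (fun e => (i e, j e)) {⟨0, 0, 0⟩, ⟨0, 0, 1⟩}
        (fun e e' e0 => same e e' (congrArg Prod.fst e0) (congrArg Prod.snd e0))
        fun q hq => by simpa using s1_d2 _ _ _ q (hi ▸ fx q hq e2) (hD q hq)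
      have h2 := Finset.card_le_two (a := (⟨0, 0, 0⟩ : Heis F4)) (b := ⟨0, 0, 1⟩)
      simp only [Nat.card_eq_fintype_card, Fintype.card_prod, Fintype.card_bool] at this
      omega
    · simp only [not_exists, Bool.not_eq_true] at hi
      have := s1_card j _ (fun e e' e0 => same e e' (by rw [hi, hi]) e0)
        fun q hq => Finset.mem_filter.2 ⟨Finset.mem_univ _, hD q hq⟩
      have h2 := s1_d4
      simp only [Nat.card_eq_fintype_card, Fintype.card_bool] at this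
      omega
  simp only [not_exists, Bool.not_eq_true] at hj
  by_cases hi : ∃ e, i e = true
  · obtain ⟨e2, hi⟩ := hi
    have hf : ∀ q, ι q ∈ E ∨ ι q * t ∈ E → s1f (a e2) (b e2) true false q = q := fun q hq =>
      hi ▸ hj e2 ▸ fx q hq e2
    obtain ⟨h2, h3⟩ := s1_d3 (a e2) (b e2)
    have key := fun Φ => s1_card i Φ fun e e' e0 => same e e' e0 (by rw [hj, hj])
    simp only [Nat.card_eq_fintype_card, Fintype.card_bool] at key h32
    rcases AB with h0 | h0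
    · exact absurd (h32.trans ((key _ fun q hq => Finset.mem_filter.2 ⟨Finset.mem_univ _, And.intro (h0 q hq) (hf q hq)⟩).trans
        (Nat.mul_le_mul_left _ (Nat.mul_le_mul_left _ h2)))) (by omega)
    · exact absurd (h32.trans ((key _ fun q hq => Finset.mem_filter.2 ⟨Finset.mem_univ _, And.intro (h0 q hq) (hf q hq)⟩).trans
        (Nat.mul_le_mul_left _ (Nat.mul_le_mul_left _ h3)))) (by omega)
  simp only [not_exists, Bool.not_eq_true] at hi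
  have hU : ∀ x ∈ E, ∃ q, x = ι q ∨ x = ι q * t := fun x hx =>
    (hij ⟨x, hx⟩ (hi _) (hj _)).elim fun p hp => s1_U H (hE hx) (ee x hx) hp
  refine AB.imp (fun h0 => s1_FA (fun x hx => ?_) h32) fun h0 => s1_FA (fun x hx => ?_) h32
  all_goals
    obtain ⟨⟨q1, q2, q3⟩, hq⟩ := hU x hx
    obtain rfl := h0 _ (hq.imp (fun e => e ▸ hx) fun e => e ▸ hx)
  · exact ⟨q1, q3, hq⟩
  · exact ⟨q2, q3, by simpa only [MonoidHom.comp_apply, gr_A] using hq⟩

end CL.L34
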