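/-
Standard subgroups of type `L_3(4)`: centralizers in `S`.
-/
import Cfsg.Agent.L34.Defs

set_option autoImplicit false

universe u

namespace CL.L34
open Subgroup CL.Grp

/-- the action of an element of `S` on `T` -/
def s2af (p : Heis F4) (i j : Bool) (q : Heis F4) : Heis F4 := p⁻¹ * th i j q * p

/-- the action on `T / D` -/
def s2th (i j : Bool) (a b : F4) : F4 × F4 :=
  cond j (cond i (b * b) b, cond i (a * a) a) (cond i (a * a) a, cond i (b * b) b)

theorem s2_ab (p : Heis F4) (i j : Bool) (q : Heis F4) :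
    ((s2af p i j q).a, (s2af p i j q).b) = s2th i j q.a q.b := by
  cases i <;> cases j <;> simp [s2af, s2th, th, fr, gr_apply]

theorem s2_d1 : ∀ i j i' j' : Bool, (∀ a b, s2th i j a b = s2th i' j' a b) → i = i' ∧ j = j' := by decide +kernel
theorem s2_d2 : ∀ i j i' j' : Bool, (∀ a b, s2th i j (s2th i' j' a b).1 (s2th i' j' a b).2 = s2th i j a b) →
    i' = false ∧ j' = false := by decide +kernel
theorem s2_d3 : ∀ (p : Heis F4) (j : Bool), (∀ q, s2af p true j (s2af p true j q) = q) →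
    (Finset.univ.filter fun q => s2af p true j q = q).card ≤ 8 ∧
    (8 ≤ (Finset.univ.filter fun q => s2af p true j q = q).card →
      (Finset.univ.filter fun q => s2af p true j q = q ∧ ∀ r, s2af p true j r = r → q * r = r * q).card ≤ 2) := by
  decide +kernel
theorem s2_d4 : ∀ p : Heis F4, (∀ q, s2af p false true (s2af p false true q) = q) →
    (Finset.univ.filter fun q => s2af p false true q = q).card ≤ 4 := by decide +kernel
theorem s2_d5 : ∀ p : Heis F4, p * p = 1 → ¬ (p.a = 0 ∧ p.b = 0) →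
    (Finset.univ.filter fun q => q * p = p * q).card ≤ 16 ∧ (∀ i j, s2th i j p.a p.b = (p.a, p.b) → j = false) ∧
    ∀ q, q * p = p * q → (p.b = 0 ∧ q.b = 0) ∨ (p.a = 0 ∧ q.a = 0) := by decide +kernel
theorem s2_d6 : ∀ p : Heis F4, (Finset.univ.filter fun q : Heis F4 => q.b = 0 ∧ s2af p true false q = q).card ≤ 4 ∧
    (Finset.univ.filter fun q : Heis F4 => q.a = 0 ∧ s2af p true false q = q).card ≤ 4 := by decide +kernel
theorem s2_d7 : ∀ (p : Heis F4) (j : Bool), s2af p true j ⟨0, 0, om⟩ ≠ ⟨0, 0, om⟩ := by decide +kernel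
theorem s2_d8 : (Finset.univ.filter fun q : Heis F4 => q.a = q.b).card = 16 := by decide +kernel
theorem s2_d9 : (Finset.univ.filter fun q : Heis F4 => q.a = 0 ∧ q.b = 0).card = 4 := by decide +kernel
theorem s2_d10 : ∀ a b c : F4, (⟨a, b, c⟩ : Heis F4) = ⟨0, b, 0⟩ * ⟨a, 0, c⟩ ∧
    (⟨0, b, 0⟩ : Heis F4) * ⟨0, b, 0⟩ = 1 ∧ (⟨a, 0, c⟩ : Heis F4) * ⟨a, 0, c⟩ = 1 := by decide +kernel
theorem s2_d11 : (Finset.univ : Finset (Heis F4)).card = 64 := by decide +kernel
theorem s2_d12 : ∀ p q : Heis F4, s2af p⁻¹ false false q = p * q * p⁻¹ := by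
  intro p q; simp [s2af, th]

variable {G : Type u} [Group G]

/-- the type of an element -/
def s2Ty (ι : Heis F4 →* G) (s : G) (i j : Bool) : Prop := ∃ p, Act ι s (s2af p i j)

/-- the elements of `T⟨t⟩` -/
def s2El (ι : Heis F4 →* G) (t : G) (p : Heis F4) (e : Bool) : G := ι p * cond e t 1

variable {ι : Heis F4 →* G} {L S : Subgroup G} {t h : G}

theorem s2_tT (H : Loc ι L S t h) (p : Heis F4) : ι p * t = t * ι p := mem_centralizer_iff.1 H.tK _ (H.mem p)

theorem s2_tS (H : Loc ι L S t h) {s : G} (hs : s ∈ S) : s * t = t * s :=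
  mem_centralizer_singleton_iff.1 (H.syl.le hs)

theorem s2_uniq (H : Loc ι L S t h) {s : G} {i j i' j' : Bool} (a : s2Ty ι s i j) (b : s2Ty ι s i' j') :
    i = i' ∧ j = j' := by
  obtain ⟨p, a⟩ := a
  obtain ⟨p', b⟩ := b
  refine s2_d1 _ _ _ _ fun x y => ?_
  have e := H.inj ((a ⟨x, y, 0⟩).symm.trans (b ⟨x, y, 0⟩))
  rw [← s2_ab p i j ⟨x, y, 0⟩, ← s2_ab p' i' j' ⟨x, y, 0⟩, e]

theorem s2_ex (H : Loc ι L S t h) (F : Fus ι L t) {s : G} (hs : s ∈ S) :
    ∃ i j, s2Ty ι s i j ∧ (i = false → j = false → ∃ p e, s = s2El ι t p e) := by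
  obtain ⟨p, i, j, a1, a2⟩ := H.act s hs
  refine ⟨i, j, ⟨p, fun q => ?_⟩, fun hi hj => ?_⟩
  · rw [s2af, map_mul, map_mul, ← a1, map_inv]; group
  · have m : ι p * s ∈ S := S.mul_mem (H.TS p) hs
    obtain ⟨n, hn⟩ := H.syl.isPGroup ⟨_, m⟩
    rcases F.two _ (a2 hi hj) (s2_tS H m) ⟨n, congrArg Subtype.val hn⟩ with e | e
    · exact ⟨p⁻¹, false, by rw [s2El, map_inv, cond_false, ← e]; group⟩
    · exact ⟨p⁻¹, true, by rw [s2El, map_inv, cond_true, ← e]; group⟩

theorem s2_ker (H : Loc ι L S t h) (F : Fus ι L t) {s : G} (hs : s ∈ S) (a : s2Ty ι s false false) :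
    ∃ p e, s = s2El ι t p e := by
  obtain ⟨i, j, a1, a2⟩ := s2_ex H F hs
  obtain ⟨e1, e2⟩ := s2_uniq H a1 a
  exact a2 e1 e2

theorem s2_same (H : Loc ι L S t h) (F : Fus ι L t) {s s' : G} (hs : s ∈ S) (hs' : s' ∈ S) {i j : Bool}
    (a : s2Ty ι s i j) (b : s2Ty ι s' i j) : ∃ p e, s⁻¹ * s' = s2El ι t p e := by
  obtain ⟨i', j', ⟨r, a1⟩, a2⟩ := s2_ex H F (S.mul_mem (S.inv_mem hs) hs')
  obtain ⟨p, a⟩ := a
  obtain ⟨p', b⟩ := b
  obtain ⟨e1, e2⟩ := s2_d2 i j i' j' fun x y => by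
    have e : s2af p i j (s2af r i' j' ⟨x, y, 0⟩) = s2af p' i j ⟨x, y, 0⟩ := by
      apply H.inj
      rw [← a, ← a1, ← b]; group
    rw [← s2_ab r i' j' ⟨x, y, 0⟩, ← s2_ab p i j, ← s2_ab p' i j ⟨x, y, 0⟩, e]
  exact a2 e1 e2

theorem s2_elTy (H : Loc ι L S t h) (p : Heis F4) (e : Bool) : s2Ty ι (s2El ι t p e) false false := by
  refine ⟨p⁻¹, fun q => ?_⟩
  rw [s2_d12, map_mul, map_mul, map_inv, s2El]
  cases e
  · simp
  · rw [cond_true, mul_assoc (ι p) t, ← s2_tT H]; group

theorem s2_elInj (H : Loc ι L S t h) {p p' : Heis F4} {e e' : Bool} (a : s2El ι t p e = s2El ι t p' e') :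
    p = p' := by
  have k : ∀ e : Bool, cond e t 1 ∈ centralizer (L : Set G) := fun e => by
    cases e
    · exact one_mem _
    · exact H.tK
  have : ι (p'⁻¹ * p) = cond e' t 1 * (cond e t 1)⁻¹ := by
    rw [map_mul, map_inv, eq_mul_inv_iff_mul_eq, mul_assoc]
    rw [s2El, s2El] at a
    rw [a]; group
  have := H.KT _ (this ▸ mul_mem (k e') (inv_mem (k e)))
  exact (inv_mul_eq_one.1 this).symm

/-- an element of `S` commuting with `p t ^ e` commutes with `p` -/
theorem s2_cm (H : Loc ι L S t h) {s : G} (hs : s ∈ S) {p : Heis F4} {e : Bool}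
    (a : s * s2El ι t p e = s2El ι t p e * s) : s * ι p * s⁻¹ = ι p := by
  rw [mul_inv_eq_iff_eq_mul]
  cases e
  · simpa [s2El] using a
  · rw [s2El, cond_true, mul_assoc, ← s2_tS H hs, ← mul_assoc, ← mul_assoc] at a
    exact mul_right_cancel a

theorem s2_cm2 (H : Loc ι L S t h) {p q : Heis F4} {e e' : Bool}
    (a : s2El ι t q e' * s2El ι t p e = s2El ι t p e * s2El ι t q e') : q * p = p * q := by
  have m : s2El ι t q e' ∈ S := by
    cases e'
    · simpa [s2El] using H.TS q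
    · exact S.mul_mem (H.TS q) H.tS
  have b := s2_cm H m a
  have c := s2_cm H (H.TS p) (p := q) (e := e') (mul_inv_eq_iff_eq_mul.1 b).symm
  apply H.inj
  rw [map_mul, map_mul]
  exact (mul_inv_eq_iff_eq_mul.1 c).symm

/-- the counting lemma -/
theorem s2_cnt (H : Loc ι L S t h) (F : Fus ι L t) {C : Subgroup G} (hC : C ≤ S) (τ : Finset (Bool × Bool))
    {β : Type} (E : Finset β) (cd : Heis F4 → Bool → β) (h1 : ∀ s ∈ C, ∀ i j, s2Ty ι s i j → (i, j) ∈ τ)
    (h2 : ∀ p e, s2El ι t p e ∈ C → cd p e ∈ E)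
    (h3 : ∀ p e p' e', s2El ι t p e ∈ C → s2El ι t p' e' ∈ C → cd p e = cd p' e' →
      s2El ι t p e = s2El ι t p' e') : Nat.card C ≤ τ.card * E.card := by
  classical
  choose i j a1 _ using fun s : C => s2_ex H F (hC s.2)
  let r : C → C := fun s => Function.invFun (fun s => (i s, j s)) (i s, j s)
  have hr : ∀ s, (i (r s), j (r s)) = (i s, j s) := fun s =>
    Function.invFun_eq (f := fun s => (i s, j s)) ⟨s, rfl⟩
  choose p e a2 using fun s : C => s2_same H F (hC (r s).2) (hC s.2) (a1 (r s))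
    (by rw [(Prod.mk.inj (hr s)).1, (Prod.mk.inj (hr s)).2]; exact a1 s)
  have m : ∀ s, s2El ι t (p s) (e s) ∈ C := fun s => a2 s ▸ C.mul_mem (C.inv_mem (r s).2) s.2
  let φ : C → τ × E := fun s => (⟨(i s, j s), h1 _ s.2 _ _ (a1 s)⟩, ⟨cd (p s) (e s), h2 _ _ (m s)⟩)
  have : Function.Injective φ := fun s s' a => by
    have b1 : (i s, j s) = (i s', j s') := congrArg (fun x => x.1.1) a
    have b2 : cd (p s) (e s) = cd (p s') (e s') := congrArg (fun x => x.2.1) a
    have b3 : r s = r s' := by simp only [r, b1]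
    have b4 := h3 _ _ _ _ (m s) (m s') b2
    rw [← a2, ← a2, b3] at b4
    exact Subtype.ext (mul_left_cancel b4)
  simpa using Nat.card_le_card_of_injective φ this

theorem s2_cnt' (H : Loc ι L S t h) (F : Fus ι L t) {C : Subgroup G} (hC : C ≤ S) (ht : t ∉ C)
    (τ : Finset (Bool × Bool)) (E : Finset (Heis F4)) (h1 : ∀ s ∈ C, ∀ i j, s2Ty ι s i j → (i, j) ∈ τ)
    (h2 : ∀ p e, s2El ι t p e ∈ C → p ∈ E) : Nat.card C ≤ τ.card * E.card := by
  refine s2_cnt H F hC τ E (fun p _ => p) h1 h2 fun p e p' e' a b c => ?_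
  subst c
  cases e <;> cases e'
  · rfl
  · exact absurd (by simpa [s2El] using C.mul_mem (C.inv_mem a) b) ht
  · exact absurd (by simpa [s2El] using C.mul_mem (C.inv_mem b) a) ht
  · rfl

theorem s2_sq (H : Loc ι L S t h) {p : Heis F4} {e : Bool} (a : s2El ι t p e * s2El ι t p e = 1) : p * p = 1 := by
  apply H.inj
  rw [map_mul, map_one, ← a]
  cases e
  · simp [s2El]
  · rw [s2El, cond_true, mul_assoc (ι p) t, ← mul_assoc t, ← s2_tT H, mul_assoc (ι p) t t, H.tt, mul_one]

theorem s2_fix (H : Loc ι L S t h) {w : G} (hw : w ∈ S) {f : Heis F4 → Heis F4} (a : Act ι w f) {q : Heis F4}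
    {e : Bool} (b : s2El ι t q e * w = w * s2El ι t q e) : f q = q :=
  H.inj ((a q).symm.trans (s2_cm H hw b.symm))

theorem s2_inv (H : Loc ι L S t h) {w : G} (hw : w * w = 1) {f : Heis F4 → Heis F4} (a : Act ι w f) (q : Heis F4) :
    f (f q) = q := by
  apply H.inj
  rw [← a, ← a]
  calc w * (w * ι q * w⁻¹) * w⁻¹ = w * w * ι q * (w * w)⁻¹ := by group
    _ = ι q := by rw [hw]; group

/-- type `(ff, tt)` -/
theorem s2_cwb (H : Loc ι L S t h) (F : Fus ι L t) {X : Subgroup G} (hX : X ≤ S) (ht : t ∉ X) {w : G} (hw : w ∈ S)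
    (hw2 : w * w = 1) (hc : ∀ x ∈ X, x * w = w * x) (a : s2Ty ι w false true) : Nat.card X ≤ 16 := by
  obtain ⟨p, a⟩ := a
  have := s2_cnt' H F hX ht Finset.univ (Finset.univ.filter fun q => s2af p false true q = q)
    (fun _ _ _ _ _ => Finset.mem_univ _) fun q e m => by simpa using s2_fix H hw a (hc _ m)
  have b := s2_d4 p (s2_inv H hw2 a)
  simp only [Finset.card_univ, Fintype.card_prod, Fintype.card_bool] at this
  omega

/-- types of the elements commuting with a noncentral involution of `T` -/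
theorem s2_cwc (H : Loc ι L S t h) {p : Heis F4} {e : Bool} (h1 : p * p = 1) (h2 : ¬ (p.a = 0 ∧ p.b = 0)) {s : G}
    (hs : s ∈ S) (hc : s * s2El ι t p e = s2El ι t p e * s) {i j : Bool} (a : s2Ty ι s i j) : j = false := by
  obtain ⟨r, a⟩ := a
  refine (s2_d5 p h1 h2).2.1 i j ?_
  rw [← s2_ab r, s2_fix H hs a hc.symm]

theorem s2_cw (H : Loc ι L S t h) (F : Fus ι L t) {X : Subgroup G} (hX : X ≤ S) (ht : t ∉ X) {w : G} (hw : w ∈ S)
    (hw2 : w * w = 1) (hc : ∀ x ∈ X, x * w = w * x) (h64 : 64 ≤ Nat.card X) : ∃ c e, w = s2El ι t ⟨0, 0, c⟩ e := by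
  obtain ⟨i, j, a1, a2⟩ := s2_ex H F hw
  cases i
  · cases j
    · obtain ⟨p, e, rfl⟩ := a2 rfl rfl
      by_cases h2 : p.a = 0 ∧ p.b = 0
      · exact ⟨p.c, e, by rw [← h2.1]; nth_rewrite 2 [h2.1]; rw [← h2.2]⟩
      · have h1 := s2_sq H hw2
        have := s2_cnt' H F hX ht {(false, false), (true, false)} (Finset.univ.filter fun q => q * p = p * q)
          (fun s m i j a => by
            obtain rfl := s2_cwc H h1 h2 (hX m) (hc s m) a
            cases i <;> simp) fun q e m => by simpa using s2_cm2 H (hc _ m)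
        have b := (s2_d5 p h1 h2).1
        rw [Finset.card_pair (by simp)] at this
        omega
    · have := s2_cwb H F hX ht hw hw2 hc a1
      omega
  · obtain ⟨p, a⟩ := a1
    have := s2_cnt' H F hX ht Finset.univ (Finset.univ.filter fun q => s2af p true j q = q)
      (fun _ _ _ _ _ => Finset.mem_univ _) fun q e m => by simpa using s2_fix H hw a (hc _ m)
    have b := (s2_d3 p j (s2_inv H hw2 a)).1
    simp only [Finset.card_univ, Fintype.card_prod, Fintype.card_bool] at this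
    omega

theorem s2_f5 (H : Loc ι L S t h) (F : Fus ι L t) (X : Subgroup G) (hX : X ≤ S) (W : Subgroup G) (hW : W ≤ X)
    (ht : t ∉ X) (h2 : ∀ w ∈ W, w * w = 1) (hc : ∀ w ∈ W, ∀ x ∈ X, x * w = w * x) (h8 : 8 ≤ Nat.card W)
    (h32 : 32 ≤ Nat.card X) : False := by
  classical
  have hWS := hW.trans hX
  have htW : t ∉ W := fun m => ht (hW m)
  have nb : ∀ w ∈ W, ¬ s2Ty ι w false true := fun w m a => by
    have := s2_cwb H F hX ht (hWS m) (h2 w m) (hc w m) a
    omega
  by_cases ha : ∃ w ∈ W, ∃ j, s2Ty ι w true j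
  · obtain ⟨w, m, j, p, a⟩ := ha
    obtain ⟨b1, b2⟩ := s2_d3 p j (s2_inv H (h2 w m) a)
    have c1 := s2_cnt' H F hX ht Finset.univ (Finset.univ.filter fun q => ∃ e, s2El ι t q e ∈ X)
      (fun _ _ _ _ _ => Finset.mem_univ _) fun q e m => Finset.mem_filter.2 ⟨Finset.mem_univ _, e, m⟩
    simp only [Finset.card_univ, Fintype.card_prod, Fintype.card_bool] at c1
    have c2 : (Finset.univ.filter fun q => ∃ e, s2El ι t q e ∈ X) ⊆
        Finset.univ.filter fun q => s2af p true j q = q := fun q mq => by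
      obtain ⟨e, me⟩ := (Finset.mem_filter.1 mq).2
      simpa using s2_fix H (hWS m) a (hc w m _ me)
    have c3 := Finset.eq_of_subset_of_card_le c2 (by omega)
    have c4 := b2 (by rw [← c3]; omega)
    have c5 := s2_cnt' H F hWS htW {(false, false), (true, false), (true, true)}
      (Finset.univ.filter fun q => s2af p true j q = q ∧ ∀ r, s2af p true j r = r → q * r = r * q)
      (fun s ms i j a => by
        cases i <;> cases j <;> simp
        exact nb s ms a) fun q e mq => by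
      refine Finset.mem_filter.2 ⟨Finset.mem_univ _, s2_fix H (hWS m) a (hc w m _ (hW mq)), fun r hr => ?_⟩
      have : r ∈ Finset.univ.filter fun q => ∃ e, s2El ι t q e ∈ X := by rw [c3]; simpa using hr
      obtain ⟨e', me⟩ := (Finset.mem_filter.1 this).2
      exact s2_cm2 H (hc _ mq _ me).symm
    have c6 : ({(false, false), (true, false), (true, true)} : Finset (Bool × Bool)).card = 3 := by decide
    rw [c6] at c5
    omega
  · have ty : ∀ s ∈ W, ∀ i j, s2Ty ι s i j → (i, j) ∈ ({(false, false)} : Finset (Bool × Bool)) := fun s m i j a => by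
      cases i
      · cases j
        · simp
        · exact absurd a (nb s m)
      · exact absurd ⟨s, m, j, a⟩ ha
    by_cases hd : ∀ p e, s2El ι t p e ∈ W → p.a = 0 ∧ p.b = 0
    · have := s2_cnt' H F hWS htW _ (Finset.univ.filter fun q : Heis F4 => q.a = 0 ∧ q.b = 0) ty
        fun q e m => by simpa using hd q e m
      rw [s2_d9, Finset.card_singleton] at this
      omega
    · push Not at hd
      obtain ⟨p, e, m, hp⟩ := hd
      have hp' : ¬ (p.a = 0 ∧ p.b = 0) := fun a => hp a.1 a.2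
      have h1 := s2_sq H (h2 _ m)
      obtain ⟨b1, -, b3⟩ := s2_d5 p h1 hp'
      by_cases hs : ∃ s ∈ X, s2Ty ι s true false
      · obtain ⟨s, ms, r, a⟩ := hs
        obtain ⟨d1, d2⟩ := s2_d6 r
        by_cases hb : p.b = 0
        · have := s2_cnt' H F hWS htW _ (Finset.univ.filter fun q : Heis F4 => q.b = 0 ∧ s2af r true false q = q) ty
            fun q e' mq => Finset.mem_filter.2 ⟨Finset.mem_univ _,
              (b3 q (s2_cm2 H (hc _ m _ (hW mq)))).elim (fun x => x.2) fun x => absurd ⟨x.1, hb⟩ hp',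
              s2_fix H (hX ms) a (hc _ mq _ ms).symm⟩
          rw [Finset.card_singleton] at this
          omega
        · have := s2_cnt' H F hWS htW _ (Finset.univ.filter fun q : Heis F4 => q.a = 0 ∧ s2af r true false q = q) ty
            fun q e' mq => Finset.mem_filter.2 ⟨Finset.mem_univ _,
              (b3 q (s2_cm2 H (hc _ m _ (hW mq)))).elim (fun x => absurd x.1 hb) fun x => x.2,
              s2_fix H (hX ms) a (hc _ mq _ ms).symm⟩
          rw [Finset.card_singleton] at this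
          omega
      · have := s2_cnt' H F hX ht {(false, false)} (Finset.univ.filter fun q => q * p = p * q)
          (fun s ms i j a => by
            obtain rfl := s2_cwc H h1 hp' (hX ms) (hc _ m s ms) a
            cases i
            · simp
            · exact absurd ⟨s, ms, a⟩ hs) fun q e mq => by simpa using s2_cm2 H (hc _ m _ mq)
        rw [Finset.card_singleton] at this
        omega

theorem s2_f6 (H : Loc ι L S t h) (F : Fus ι L t) (X : Subgroup G) (hX : X ≤ S) (W : Subgroup G) (hW : W ≤ X)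
    (h2 : ∀ w ∈ W, w * w = 1) (hc : ∀ w ∈ W, ∀ x ∈ X, x * w = w * x) (h4 : 4 ≤ Nat.card W)
    (h64 : 64 ≤ Nat.card X) (hsq : ∀ x ∈ X, x * x ∈ W) (hp : ∀ p, p * p = 1 → ι p * t ∉ X) :
    (∀ x, x ∈ X ↔ ∃ p, x = ι p) ∧ ∀ w, w ∈ W ↔ ∃ c, w = ι ⟨0, 0, c⟩ := by
  classical
  have hWS := hW.trans hX
  have ht : t ∉ X := by simpa using hp 1 (mul_one _)
  have htW : t ∉ W := fun m => ht (hW m)
  have w1 : ∀ w ∈ W, ∃ c, w = ι ⟨0, 0, c⟩ := fun w m => by
    obtain ⟨c, e, rfl⟩ := s2_cw H F hX ht (hWS m) (h2 w m) (hc w m) h64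
    cases e
    · exact ⟨c, by simp [s2El]⟩
    · exact absurd (hW m) (hp _ (s2_d10 0 0 c).2.2)
  have w2 : ∀ c, ι ⟨0, 0, c⟩ ∈ W := by
    have c1 := s2_cnt' H F hWS htW {(false, false)} (Finset.univ.filter fun q => ι q ∈ W)
      (fun s m i j a => by
        obtain ⟨c, rfl⟩ := w1 s m
        have := s2_elTy H ⟨0, 0, c⟩ false
        rw [s2El, cond_false, mul_one] at this
        obtain ⟨rfl, rfl⟩ := s2_uniq H a this
        simp) fun q e m => by
      obtain ⟨c, a⟩ := w1 _ m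
      have b : q = ⟨0, 0, c⟩ := s2_elInj H (e := e) (e' := false) (by rw [a, s2El, cond_false, mul_one])
      rw [b]
      exact Finset.mem_filter.2 ⟨Finset.mem_univ _, a ▸ m⟩
    have c2 : (Finset.univ.filter fun q => ι q ∈ W) ⊆ Finset.univ.filter fun q : Heis F4 => q.a = 0 ∧ q.b = 0 :=
      fun q mq => by
        obtain ⟨c, a⟩ := w1 _ (Finset.mem_filter.1 mq).2
        rw [H.inj a]; simp
    rw [Finset.card_singleton] at c1
    have c3 := Finset.eq_of_subset_of_card_le c2 (by rw [s2_d9]; omega)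
    intro c
    have : (⟨0, 0, c⟩ : Heis F4) ∈ Finset.univ.filter fun q => ι q ∈ W := by rw [c3]; simp
    exact (Finset.mem_filter.1 this).2
  have n1 : ∀ s ∈ X, ∀ j, ¬ s2Ty ι s true j := fun s m j ⟨p, a⟩ =>
    s2_d7 p j (H.inj ((a _).symm.trans (by rw [hc _ (w2 om) s m]; group)))
  have n2 : ∀ s ∈ X, ¬ s2Ty ι s false true := fun s m ⟨p, a⟩ => by
    have := s2_cnt' H F hX ht {(false, false), (false, true)} (Finset.univ.filter fun q : Heis F4 => q.a = q.b)
      (fun s m i j a => by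
        cases i
        · cases j <;> simp
        · exact absurd a (n1 s m j)) fun q e mq => by
      have b1 : s * s2El ι t q e * s⁻¹ * (s2El ι t q e)⁻¹ ∈ W := by
        generalize s2El ι t q e = y at mq
        have : s * y * s⁻¹ * y⁻¹ = s * y * (s * y) * (s * s)⁻¹ * (y * y)⁻¹ := by
          have := hc _ (W.inv_mem (hsq s m)) _ (X.inv_mem mq)
          calc s * y * s⁻¹ * y⁻¹ = s * y * (s * y) * (y⁻¹ * (s * s)⁻¹) * y⁻¹ := by group
            _ = _ := by rw [this]; group
        rw [this]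
        exact W.mul_mem (W.mul_mem (hsq _ (X.mul_mem m mq)) (W.inv_mem (hsq s m))) (W.inv_mem (hsq y mq))
      obtain ⟨c, b2⟩ := w1 _ b1
      have b3 : s2af p false true q = ⟨0, 0, c⟩ * q := by
        apply H.inj
        rw [← a, map_mul, ← b2]
        cases e
        · simp [s2El]
        · rw [s2El, cond_true, ← mul_assoc, mul_assoc _ t, ← s2_tS H (S.inv_mem (hX m))]; group
      have b4 := s2_ab p false true q
      rw [b3] at b4
      simpa [s2th] using congrArg Prod.fst b4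
    rw [s2_d8, Finset.card_pair (by simp)] at this
    omega
  have ty : ∀ s ∈ X, ∀ i j, s2Ty ι s i j → (i, j) ∈ ({(false, false)} : Finset (Bool × Bool)) := fun s m i j a => by
    cases i
    · cases j
      · simp
      · exact absurd a (n2 s m)
    · exact absurd a (n1 s m j)
  have c1 := s2_cnt' H F hX ht _ (Finset.univ.filter fun q => ∃ e, s2El ι t q e ∈ X) ty
    fun q e m => Finset.mem_filter.2 ⟨Finset.mem_univ _, e, m⟩
  rw [Finset.card_singleton] at c1
  have c3 := Finset.eq_of_subset_of_card_le (Finset.filter_subset (fun q => ∃ e, s2El ι t q e ∈ X) Finset.univ)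
    (by rw [s2_d11]; omega)
  have c4 : ∀ q, q * q = 1 → ι q ∈ X := fun q hq => by
    have : q ∈ Finset.univ.filter fun q => ∃ e, s2El ι t q e ∈ X := by rw [c3]; simp
    obtain ⟨e, m⟩ := (Finset.mem_filter.1 this).2
    cases e
    · simpa [s2El] using m
    · exact absurd m (hp q hq)
  have c5 : ∀ q, ι q ∈ X := fun ⟨a, b, c⟩ => by
    obtain ⟨d1, d2, d3⟩ := s2_d10 a b c
    rw [d1, map_mul]
    exact X.mul_mem (c4 _ d2) (c4 _ d3)
  refine ⟨fun x => ⟨fun m => ?_, fun ⟨p, a⟩ => a ▸ c5 p⟩, fun w => ⟨w1 w, fun ⟨c, a⟩ => a ▸ w2 c⟩⟩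
  obtain ⟨i, j, a1, a2⟩ := s2_ex H F (hX m)
  have := ty x m i j a1
  simp only [Finset.mem_singleton, Prod.mk.injEq] at this
  obtain ⟨p, e, rfl⟩ := a2 this.1 this.2
  cases e
  · exact ⟨p, by simp [s2El]⟩
  · exact absurd (by simpa [s2El] using X.mul_mem (X.inv_mem (c5 p)) m) ht

theorem sgS : SGS.{u} := by
  intro G _ _ ι L S t h H F
  refine ⟨?_, s2_f5 H F, s2_f6 H F⟩
  have key : ∀ E : Finset (Heis F4), (∀ x, x ∈ E) → Nat.card S ≤ 4 * (E.card * 2) := fun E hE => by
    simpa using s2_cnt H F le_rfl Finset.univ (E ×ˢ (Finset.univ : Finset Bool)) (fun p e => (p, e))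
      (fun _ _ _ _ _ => Finset.mem_univ _) (fun p e _ => Finset.mem_product.2 ⟨hE p, Finset.mem_univ e⟩)
      fun p e p' e' _ _ a => by rw [(Prod.mk.inj a).1, (Prod.mk.inj a).2]
  have := key Finset.univ Finset.mem_univ
  rw [s2_d11] at this
  exact this

end CL.L34
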