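/-
Standard subgroups of type `L_3(4)`: conjugates of `t` in `N(P)`.
-/
import Cfsg.Agent.L34.Defs

set_option autoImplicit false

universe u

namespace CL.L34
open Subgroup CL.Grp

theorem tb_le {Γ : Type*} [Group Γ] [Finite Γ] (H K : Subgroup Γ) {T : Type*} [Finite T] (F : H → T)
    (hF : ∀ x y : H, F x = F y → (x : Γ)⁻¹ * y ∈ K) : Nat.card H ≤ Nat.card K * Nat.card T := by
  classical
  let s : H → H := fun x => Function.invFun F (F x)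
  have hs : ∀ x, F (s x) = F x := fun x => Function.invFun_eq ⟨x, rfl⟩
  rw [← Nat.card_prod]
  refine Nat.card_le_card_of_injective (fun x => ((⟨_, hF _ _ (hs x)⟩ : K), F x)) fun x y e => ?_
  have e1 : ((s x : H) : Γ)⁻¹ * x = ((s y : H) : Γ)⁻¹ * y := congrArg (fun p : K × T => (p.1 : Γ)) e
  have e2 : s x = s y := congrArg (Function.invFun F) (congrArg Prod.snd e)
  rw [e2] at e1
  exact Subtype.ext (mul_left_cancel e1)

/-- the centre of the Heisenberg group -/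
def tbZ (R : Type) [CommRing R] : Subgroup (Heis R) where
  carrier := {p | p.a = 0 ∧ p.b = 0}
  one_mem' := ⟨rfl, rfl⟩
  mul_mem' := fun h h' => ⟨by simp [h.1, h'.1], by simp [h.2, h'.2]⟩
  inv_mem' := fun h => ⟨by simp [h.1], by simp [h.2]⟩

/-- the fixed points of an automorphism -/
def tbFix {Γ : Type*} [Group Γ] (f : MulAut Γ) : Subgroup Γ := f.toMonoidHom.eqLocus (MonoidHom.id Γ)

theorem mem_tbFix {Γ : Type*} [Group Γ] {f : MulAut Γ} {p : Γ} : p ∈ tbFix f ↔ f p = p := Iff.rfl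

section
variable {R : Type} [CommRing R]

theorem mem_tbZ {p : Heis R} : p ∈ tbZ R ↔ p.a = 0 ∧ p.b = 0 := Iff.rfl
theorem tb_eqZ {p : Heis R} (h : p ∈ tbZ R) : p = ⟨0, 0, p.c⟩ := Heis.ext h.1 h.2 rfl
theorem tb_comm {z : Heis R} (h : z ∈ tbZ R) (p : Heis R) : p * z = z * p :=
  Heis.ext (add_comm _ _) (add_comm _ _) (by simp [h.1, h.2, add_comm])
theorem tb_memZ {z : Heis R} (h : ∀ p, p * z = z * p) : z ∈ tbZ R :=
  ⟨by simpa using congrArg Heis.c (h ⟨0, 1, 0⟩), by simpa using congrArg Heis.c (h ⟨1, 0, 0⟩)⟩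
theorem tb_mapZ (f : MulAut (Heis R)) {z : Heis R} (h : z ∈ tbZ R) : f z ∈ tbZ R :=
  tb_memZ fun p => by rw [← f.apply_symm_apply p, ← map_mul, tb_comm h, map_mul]
theorem tb_cardZ : Nat.card (tbZ R) = Nat.card R :=
  Nat.card_congr ⟨fun p => p.1.c, fun u => ⟨⟨0, 0, u⟩, rfl, rfl⟩, fun p => Subtype.ext (tb_eqZ p.2).symm, fun _ => rfl⟩

end

variable {ν : F4}

theorem tb_sqZ {z : Heis (R16 ν)} (h : z ∈ tbZ (R16 ν)) : z * z = 1 :=
  Heis.ext (add_self_R16 _) (add_self_R16 _) (by simp [h.1, add_self_R16])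
theorem tb_sq_mem (p : Heis (R16 ν)) : p * p ∈ tbZ (R16 ν) := ⟨add_self_R16 _, add_self_R16 _⟩

/-- fixed points of an involutory automorphism -/
theorem tb_count (f : MulAut (Heis (R16 ν))) (hf : f * f = 1) (P1 : Subgroup (Heis (R16 ν))) (hZ : tbZ _ ≤ P1)
    (hP : ∀ p ∈ P1, f p ∈ P1) (n : ℕ) (hn : Nat.card P1 = 16 * n ^ 2) :
    16 * n ≤ Nat.card (P1 ⊓ tbFix f : Subgroup _) * Nat.card (tbZ _ ⊓ tbFix f : Subgroup _) := by
  have ff : ∀ p, f (f p) = p := fun p => by rw [← MulAut.mul_apply, hf, MulAut.one_apply]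
  have h2 := two_R16 ν
  let C1 : Subgroup (Heis (R16 ν)) :=
    { carrier := {p | p ∈ P1 ∧ (f p).a = p.a ∧ (f p).b = p.b}
      one_mem' := ⟨one_mem _, by simp, by simp⟩
      mul_mem' := fun h h' => ⟨mul_mem h.1 h'.1, by simp [h.2.1, h'.2.1], by simp [h.2.2, h'.2.2]⟩
      inv_mem' := fun h => ⟨inv_mem h.1, by simp [h.2.1], by simp [h.2.2]⟩ }
  have ZC : ∀ u, (⟨0, 0, u⟩ : Heis (R16 ν)) ∈ C1 := fun u =>
    ⟨hZ ⟨rfl, rfl⟩, (tb_mapZ f ⟨rfl, rfl⟩).1, (tb_mapZ f ⟨rfl, rfl⟩).2⟩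
  let T1 := {x : R16 ν × R16 ν // ∃ c, (⟨x.1, x.2, c⟩ : Heis (R16 ν)) ∈ C1}
  have k1 : Nat.card P1 ≤ Nat.card C1 * Nat.card T1 :=
    tb_le P1 C1 (fun p => ⟨((p.1 * f p).a, (p.1 * f p).b), (p.1 * f p).c, mul_mem p.2 (hP _ p.2),
      by show (f (p.1 * f p)).a = _; simp [ff, add_comm], by show (f (p.1 * f p)).b = _; simp [ff, add_comm]⟩)
      fun x y e => by
      obtain ⟨e1, e2⟩ := Prod.ext_iff.1 (congrArg Subtype.val e)
      simp only [Heis.mul_a, Heis.mul_b] at e1 e2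
      refine ⟨mul_mem (inv_mem x.2) y.2, ?_, ?_⟩
      · simp only [map_mul, map_inv, Heis.mul_a, Heis.inv_a]
        linear_combination -e1 + (x.1.a - y.1.a) * h2
      · simp only [map_mul, map_inv, Heis.mul_b, Heis.inv_b]
        linear_combination -e2 + (x.1.b - y.1.b) * h2
  have k2 : Nat.card T1 * 16 ≤ Nat.card C1 := by
    rw [← card_R16 ν, ← Nat.card_prod]
    refine Nat.card_le_card_of_injective (fun x => ⟨⟨x.1.1.1, x.1.1.2, x.2⟩, ?_⟩) fun x y e => ?_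
    · obtain ⟨c, hc⟩ := x.1.2
      convert mul_mem hc (ZC (x.2 - c)) using 1
      exact Heis.ext (by simp) (by simp) (by simp)
    · have e' := congrArg Subtype.val e
      exact Prod.ext (Subtype.ext (Prod.ext (congrArg Heis.a e') (congrArg Heis.b e'))) (congrArg Heis.c e')
  have hz : ∀ p ∈ C1, p⁻¹ * f p ∈ tbZ (R16 ν) := fun p hp => ⟨by simp [hp.2.1], by simp [hp.2.2]⟩
  have k3 : Nat.card C1 ≤ Nat.card (P1 ⊓ tbFix f : Subgroup _) * Nat.card (tbZ _ ⊓ tbFix f : Subgroup _) :=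
    tb_le C1 _ (fun p => ⟨p.1⁻¹ * f p, hz _ p.2, mem_tbFix.2 (by
      rw [map_mul, map_inv, ff, ← eq_inv_of_mul_eq_one_left (tb_sqZ (hz _ p.2)).symm.symm |>.symm]; group)⟩)
      fun x y e => ⟨P1.mul_mem (P1.inv_mem x.2.1) y.2.1, mem_tbFix.2 (by
        have e' : x.1⁻¹ * f x = y.1⁻¹ * f y := congrArg Subtype.val e
        calc _ = (x.1⁻¹ * f x)⁻¹ * (x.1⁻¹ * y * (y.1⁻¹ * f y)) := by rw [map_mul, map_inv]; group
          _ = _ := by rw [tb_comm (hz _ y.2), e', inv_mul_cancel_left])⟩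
  refine le_trans (Nat.pow_le_pow_iff_left two_ne_zero |>.1 ?_) k3
  nlinarith

variable {G : Type u} [Group G] {ι : Heis F4 →* G} {t : G} {Φ : Heis (R16 ν) →* G}

/-- an involution normalising `P` acts as an automorphism of the Heisenberg group -/
theorem tb_aut (hΦ : Function.Injective Φ) {x : G} (hx : x ∈ normalizer (Φ.range : Set G)) :
    ∃ f : MulAut (Heis (R16 ν)), ∀ q, x * Φ q * x⁻¹ = Φ (f q) := by
  choose f hf using fun q => (mem_normalizer_iff.1 hx (Φ q)).1 ⟨q, rfl⟩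
  choose f' hf' using fun q => (mem_normalizer_iff''.1 hx (Φ q)).1 ⟨q, rfl⟩
  exact ⟨⟨⟨f, f', fun q => hΦ (by rw [hf', hf]; group), fun q => hΦ (by rw [hf, hf']; group)⟩,
    fun p q => hΦ (by rw [map_mul]; simp only [hf, map_mul, conj_mul])⟩, fun q => (hf q).symm⟩

/-- `p t` is conjugate to `t` under `P` for an involution `p` of `T` -/
theorem tb_conj (D : Dbl ι t Φ) (p : Heis F4) (hp : p * p = 1) : ∃ q, Φ q * t * (Φ q)⁻¹ = ι p * t := by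
  have h0 : p.a = 0 ∨ p.b = 0 := by revert p; decide +kernel
  have n2 : ∀ a : F4, -a = a := by decide +kernel
  have a2 : ∀ a : F4, a + a = 0 := by decide +kernel
  refine ⟨⟨⟨0, p.a⟩, ⟨0, p.b⟩, ⟨0, p.c⟩⟩, ?_⟩
  rw [show ∀ y : G, y * t * y⁻¹ = y * (t * y * t⁻¹)⁻¹ * t from fun y => by group,
    D.act, ← map_inv, ← map_mul, show ι p = ι ⟨p.a, p.b, p.c⟩ from rfl, ← D.ext]
  congr 2
  rcases h0 with e | e <;> refine Heis.ext ?_ ?_ ?_ <;> refine QuadraticAlgebra.ext ?_ ?_ <;> simp [e, n2, a2]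

theorem tbS : TbS.{u} := by
  intro G _ _ ι L S t h ν Φ H sg D A g hn hS
  obtain ⟨f, hf⟩ := tb_aut D.inj hn
  have fix : ∀ q, q ∈ tbFix f ↔ Φ q * (g * t * g⁻¹) = g * t * g⁻¹ * Φ q := fun q =>
    ⟨fun e => (mul_inv_eq_iff_eq_mul.1 (by rw [hf, mem_tbFix.1 e])).symm,
      fun e => mem_tbFix.2 (D.inj (by rw [← hf, ← e, mul_inv_cancel_right]))⟩
  have ff : f * f = 1 := MulEquiv.ext fun q => D.inj (by
    rw [MulAut.mul_apply, ← hf, ← hf]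
    calc _ = g * (t * t) * g⁻¹ * Φ q * (g * (t * t) * g⁻¹)⁻¹ := by group
      _ = _ := by rw [H.tt]; simp)
  let ψ : Heis (R16 ν) →* G := (MulAut.conj g⁻¹).toMonoidHom.comp Φ
  have hψ : ∀ q, ψ q = g⁻¹ * Φ q * g := fun q => by simp [ψ]
  have hψ' : ∀ {q x}, ψ q = x → Φ q = g * x * g⁻¹ := fun e => by rw [← e, hψ]; group
  have inj : Function.Injective ψ := (MulAut.conj g⁻¹).injective.comp D.inj
  have c1 := tb_count f ff (tbZ _) le_rfl (fun _ => tb_mapZ f) 1 (by rw [tb_cardZ, card_R16]; rfl)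
  have c2 := tb_count f ff ⊤ le_top (fun _ _ => mem_top _) 16 (by rw [card_top, Heis.card, card_R16]; rfl)
  rw [top_inf_eq] at c2
  have c3 : Nat.card (tbZ _ ⊓ tbFix f : Subgroup _) ∣ 2 ^ 4 :=
    (card_dvd_of_le inf_le_left).trans (by rw [tb_cardZ, card_R16]; rfl)
  have c4 : Nat.card (tbZ _ ⊓ tbFix f : Subgroup _) ≠ 16 := fun e => A.nW g fun u => (fix _).1
    ((eq_of_le_of_card_ge (inf_le_left : tbZ _ ⊓ tbFix f ≤ _) (by rw [tb_cardZ, card_R16, e])).ge ⟨rfl, rfl⟩).2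
  have XS : (tbFix f).map ψ ≤ S := by rintro _ ⟨q, hq, rfl⟩; exact hψ q ▸ hS q ((fix q).1 hq)
  have WX : (tbZ _ ⊓ tbFix f).map ψ ≤ (tbFix f).map ψ := map_mono inf_le_right
  have W2 : ∀ w ∈ (tbZ _ ⊓ tbFix f).map ψ, w * w = 1 := by
    rintro _ ⟨q, hq, rfl⟩; rw [← map_mul, tb_sqZ hq.1, map_one]
  have WC : ∀ w ∈ (tbZ _ ⊓ tbFix f).map ψ, ∀ x ∈ (tbFix f).map ψ, x * w = w * x := by
    rintro _ ⟨q, hq, rfl⟩ _ ⟨p, -, rfl⟩; rw [← map_mul, tb_comm hq.1, map_mul]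
  have nt : ∀ p, p * p = 1 → ι p * t ∉ (tbFix f).map ψ := fun p hp ⟨q, _, e⟩ => by
    obtain ⟨y, hy⟩ := tb_conj D p hp
    refine A.nW (g * Φ y) fun u => ?_
    rw [show g * Φ y * t * (g * Φ y)⁻¹ = Φ q by rw [hψ' e, ← hy]; group, ← map_mul, ← map_mul,
      tb_comm (z := ⟨0, 0, u⟩) ⟨rfl, rfl⟩]
  have cW := card_map_of_injective (K := tbZ _ ⊓ tbFix f) inj
  have cX := card_map_of_injective (K := tbFix f) inj
  obtain ⟨k, hk, e⟩ := (Nat.dvd_prime_pow Nat.prime_two).1 c3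
  rw [e] at c1 c2 c4 cW
  have k2 : k = 2 := by
    interval_cases k
    · omega
    · omega
    · rfl
    · exact (sg.f5 _ XS _ WX (by simpa using nt 1 (one_mul 1)) W2 WC (by omega) (by omega)).elim
    · omega
  subst k2
  obtain ⟨f1, f2⟩ := sg.f6 _ XS _ WX W2 WC (by omega) (by omega)
    (by rintro _ ⟨q, hq, rfl⟩; exact ⟨q * q, ⟨tb_sq_mem q, mul_mem hq hq⟩, map_mul _ _ _⟩) nt
  refine ⟨fun p => ?_, fun q hq => ?_, fun c => ?_, fun u hu => ?_⟩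
  · obtain ⟨q, -, e⟩ := (f1 _).2 ⟨p, rfl⟩
    exact ⟨q, hψ' e⟩
  · obtain ⟨p, e⟩ := (f1 _).1 ⟨q, (fix q).2 hq, rfl⟩
    exact ⟨p, hψ' e⟩
  · obtain ⟨q, hq, e⟩ := (f2 _).2 ⟨c, rfl⟩
    exact ⟨q.c, tb_eqZ hq.1 ▸ hψ' e⟩
  · obtain ⟨c, e⟩ := (f2 _).1 ⟨⟨0, 0, u⟩, ⟨⟨rfl, rfl⟩, (fix _).2 hu⟩, rfl⟩
    exact ⟨c, hψ' e⟩

end CL.L34
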