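/-
Standard subgroups of type `L_3(4)`: in the split case the conjugates of `t` interchange the factors.
-/
import Cfsg.Agent.L34.TB

set_option autoImplicit false

universe u

namespace CL.L34
open Subgroup CL.Grp

variable {ν : F4} {G : Type u} [Group G] {ι : Heis F4 →* G} {Φ : Heis (R16 ν) →* G}

theorem tc_com (p : Heis F4) (hp : ¬ (p.a = 0 ∧ p.b = 0)) (c : F4) : ∃ p', p * p' * p⁻¹ * p'⁻¹ = ⟨0, 0, c⟩ := by
  obtain ⟨a', b', e⟩ := (by decide +kernel : ∀ a b c : F4, ¬ (a = 0 ∧ b = 0) → ∃ a' b', a * b' - a' * b = c) _ _ c hp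
  exact ⟨⟨a', b', 0⟩, Heis.ext (by simp) (by simp) (by simp only [Heis.mul_c, Heis.mul_a, Heis.inv_c, Heis.inv_a, Heis.inv_b, ← e]; ring)⟩

theorem tc_ne : (⟨0, 0, 1⟩ : Heis F4) ≠ 1 := by decide +kernel

theorem tc_key (inj : Function.Injective Φ) {g : G} {f : MulAut (Heis (R16 ν))} (ff : f * f = 1)
    (b1 : ∀ p, ∃ q, Φ q = g * ι p * g⁻¹) (b2 : ∀ q, f q = q → ∃ p, Φ q = g * ι p * g⁻¹)
    (b3 : ∀ c, ∃ u, Φ ⟨0, 0, u⟩ = g * ι ⟨0, 0, c⟩ * g⁻¹)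
    (b4 : ∀ u, f ⟨0, 0, u⟩ = ⟨0, 0, u⟩ → ∃ c, Φ ⟨0, 0, u⟩ = g * ι ⟨0, 0, c⟩ * g⁻¹) {e : R16 ν}
    (he : ∀ q : Heis (R16 ν), q.a = e * q.a → q.b = e * q.b → (f q).a = e * (f q).a ∧ (f q).b = e * (f q).b)
    (hc : Nat.card {u // e * u = u} = 4) {u : R16 ν} (hu : f ⟨0, 0, u⟩ = ⟨0, 0, u⟩) : e * u = u := by
  let P1 : Subgroup (Heis (R16 ν)) :=
    { carrier := {q | e * q.a = q.a ∧ e * q.b = q.b}
      one_mem' := ⟨mul_zero e, mul_zero e⟩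
      mul_mem' := fun h h' => ⟨by simp [mul_add, h.1, h'.1], by simp [mul_add, h.2, h'.2]⟩
      inv_mem' := fun h => ⟨by simp [h.1], by simp [h.2]⟩ }
  have c1 : Nat.card P1 = 16 * 4 ^ 2 := by
    rw [Nat.card_congr (β := R16 ν × {u // e * u = u} × {u // e * u = u})
      ⟨fun q => (q.1.c, ⟨q.1.a, q.2.1⟩, ⟨q.1.b, q.2.2⟩), fun x => ⟨⟨x.2.1, x.2.2, x.1⟩, x.2.1.2, x.2.2.2⟩,
        fun _ => rfl, fun _ => rfl⟩, Nat.card_prod, Nat.card_prod, hc, card_R16]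
    rfl
  have c2 := tb_count f ff P1 (fun q hq => ⟨by rw [hq.1, mul_zero], by rw [hq.2, mul_zero]⟩)
    (fun q hq => ⟨(he q hq.1.symm hq.2.symm).1.symm, (he q hq.1.symm hq.2.symm).2.symm⟩) 4 c1
  have c3 : Nat.card (tbZ _ ⊓ tbFix f : Subgroup _) ≤ 4 := by
    choose k hk using fun q : (tbZ _ ⊓ tbFix f : Subgroup _) => b4 q.1.c (tb_eqZ q.2.1 ▸ q.2.2)
    rw [← card_F4]
    exact Nat.card_le_card_of_injective k fun x y h => Subtype.ext (by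
      rw [tb_eqZ x.2.1, tb_eqZ y.2.1]; exact inj (by rw [hk, hk, h]))
  obtain ⟨q, hq, hz⟩ : ∃ q ∈ P1 ⊓ tbFix f, q ∉ tbZ _ := by
    by_contra! h
    have := card_le_of_le (le_inf h inf_le_right : P1 ⊓ tbFix f ≤ tbZ _ ⊓ tbFix f)
    nlinarith
  obtain ⟨p, hp⟩ := b2 q hq.2
  obtain ⟨c, hc⟩ := b4 u hu
  obtain ⟨p', e1⟩ := tc_com p (fun h => by
    obtain ⟨u', hu'⟩ := b3 p.c
    rw [← tb_eqZ h, ← hp] at hu'
    exact hz (inj hu' ▸ ⟨rfl, rfl⟩)) c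
  obtain ⟨q', hq'⟩ := b1 p'
  have e2 : q * q' * q⁻¹ * q'⁻¹ = ⟨0, 0, u⟩ := inj (by
    simp only [hc, ← e1, map_mul, map_inv, hp, hq']; group)
  have e3 := congrArg Heis.c e2
  simp only [Heis.mul_c, Heis.mul_a, Heis.inv_c, Heis.inv_a, Heis.inv_b] at e3
  linear_combination q'.b * hq.1.1 - q'.a * hq.1.2 - (e - 1) * e3

theorem tcS : TcS.{u} := by
  intro G _ _ ι L S t h ν Φ sig ε H D B sg sp g0 f hf
  haveI : Fact (Nat.Prime 2) := ⟨Nat.prime_two⟩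
  have fix : ∀ q, f q = q ↔ Φ q * (g0 * t * g0⁻¹) = g0 * t * g0⁻¹ * Φ q := fun q =>
    ⟨fun e => (mul_inv_eq_iff_eq_mul.1 (by rw [hf, e])).symm,
      fun e => D.inj (by rw [← hf, ← e, mul_inv_cancel_right])⟩
  have ff : f * f = 1 := MulEquiv.ext fun q => D.inj (by
    rw [MulAut.mul_apply, ← hf, ← hf]
    calc _ = g0 * (t * t) * g0⁻¹ * Φ q * (g0 * (t * t) * g0⁻¹)⁻¹ := by group
      _ = _ := by rw [H.tt]; simp)
  have p2 : IsPGroup 2 (Heis (R16 ν)) := fun p => ⟨2, by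
    rw [show p ^ 2 ^ 2 = p * p * (p * p) by rw [← sq, ← sq, ← pow_mul]; rfl, tb_sqZ (tb_sq_mem p)]⟩
  let ψ : Heis (R16 ν) →* G := (MulAut.conj g0⁻¹).toMonoidHom.comp Φ
  have hψ : ∀ q, ψ q = g0⁻¹ * Φ q * g0 := fun q => by simp [ψ]
  obtain ⟨c, hc, hS⟩ := H.syl.exists_conj_le (U := (tbFix f).map ψ) ((p2.to_subgroup _).map ψ) (by
    rintro _ ⟨q, hq, rfl⟩
    rw [mem_centralizer_singleton_iff, hψ]
    calc _ = g0⁻¹ * (Φ q * (g0 * t * g0⁻¹)) * g0 := by group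
      _ = _ := by rw [(fix q).1 hq]; group)
  have ct : g0 * c⁻¹ * t * (g0 * c⁻¹)⁻¹ = g0 * t * g0⁻¹ := by
    rw [mul_assoc g0, mem_centralizer_singleton_iff.1 (inv_mem hc)]; group
  obtain ⟨b1, b2, b3, b4⟩ := B (g0 * c⁻¹)
    (ct ▸ mem_normalizer_fintype (by rintro _ ⟨q, rfl⟩; exact ⟨f q, (hf q).symm⟩))
    (fun q hq => by
      have := hS (conj_mem_conj_smul c ⟨q, (fix q).2 (ct ▸ hq), rfl⟩)
      rw [hψ] at this
      simpa [mul_assoc] using this)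
  rw [ct] at b2 b4
  refine (sp.aut _).resolve_left fun he => ?_
  have key := fun e => tc_key (e := e) D.inj ff b1 (fun q hq => b2 q ((fix q).1 hq)) b3 fun u hu => b4 u ((fix _).1 hu)
  have h1 : ∀ u : R16 ν, (1 + ε) * u = u ↔ ε * u = 0 := fun u => by rw [add_mul, one_mul, add_eq_left]
  obtain ⟨u, hu⟩ := b3 1
  have fu : f ⟨0, 0, u⟩ = ⟨0, 0, u⟩ := (fix _).2 (by
    rw [hu, ← ct, conj_mul, conj_mul, H.tK _ (H.mem _)])
  have k1 := key ε (fun q qa qb => by simpa only [he] using (sg f).2 ε q q qa qb) sp.c1 fu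
  have k2 := key (1 + ε) (fun q qa qb => by simpa only [map_add, map_one, he] using (sg f).2 (1 + ε) q q qa qb)
    (by simpa only [h1] using sp.c2) fu
  rw [h1, k1] at k2
  rw [k2, ← Heis.one_def, map_one, eq_comm, conj_eq_one_iff, map_eq_one_iff _ H.inj] at hu
  exact tc_ne hu

end CL.L34
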