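/-
Standard subgroups of type `L_3(4)`: `S` normalizes `P`, the Sylow subgroups of `C(A)`, and `t` versus `Z(P)`.
-/
import Cfsg.Agent.L34.Defs

set_option autoImplicit false

universe u

namespace CL.L34
open Subgroup CL.Grp
open scoped Pointwise

variable {G : Type u} [Group G]

theorem ta_le {α : Type} [Finite α] (E : Subgroup G) (f : α → G) (h : ∀ x ∈ E, ∃ a, x = f a) :
    Nat.card E ≤ Nat.card α := by
  choose g hg using fun x : E => h x x.2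
  exact Nat.card_le_card_of_injective g fun x y e => Subtype.ext (by rw [hg x, hg y, e])

theorem ta_ge [Finite G] {α : Type} (E : Subgroup G) (f : α → G) (hf : Function.Injective f) (h : ∀ a, f a ∈ E) :
    Nat.card α ≤ Nat.card E :=
  Nat.card_le_card_of_injective (fun a => (⟨f a, h a⟩ : E)) fun _ _ e => hf (congrArg Subtype.val e)

theorem ta_fa {ι : Heis F4 →* G} {t : G} {E : Subgroup G} (h : ∀ x, x ∈ E ↔ FA ι t x) : Nat.card E ≤ 32 := by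
  refine (ta_le E (fun p : (F4 × F4) × Bool => cond p.2 (ι ⟨p.1.1, 0, p.1.2⟩) (ι ⟨p.1.1, 0, p.1.2⟩ * t))
    fun x hx => ?_).trans (by rw [Nat.card_prod, Nat.card_prod, card_F4]; simp)
  obtain ⟨a, c, e | e⟩ := (h x).1 hx
  exacts [⟨((a, c), true), e⟩, ⟨((a, c), false), e⟩]

theorem ta_into [Finite G] {S X : Subgroup G} {t g : G} (hS : IsSylowIn 2 S (centralizer {t})) (hX : IsPGroup 2 X)
    (h : ∀ x ∈ X, x * (g * t * g⁻¹) = g * t * g⁻¹ * x) :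
    ∃ g', g' * t * g'⁻¹ = g * t * g⁻¹ ∧ MulAut.conj g'⁻¹ • X ≤ S := by
  obtain ⟨k, hk, e⟩ := hS.exists_conj_le (IsPGroup.conj_smul hX g⁻¹) ((conj_smul_le_iff _ _ _).2 fun x hx =>
    mem_centralizer_singleton_iff.2 (by
      calc g⁻¹ * x * g⁻¹⁻¹ * t = g⁻¹ * (x * (g * t * g⁻¹)) * g := by group
        _ = _ := by rw [h x hx]; group))
  refine ⟨g * k⁻¹, ?_, by rwa [conj_smul_conj_smul, ← inv_inv k, ← mul_inv_rev] at e⟩
  calc g * k⁻¹ * t * (g * k⁻¹)⁻¹ = g * k⁻¹ * (t * k) * g⁻¹ := by group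
    _ = _ := by rw [← mem_centralizer_singleton_iff.1 hk]; group

theorem ta_two {E : Subgroup G} (h : ∀ x ∈ E, x * x = 1) : IsPGroup 2 E := fun x =>
  ⟨1, Subtype.ext (by simpa [pow_two] using h x x.2)⟩

theorem ta_sq_conj {E : Subgroup G} (h : ∀ x ∈ E, x * x = 1) (g : G) : ∀ x ∈ MulAut.conj g • E, x * x = 1 :=
  fun x hx => by
    have := h _ ((mem_conj_smul_iff _ _ _).1 hx)
    calc x * x = g * (g⁻¹ * x * g * (g⁻¹ * x * g)) * g⁻¹ := by group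
      _ = 1 := by rw [this]; group

theorem ta_star {ν : F4} (r : R16 ν) : star r + r = ⟨r.im, 0⟩ :=
  QuadraticAlgebra.ext (by
    show r.re + 1 * r.im + r.re = r.im
    exact (by decide +kernel : ∀ a b : F4, a + 1 * b + a = b) _ _) (neg_add_cancel _)

section Dbl
variable {ι : Heis F4 →* G} {t : G} {ν : F4} {Φ : Heis (R16 ν) →* G}

theorem ta_mul (r u r' u' : R16 ν) : Φ ⟨r, 0, u⟩ * Φ ⟨r', 0, u'⟩ = Φ ⟨r + r', 0, u + u'⟩ := by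
  rw [← map_mul, Heis.mul_def]; simp

theorem ta_sq (r u : R16 ν) : Φ ⟨r, 0, u⟩ * Φ ⟨r, 0, u⟩ = 1 := by
  rw [ta_mul, add_self_R16, add_self_R16]; exact map_one Φ

theorem ta_comm (r u r' u' : R16 ν) : Φ ⟨r, 0, u⟩ * Φ ⟨r', 0, u'⟩ = Φ ⟨r', 0, u'⟩ * Φ ⟨r, 0, u⟩ := by
  rw [ta_mul, ta_mul, add_comm r, add_comm u]

theorem ta_cen (u : R16 ν) (q : Heis (R16 ν)) : Φ q * Φ ⟨0, 0, u⟩ = Φ ⟨0, 0, u⟩ * Φ q := by
  rw [← map_mul, ← map_mul, Heis.mul_def, Heis.mul_def]; simp [add_comm]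

variable (D : Dbl ι t Φ)
include D

theorem ta_ext (a c : F4) : Φ ⟨⟨a, 0⟩, 0, ⟨c, 0⟩⟩ = ι ⟨a, 0, c⟩ := D.ext a 0 c

theorem ta_act (r u : R16 ν) : t * Φ ⟨r, 0, u⟩ * t⁻¹ = Φ ⟨star r, 0, star u⟩ := by rw [D.act, star_zero]

theorem ta_CA (r u : R16 ν) : CA ι (Φ ⟨r, 0, u⟩) := fun a c => by rw [← ta_ext D, ta_comm]

theorem ta_mem (p : Heis F4) : ι p ∈ Φ.range := ⟨_, D.ext p.a p.b p.c⟩

theorem ta_not : t ∉ Φ.range := by
  rintro ⟨q, rfl⟩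
  have h := ta_act D 0 ⟨0, 1⟩
  rw [ta_cen, mul_inv_cancel_right] at h
  have := congrArg (fun p => p.c.re) (D.inj h)
  exact absurd (show (0 : F4) = 0 + 1 * 1 from this) (by decide +kernel)

theorem ta_card : Nat.card Φ.range = 4096 := by
  rw [← Nat.card_congr (MonoidHom.ofInjective D.inj).toEquiv, Heis.card, card_R16]; norm_num

theorem ta_P : IsPGroup 2 Φ.range := IsPGroup.of_card (n := 12) (ta_card D)

variable (tt : t * t = 1)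
include tt

theorem ta_sq_t (r u : R16 ν) : Φ ⟨r, 0, u⟩ * t * (Φ ⟨r, 0, u⟩ * t) = ι ⟨r.im, 0, u.im⟩ := by
  calc _ = Φ ⟨r, 0, u⟩ * (t * Φ ⟨r, 0, u⟩ * t⁻¹) * (t * t) := by group
    _ = _ := by rw [tt, mul_one, ta_act D, ta_comm, ta_mul, ta_star, ta_star, ta_ext D]

theorem ta_tr (r u : R16 ν) : Tr ι t (Φ ⟨r, 0, u⟩) ⟨r.im, 0, u.im⟩ := by
  rw [Tr, ← ta_ext D, ← ta_star, ← ta_star, ← ta_mul, ← ta_act D, ← eq_inv_of_mul_eq_one_left (ta_sq r u),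
    ← eq_inv_of_mul_eq_one_left tt, ← mul_assoc, ← mul_assoc, ← mul_assoc, tt, one_mul]

theorem ta_inv {r u : R16 ν} (h : Φ ⟨r, 0, u⟩ * t * (Φ ⟨r, 0, u⟩ * t) = 1) : Φ ⟨r, 0, u⟩ = ι ⟨r.re, 0, u.re⟩ := by
  rw [ta_sq_t D tt, ← ta_ext D, ← map_one Φ] at h
  have h1 : r.im = 0 := congrArg (fun p => p.a.re) (D.inj h)
  have h2 : u.im = 0 := congrArg (fun p => p.c.re) (D.inj h)
  rw [← ta_ext D, ← h1]
  conv_rhs => rw [h1, ← h2]
  conv_rhs => rw [h2, ← h1]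
  congr 2
  exact QuadraticAlgebra.ext rfl (h2.trans h1.symm)

theorem ta_conj {ι' : Heis F4 →* G} {Φ' : Heis (R16 ν) →* G} (D' : Dbl ι' t Φ') {n : G} (hn : n * t = t * n)
    (h1 : ∀ a c, ∃ a' c', n * ι ⟨a, 0, c⟩ * n⁻¹ = ι' ⟨a', 0, c'⟩)
    (h2 : ∀ a' c', ∃ a c, n * ι ⟨a, 0, c⟩ * n⁻¹ = ι' ⟨a', 0, c'⟩) (r u : R16 ν) :
    n * Φ ⟨r, 0, u⟩ * n⁻¹ ∈ Φ'.range := by
  have nt : n * t * n⁻¹ = t := by rw [hn, mul_inv_cancel_right]
  have sq : n * Φ ⟨r, 0, u⟩ * n⁻¹ * (n * Φ ⟨r, 0, u⟩ * n⁻¹) = 1 := by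
    calc _ = n * (Φ ⟨r, 0, u⟩ * Φ ⟨r, 0, u⟩) * n⁻¹ := by group
      _ = 1 := by rw [ta_sq]; group
  obtain ⟨r', u', e | e⟩ := D'.yA (n * Φ ⟨r, 0, u⟩ * n⁻¹) (fun a' c' => by
    obtain ⟨a, c, e⟩ := h2 a' c'
    calc _ = n * (Φ ⟨r, 0, u⟩ * ι ⟨a, 0, c⟩) * n⁻¹ := by rw [← e]; group
      _ = _ := by rw [ta_CA D r u, ← e]; group) ⟨1, by rw [pow_one, pow_two, sq]⟩ (by
    obtain ⟨a', c', e⟩ := h1 r.im u.im
    refine ⟨a', c', ?_⟩
    calc _ = n * Φ ⟨r, 0, u⟩ * n⁻¹ * (n * t * n⁻¹) * (n * Φ ⟨r, 0, u⟩ * n⁻¹)⁻¹ := by rw [nt]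
      _ = n * (Φ ⟨r, 0, u⟩ * t * (Φ ⟨r, 0, u⟩)⁻¹) * n⁻¹ := by group
      _ = n * t * n⁻¹ * (n * ι ⟨r.im, 0, u.im⟩ * n⁻¹) := by rw [ta_tr D tt]; group
      _ = _ := by rw [nt, e])
  · exact ⟨_, e.symm⟩
  · rw [ta_inv D' tt (e ▸ sq)] at e
    obtain ⟨a, c, e'⟩ := h2 r'.re u'.re
    refine absurd ?_ (ta_not D)
    have : t = (ι ⟨a, 0, c⟩)⁻¹ * Φ ⟨r, 0, u⟩ := by
      calc t = (ι ⟨a, 0, c⟩)⁻¹ * (n⁻¹ * (n * ι ⟨a, 0, c⟩ * n⁻¹ * (n * t * n⁻¹)) * n) := by group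
        _ = _ := by rw [nt, e', ← e]; group
    rw [this]
    exact mul_mem (inv_mem (ta_mem D _)) ⟨_, rfl⟩

theorem ta_cA [Finite G] {S : Subgroup G} (hS : IsSylowIn 2 S (centralizer {t})) (tc : ∀ p, ι p * t = t * ι p)
    (hb : ∀ E ≤ S, (∀ x ∈ E, x * x = 1) → Nat.card E ≤ 32) (X : Subgroup G) (hX : IsPGroup 2 X)
    (h : ∀ x ∈ X, CA ι x) : Nat.card X ≤ 512 := by
  have ti : t⁻¹ = t := (eq_inv_of_mul_eq_one_left tt).symm
  have mv : ∀ r u, t * Φ ⟨r, 0, u⟩ = Φ ⟨star r, 0, star u⟩ * t := fun r u => by rw [← ta_act D]; group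
  let C : Subgroup G :=
    { carrier := {x | CA ι x}
      one_mem' := fun a c => by group
      mul_mem' := fun hx hy a c => (Commute.mul_left (hx a c) (hy a c)).eq
      inv_mem' := fun hx a c => (Commute.inv_left (hx a c)).eq }
  let Y : Subgroup G :=
    { carrier := {x | ∃ r u, x = Φ ⟨r, 0, u⟩}
      one_mem' := ⟨0, 0, (map_one Φ).symm⟩
      mul_mem' := by rintro _ _ ⟨r, u, rfl⟩ ⟨r', u', rfl⟩; exact ⟨_, _, ta_mul _ _ _ _⟩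
      inv_mem' := by rintro _ ⟨r, u, rfl⟩; exact ⟨r, u, (eq_inv_of_mul_eq_one_left (ta_sq r u)).symm⟩ }
  let Q : Subgroup G :=
    { carrier := {x | ∃ r u, x = Φ ⟨r, 0, u⟩ ∨ x = Φ ⟨r, 0, u⟩ * t}
      one_mem' := ⟨0, 0, .inl (map_one Φ).symm⟩
      mul_mem' := by
        rintro _ _ ⟨r, u, rfl | rfl⟩ ⟨r', u', rfl | rfl⟩
        · exact ⟨_, _, .inl (ta_mul _ _ _ _)⟩
        · exact ⟨_, _, .inr (by rw [← mul_assoc, ta_mul])⟩
        · exact ⟨_, _, .inr (by rw [mul_assoc, mv, ← mul_assoc, ta_mul])⟩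
        · exact ⟨_, _, .inl (by rw [mul_assoc, ← mul_assoc t, mv, mul_assoc, tt, mul_one, ta_mul])⟩
      inv_mem' := by
        rintro _ ⟨r, u, rfl | rfl⟩
        · exact ⟨r, u, .inl (eq_inv_of_mul_eq_one_left (ta_sq r u)).symm⟩
        · exact ⟨_, _, .inr (by rw [mul_inv_rev, ti, ← eq_inv_of_mul_eq_one_left (ta_sq r u), mv])⟩ }
  have hQ : IsPGroup 2 Q := by
    rintro ⟨x, r, u, rfl | rfl⟩
    · exact ⟨1, Subtype.ext (by simpa [pow_two] using ta_sq r u)⟩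
    · refine ⟨2, Subtype.ext ?_⟩
      have := ta_sq (Φ := Φ) ⟨r.im, 0⟩ ⟨u.im, 0⟩
      rw [ta_ext D, ← ta_sq_t D tt] at this
      simpa [pow_succ, mul_assoc] using this
  have QC : Q ≤ C := by
    rintro _ ⟨r, u, rfl | rfl⟩
    exacts [ta_CA D r u, C.mul_mem (ta_CA D r u) fun a c => (tc _).symm]
  obtain ⟨X₁, h1, h2⟩ := exists_isSylowIn_ge hQ QC
  have e : Q = X₁ := by
    by_contra hne
    obtain ⟨x, ⟨x1, x2⟩, x3⟩ := SetLike.exists_of_lt (lt_inf_normalizer_of_isPGroup h1.isPGroup (h2.lt_of_ne hne))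
    obtain ⟨r, u, e | e⟩ := (mem_normalizer_iff.1 x2 t).1 ⟨0, 0, .inr (by rw [show Φ ⟨0, 0, 0⟩ = 1 from map_one Φ,
      one_mul])⟩
    · have sY : ∀ y ∈ Y, y * y = 1 := by rintro _ ⟨r, u, rfl⟩; exact ta_sq r u
      obtain ⟨g, -, hg⟩ := ta_into (g := x) hS (ta_two sY) (by
        rintro _ ⟨r', u', rfl⟩; rw [e, ta_comm])
      have c1 := hb _ hg (ta_sq_conj sY _)
      have c2 := ta_ge Y (fun p : R16 ν × R16 ν => Φ ⟨p.1, 0, p.2⟩) (fun p q e =>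
        Prod.ext (congrArg Heis.a (D.inj e)) (congrArg Heis.c (D.inj e))) fun p => ⟨_, _, rfl⟩
      rw [Nat.card_prod, card_R16] at c2
      rw [card_conj_smul] at c1
      omega
    · have e' := ta_inv D tt (r := r) (u := u) (by
        rw [← e]
        calc _ = x * (t * t) * x⁻¹ := by group
          _ = 1 := by rw [tt]; group)
      obtain ⟨k, hk⟩ := h1.isPGroup ⟨x, x1⟩
      exact x3 (D.yA x (h1.le x1) ⟨k, congrArg Subtype.val hk⟩ ⟨r.re, u.re, by rw [Tr, e, e', tc]⟩)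
  refine ((e ▸ h1).card_le hX h).trans ((ta_le Q (fun p : (R16 ν × R16 ν) × Bool =>
    cond p.2 (Φ ⟨p.1.1, 0, p.1.2⟩) (Φ ⟨p.1.1, 0, p.1.2⟩ * t)) ?_).trans (by rw [Nat.card_prod, Nat.card_prod, card_R16]; simp))
  rintro _ ⟨r, u, e | e⟩
  exacts [⟨((r, u), true), e⟩, ⟨((r, u), false), e⟩]

omit tt in
theorem ta_big [Finite G] {S : Subgroup G} (hS : IsSylowIn 2 S (centralizer {t})) (hc : Nat.card S ≤ 512) (g : G)
    (u : R16 ν) : g * t * g⁻¹ ≠ Φ ⟨0, 0, u⟩ := fun e => by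
  obtain ⟨g', -, hg⟩ := ta_into (g := g) hS (ta_P D) (by rintro _ ⟨q, rfl⟩; rw [e, ta_cen])
  have := card_le_of_le hg
  rw [card_conj_smul, ta_card D] at this
  omega

theorem ta_fin [Finite G] {S : Subgroup G} (hS : IsSylowIn 2 S (centralizer {t})) (hc : Nat.card S ≤ 512)
    {ι' : Heis F4 →* G} {Φ' : Heis (R16 ν) →* G} (D' : Dbl ι' t Φ') (tc : ∀ p, ι' p * t = t * ι' p)
    (hb : ∀ X : Subgroup G, IsPGroup 2 X → (∀ x ∈ X, CA ι' x) → Nat.card X ≤ 512) {g : G}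
    (h : ∀ a c, ∃ u, g * ι' ⟨a, 0, c⟩ * g⁻¹ = Φ ⟨0, 0, u⟩ ∨ g * ι' ⟨a, 0, c⟩ * g⁻¹ = Φ ⟨0, 0, u⟩ * (g * t * g⁻¹)) :
    False := by
  have := hb _ (IsPGroup.conj_smul (ta_P D) g⁻¹) fun x hx a c => by
    obtain ⟨q, hq⟩ := (mem_conj_smul_iff _ _ _).1 hx
    obtain ⟨u, e | e⟩ := h a c
    · calc _ = g⁻¹ * (g⁻¹⁻¹ * x * g⁻¹ * (g * ι' ⟨a, 0, c⟩ * g⁻¹)) * g := by group
        _ = g⁻¹ * (g * ι' ⟨a, 0, c⟩ * g⁻¹ * (g⁻¹⁻¹ * x * g⁻¹)) * g := by rw [← hq, e, ta_cen]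
        _ = _ := by group
    · refine absurd ?_ (ta_big D hS hc (g * Φ' ⟨⟨0, a⟩, 0, ⟨0, c⟩⟩) u)
      calc _ = g * (Φ' ⟨⟨0, a⟩, 0, ⟨0, c⟩⟩ * t * (Φ' ⟨⟨0, a⟩, 0, ⟨0, c⟩⟩)⁻¹) * g⁻¹ := by group
        _ = g * ι' ⟨a, 0, c⟩ * g⁻¹ * (g * t * g⁻¹) := by rw [ta_tr D' tt, ← tc]; group
        _ = Φ ⟨0, 0, u⟩ * (g * (t * t) * g⁻¹) := by rw [e]; group
        _ = _ := by rw [tt]; group
  rw [card_conj_smul, ta_card D] at this
  omega

end Dbl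

theorem taS : TaS.{u} := by
  intro G _ _ ι L S t h ν Φ H HF HG D
  have tc : ∀ p, ι p * t = t * ι p := fun p => H.tK _ (H.mem p)
  have hb : ∀ E ≤ S, (∀ x ∈ E, x * x = 1) → Nat.card E ≤ 32 := fun E h1 h2 => by
    by_contra h3
    exact h3 ((HF.e32 E h1 h2 (by omega)).elim ta_fa ta_fa)
  have cA := ta_cA D H.tt H.syl tc hb
  have cB := ta_cA D.swap H.tt H.syl (fun p => tc _) hb
  refine ⟨fun s hs => ?_, cA, cB, fun g hg => ?_⟩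
  · obtain ⟨p, i, j, a1, -⟩ := H.act s hs
    have hn : ι p * s * t = t * (ι p * s) := by
      rw [mul_assoc, mem_centralizer_singleton_iff.1 (H.syl.le hs), ← mul_assoc, tc, mul_assoc]
    have sw : (Φ.comp (grR ν)).range ≤ Φ.range := by rintro _ ⟨q, rfl⟩; exact ⟨_, rfl⟩
    have lift : ∀ {f f' : Heis F4 → Heis F4}, (∀ a c, ∃ a' c', th i j (f ⟨a, 0, c⟩) = f' ⟨a', 0, c'⟩) ∧
        (∀ a' c', ∃ a c, th i j (f ⟨a, 0, c⟩) = f' ⟨a', 0, c'⟩) →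
        (∀ a c, ∃ a' c', ι p * s * ι (f ⟨a, 0, c⟩) * (ι p * s)⁻¹ = ι (f' ⟨a', 0, c'⟩)) ∧
        ∀ a' c', ∃ a c, ι p * s * ι (f ⟨a, 0, c⟩) * (ι p * s)⁻¹ = ι (f' ⟨a', 0, c'⟩) := fun h =>
      ⟨fun a c => let ⟨a', c', e⟩ := h.1 a c; ⟨a', c', by rw [a1, e]⟩,
        fun a' c' => let ⟨a, c, e⟩ := h.2 a' c'; ⟨a, c, by rw [a1, e]⟩⟩
    have key : (∀ r u, ι p * s * Φ ⟨r, 0, u⟩ * (ι p * s)⁻¹ ∈ Φ.range) ∧
        ∀ r u, ι p * s * Φ.comp (grR ν) ⟨r, 0, u⟩ * (ι p * s)⁻¹ ∈ Φ.range := by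
      cases j
      · have k1 := lift (f := id) (f' := id) (by cases i <;> decide +kernel)
        have k2 := lift (f := gr) (f' := gr) (by cases i <;> decide +kernel)
        exact ⟨ta_conj D H.tt D hn k1.1 k1.2, fun r u => sw (ta_conj D.swap H.tt D.swap hn k2.1 k2.2 r u)⟩
      · have k1 := lift (f := id) (f' := gr) (by cases i <;> decide +kernel)
        have k2 := lift (f := gr) (f' := id) (by cases i <;> decide +kernel)
        exact ⟨fun r u => sw (ta_conj D H.tt D.swap hn k1.1 k1.2 r u), ta_conj D.swap H.tt D hn k2.1 k2.2⟩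
    have hN : ι p * s ∈ normalizer (Φ.range : Set G) := mem_normalizer_fintype (by
      rintro _ ⟨q, rfl⟩
      have e : Φ q = Φ.comp (grR ν) ⟨q.b, 0, 0⟩ * Φ ⟨q.a, 0, q.c⟩ := by
        rw [MonoidHom.comp_apply, ← map_mul, grR_apply, Heis.mul_def]; simp
      have := mul_mem (key.2 q.b 0) (key.1 q.a q.c)
      rw [e]
      exact (congrArg (· ∈ Φ.range) (by group)).mp this)
    simpa using mul_mem (inv_mem (le_normalizer (ta_mem D p))) hN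
  · have t2 : g * t * g⁻¹ * (g * t * g⁻¹) = 1 := by
      calc _ = g * (t * t) * g⁻¹ := by group
        _ = 1 := by rw [H.tt]; group
    have mw : ∀ u u', Φ ⟨0, 0, u⟩ * Φ ⟨0, 0, u'⟩ = Φ ⟨0, 0, u + u'⟩ := fun u u' => by rw [ta_mul, add_zero]
    generalize ht : g * t * g⁻¹ = t' at hg t2
    have sq2 : ∀ u u', Φ ⟨0, 0, u⟩ * t' * (Φ ⟨0, 0, u'⟩ * t') = Φ ⟨0, 0, u + u'⟩ := fun u u' => by
      rw [mul_assoc, ← mul_assoc t', ← hg, mul_assoc, t2, mul_one, mw]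
    have sq3 : ∀ u, Φ ⟨0, 0, u⟩ * t' * (Φ ⟨0, 0, u⟩ * t') = 1 := fun u => by
      rw [sq2, add_self_R16]; exact map_one Φ
    let E : Subgroup G :=
      { carrier := {x | ∃ u, x = Φ ⟨0, 0, u⟩ ∨ x = Φ ⟨0, 0, u⟩ * t'}
        one_mem' := ⟨0, .inl (map_one Φ).symm⟩
        mul_mem' := by
          rintro _ _ ⟨u, rfl | rfl⟩ ⟨u', rfl | rfl⟩
          · exact ⟨_, .inl (mw _ _)⟩
          · exact ⟨_, .inr (by rw [← mul_assoc, mw])⟩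
          · exact ⟨_, .inr (by rw [mul_assoc, ← hg, ← mul_assoc, mw])⟩
          · exact ⟨_, .inl (sq2 _ _)⟩
        inv_mem' := by
          rintro _ ⟨u, rfl | rfl⟩
          · exact ⟨u, .inl (eq_inv_of_mul_eq_one_left (ta_sq 0 u)).symm⟩
          · exact ⟨u, .inr (eq_inv_of_mul_eq_one_left (sq3 u)).symm⟩ }
    have sE : ∀ x ∈ E, x * x = 1 := by
      rintro _ ⟨u, rfl | rfl⟩
      exacts [ta_sq 0 u, sq3 u]
    obtain ⟨g', e1, e2⟩ := ta_into (g := g) H.syl (ta_two sE) (by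
      rw [ht]
      rintro _ ⟨u, rfl | rfl⟩
      exacts [hg u, by rw [← mul_assoc, ← hg]])
    have ne : ∀ u u', Φ ⟨0, 0, u⟩ ≠ Φ ⟨0, 0, u'⟩ * t' := fun u u' e =>
      ta_big D H.syl HG.card g (u' + u) (by rw [ht, ← mw, e, ← mul_assoc, ta_sq, one_mul])
    have c1 := ta_ge E (fun p : R16 ν × Bool => cond p.2 (Φ ⟨0, 0, p.1⟩) (Φ ⟨0, 0, p.1⟩ * t')) (by
      rintro ⟨u, _ | _⟩ ⟨u', _ | _⟩ e
      · rw [show u = u' from congrArg Heis.c (D.inj (mul_right_cancel e))]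
      · exact absurd e.symm (ne _ _)
      · exact absurd e (ne _ _)
      · rw [show u = u' from congrArg Heis.c (D.inj e)]) (by
      rintro ⟨u, _ | _⟩
      exacts [⟨u, .inr rfl⟩, ⟨u, .inl rfl⟩])
    rw [Nat.card_prod, card_R16] at c1
    rcases HF.e32 _ e2 (ta_sq_conj sE _) (by rw [card_conj_smul]; simpa using c1) with k | k
    · exact ta_fin D H.tt H.syl HG.card D tc cA (g := g') fun a c => by
        have := (mem_conj_smul_iff _ _ _).1 ((k _).2 ⟨a, c, .inl rfl⟩)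
        rw [inv_inv] at this
        rw [e1, ht]
        exact this
    · exact ta_fin D H.tt H.syl HG.card D.swap (fun p => tc _) cB (g := g') fun a c => by
        have := (mem_conj_smul_iff _ _ _).1 ((k _).2 ⟨a, c, .inl rfl⟩)
        rw [inv_inv] at this
        rw [e1, ht]
        exact this

end CL.L34
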