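/-
Standard subgroups of type `L_3(4)`: the element `w`.
-/
import Cfsg.Agent.L34.Defs

set_option autoImplicit false

universe u

namespace CL.L34
open Subgroup CL.Grp

variable {G : Type u} [Group G] {ι : Heis F4 →* G} {L S Q : Subgroup G} {t h : G}

theorem w_zz (ι : Heis F4 →* G) (c d : F4) : ι ⟨0, 0, c⟩ * ι ⟨0, 0, d⟩ = ι ⟨0, 0, c + d⟩ := by
  rw [← map_mul]
  exact congrArg ι ((by decide +kernel : ∀ c d : F4, (⟨0, 0, c⟩ * ⟨0, 0, d⟩ : Heis F4) = ⟨0, 0, c + d⟩) c d)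

theorem w_z0 (ι : Heis F4 →* G) : ι ⟨0, 0, 0⟩ = 1 := map_one ι

theorem w_cc (c : F4) : c + c = 0 := by revert c; decide +kernel

theorem w_z2 (ι : Heis F4 →* G) (c : F4) : ι ⟨0, 0, c⟩ * ι ⟨0, 0, c⟩ = 1 := by rw [w_zz, w_cc, w_z0]

theorem w_zi (ι : Heis F4 →* G) (c : F4) : (ι ⟨0, 0, c⟩)⁻¹ = ι ⟨0, 0, c⟩ := inv_eq_of_mul_eq_one_right (w_z2 ι c)

theorem w_zT (ι : Heis F4 →* G) (c : F4) : CT ι (ι ⟨0, 0, c⟩) := fun p => by
  rw [← map_mul, ← map_mul]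
  exact congrArg ι ((by decide +kernel : ∀ (c : F4) (p : Heis F4), ⟨0, 0, c⟩ * p = p * ⟨0, 0, c⟩) c p)

theorem w_cen (hi : Function.Injective ι) (p : Heis F4) (hp : CT ι (ι p)) : ∃ c, p = ⟨0, 0, c⟩ := by
  have e : ∀ q, p * q = q * p := fun q => hi (by rw [map_mul, map_mul]; exact hp q)
  have e1 := congrArg Heis.c (e ⟨0, 1, 0⟩)
  have e2 := congrArg Heis.c (e ⟨1, 0, 0⟩)
  simp only [Heis.mul_c, add_zero, mul_one, zero_mul, zero_add, mul_zero, one_mul] at e1 e2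
  refine ⟨p.c, Heis.ext ?_ ?_ rfl⟩
  · exact add_left_cancel (a := p.c) (by rw [e1, add_zero])
  · exact add_left_cancel (a := p.c) (by rw [← e2, add_zero])

theorem w_ctm {x y : G} (hx : CT ι x) (hy : CT ι y) : CT ι (x * y) := fun p => by
  rw [mul_assoc, hy, ← mul_assoc, hx, mul_assoc]

theorem w_cti {x : G} (hx : CT ι x) : CT ι x⁻¹ := fun p => (Commute.inv_left (hx p)).eq

theorem w_kT (H : Loc ι L S t h) {k : G} (hk : k ∈ centralizer (L : Set G)) : CT ι k := fun p =>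
  ((mem_centralizer_iff.1 hk) _ (H.mem p)).symm

theorem w_hk (H : Loc ι L S t h) {k : G} (hk : k ∈ centralizer (L : Set G)) : h * k = k * h :=
  (mem_centralizer_iff.1 hk) _ H.hL

/-- `x` centralizes `T` and moves `t` by a central element -/
structure w_P (ι : Heis F4 →* G) (t x : G) (c : F4) : Prop where
  ct : CT ι x
  tr : x * t * x⁻¹ = t * ι ⟨0, 0, c⟩

theorem w_P.mul {x y : G} {c d : F4} (hx : w_P ι t x c) (hy : w_P ι t y d) : w_P ι t (x * y) (c + d) := by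
  refine ⟨w_ctm hx.ct hy.ct, ?_⟩
  calc x * y * t * (x * y)⁻¹ = x * (y * t * y⁻¹) * x⁻¹ := by group
    _ = x * t * x⁻¹ * (x * ι ⟨0, 0, d⟩) * x⁻¹ := by rw [hy.tr]; group
    _ = t * ι ⟨0, 0, c + d⟩ := by rw [hx.tr, hx.ct, ← w_zz]; group

theorem w_P.tx {x : G} {c : F4} (hx : w_P ι t x c) : t * x = x * t * ι ⟨0, 0, c⟩ := by
  calc t * x = t * ι ⟨0, 0, c⟩ * (ι ⟨0, 0, c⟩ * x) := by
        rw [mul_assoc, ← mul_assoc (ι _), w_z2, one_mul]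
    _ = x * t * ι ⟨0, 0, c⟩ := by rw [← hx.tr, ← hx.ct]; group

theorem w_P.inv {x : G} {c : F4} (hx : w_P ι t x c) : w_P ι t x⁻¹ c := by
  refine ⟨w_cti hx.ct, ?_⟩
  rw [inv_inv, mul_assoc, hx.tx]; group

theorem w_P.comm {x : G} (hx : w_P ι t x 0) : x * t = t * x := by
  rw [hx.tx, w_z0, mul_one]

theorem w_P0 {x : G} (h1 : CT ι x) (h2 : x * t = t * x) : w_P ι t x 0 :=
  ⟨h1, by rw [h2, w_z0]; group⟩

theorem w_P.pow0 {x : G} (hx : w_P ι t x 0) (n : ℕ) : w_P ι t (x ^ n) 0 := by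
  induction n with
  | zero => exact w_P0 (fun p => by simp) (by simp)
  | succ n ih => rw [pow_succ]; simpa only [add_zero] using ih.mul hx

theorem w_P.sq {x : G} {c : F4} (hx : w_P ι t x c) : w_P ι t (x * x) 0 := by
  simpa only [w_cc] using hx.mul hx

theorem w_P.pow {x : G} {c : F4} (hx : w_P ι t x c) {m : ℕ} (hm : Odd m) : w_P ι t (x ^ m) c := by
  obtain ⟨k, rfl⟩ := hm
  rw [pow_succ, pow_mul, pow_two]
  simpa only [zero_add] using (hx.sq.pow0 k).mul hx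

theorem w_Pz (H : Loc ι L S t h) (c : F4) : w_P ι t (ι ⟨0, 0, c⟩) 0 :=
  w_P0 (w_zT ι c) (w_kT H H.tK _).symm

theorem w_hz (H : Loc ι L S t h) (c : F4) : h * ι ⟨0, 0, c⟩ * h⁻¹ = ι ⟨0, 0, om * om * c⟩ := by
  rw [H.ah]; simp only [dg, mul_zero]

theorem w_P.conj (H : Loc ι L S t h) {x : G} {c : F4} (hx : w_P ι t x c) :
    w_P ι t (h * x * h⁻¹) (om * om * c) := by
  refine ⟨fun p => ?_, ?_⟩
  · have e : ι p = h * ι (dg (om * om) (om * om) p) * h⁻¹ := by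
      rw [H.ah]
      exact congrArg ι ((by decide +kernel : ∀ p, p = dg om om (dg (om * om) (om * om) p)) p)
    rw [e]
    calc h * x * h⁻¹ * (h * ι (dg (om * om) (om * om) p) * h⁻¹)
        = h * (x * ι (dg (om * om) (om * om) p)) * h⁻¹ := by group
      _ = _ := by rw [hx.ct]; group
  · have e : h * t * h⁻¹ = t := by rw [w_hk H H.tK]; group
    calc h * x * h⁻¹ * t * (h * x * h⁻¹)⁻¹ = h * x * h⁻¹ * (h * t * h⁻¹) * (h * x * h⁻¹)⁻¹ := by rw [e]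
      _ = h * (x * t * x⁻¹) * h⁻¹ := by group
      _ = h * t * h⁻¹ * (h * ι ⟨0, 0, c⟩ * h⁻¹) := by rw [hx.tr]; group
      _ = _ := by rw [e, w_hz H]

theorem w_A (H : Loc ι L S t h) {x : G} (hx : w_P ι t x 0) :
    ∃ c, ι ⟨0, 0, c⟩ * x ∈ centralizer (L : Set G) := by
  have hN : x ∈ normalizer (L : Set G) :=
    H.tight x t H.tK H.tt H.t1 (by rw [hx.tr, w_z0, mul_one]; exact H.tK)
  obtain ⟨p, hp⟩ := H.cT x hN fun p => ⟨0, by
    rw [hx.ct, map_mul, w_z0]; group⟩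
  obtain ⟨c, rfl⟩ := w_cen H.inj p (by simpa using w_ctm (w_kT H hp) (w_cti hx.ct))
  exact ⟨c, hp⟩

theorem w_O (H : Loc ι L S t h) {v o : G} {c : F4} (hv : w_P ι t v c) (ho : o ∈ centralizer (L : Set G))
    (h1 : o * t = t * o) (h2 : Odd (orderOf o)) : v * o * v⁻¹ ∈ centralizer (L : Set G) := by
  have a1 : w_P ι t (v * o * v⁻¹) 0 := by
    simpa only [add_zero, w_cc] using (hv.mul (w_P0 (w_kT H ho) h1)).mul hv.inv
  obtain ⟨d, hd⟩ := w_A H a1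
  have a2 := pow_mem hd (orderOf o)
  have a3 : Commute (ι ⟨0, 0, d⟩) (v * o * v⁻¹) := (a1.ct _).symm
  rw [a3.mul_pow, conj_pow, pow_orderOf_eq_one] at a2
  obtain ⟨k, hk⟩ := h2
  rw [hk, pow_succ, pow_mul, pow_two, w_z2] at a2
  simp only [one_pow, one_mul, mul_one, mul_inv_cancel] at a2
  rwa [H.KT _ a2, map_one, one_mul] at hd

/-- elements of `Q` that centralize `T` -/
structure w_R (ι : Heis F4 →* G) (L : Subgroup G) (t x : G) (c : F4) : Prop where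
  p : w_P ι t x c
  co : CO L t x
  sq : ∃ l, x * x = ι ⟨0, 0, l⟩

theorem w_R.mem (HQ : Qa ι L t Q) {x : G} {c : F4} (hx : w_R ι L t x c) : x ∈ Q := by
  obtain ⟨l, e⟩ := hx.sq
  exact (HQ.iff x).2 ⟨fun a c => hx.p.ct _, hx.co, ⟨0, c, hx.p.tr⟩, 0, l, e⟩

theorem w_RQ (H : Loc ι L S t h) (HQ : Qa ι L t Q) {x : G} {c : F4} (hx : w_P ι t x c) (hq : x ∈ Q) :
    w_R ι L t x c := by
  obtain ⟨-, a1, -, a, d, e⟩ := (HQ.iff x).1 hq
  obtain ⟨l, hl⟩ := w_cen H.inj ⟨a, 0, d⟩ (e ▸ hx.sq.ct)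
  exact ⟨hx, a1, l, by rw [e, hl]⟩

theorem w_R.mul (H : Loc ι L S t h) (HQ : Qa ι L t Q) {x y : G} {c d : F4} (hx : w_R ι L t x c)
    (hy : w_R ι L t y d) : w_R ι L t (x * y) (c + d) :=
  w_RQ H HQ (hx.p.mul hy.p) (Q.mul_mem (hx.mem HQ) (hy.mem HQ))

theorem w_R.conj (H : Loc ι L S t h) {x : G} {c : F4} (hx : w_R ι L t x c) :
    w_R ι L t (h * x * h⁻¹) (om * om * c) := by
  obtain ⟨l, e⟩ := hx.sq
  refine ⟨hx.p.conj H, fun o a1 a2 a3 => ?_, om * om * l, by rw [← w_hz H, ← e]; group⟩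
  have b1 : Commute h o := w_hk H a1
  have b2 : Commute x o := hx.co o a1 a2 a3
  exact ((b1.mul_left b2).mul_left b1.inv_left).eq

theorem w_Rt (H : Loc ι L S t h) : w_R ι L t t 0 :=
  ⟨w_P0 (w_kT H H.tK) rfl, fun _ _ a2 _ => a2.symm, 0, by rw [H.tt, w_z0]⟩

theorem w_step2 [Finite G] (H : Loc ι L S t h) (HF : Fus ι L t) : ∃ x, w_R ι L t x 1 := by
  obtain ⟨v, a1, c, a2, a3⟩ := HF.vv
  have hv : w_P ι t v c := ⟨a1, a3⟩
  have b1 := hv.mul (hv.inv.conj H)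
  have b2 : CO L t (v * (h * v⁻¹ * h⁻¹)) := fun o c1 c2 c3 => by
    have c4 := w_hk H (w_O H hv.inv c1 c2 c3)
    have c5 : Commute h o := w_hk H c1
    calc v * (h * v⁻¹ * h⁻¹) * o = v * h * v⁻¹ * (h⁻¹ * o) := by group
      _ = v * (h * (v⁻¹ * o * v⁻¹⁻¹)) * v⁻¹ * h⁻¹ := by rw [c5.inv_left.eq]; group
      _ = _ := by rw [c4]; group
  have b3 : c + om * om * c ≠ 0 := (by decide +kernel : ∀ c : F4, c ≠ 0 → c + om * om * c ≠ 0) c a2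
  generalize v * (h * v⁻¹ * h⁻¹) = y at b1 b2
  generalize c + om * om * c = d at b1 b3
  obtain ⟨n, m, hm, e⟩ := Nat.exists_eq_two_pow_mul_odd (orderOf_pos y).ne'
  have d1 := b1.pow hm
  have d2 : CO L t (y ^ m) := fun o c1 c2 c3 => (Commute.pow_left (b2 o c1 c2 c3) m).eq
  have d3 : (y ^ m) ^ 2 ^ n = 1 := by rw [← pow_mul, mul_comm, ← e, pow_orderOf_eq_one]
  generalize y ^ m = x at d1 d2 d3
  obtain ⟨l, hl⟩ := w_A H d1.sq
  have f1 : Commute (ι ⟨0, 0, l⟩) (x * x) := (d1.sq.ct _).symm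
  have f2 : w_P ι t (ι ⟨0, 0, l⟩ * (x * x)) 0 := by simpa only [add_zero] using (w_Pz H l).mul d1.sq
  have f3 : Two (ι ⟨0, 0, l⟩ * (x * x)) := ⟨n + 1, by
    rw [f1.mul_pow, ← pow_two x, ← pow_mul, mul_comm 2, pow_mul, pow_succ 2 n, pow_mul x, d3, mul_comm (2 ^ n),
      pow_mul, pow_two, w_z2]
    simp⟩
  have f4 : w_R ι L t x d := by
    refine ⟨d1, d2, l, ?_⟩
    rcases HF.two _ hl f2.comm f3 with f5 | f5
    · rw [← w_zi]; exact (eq_inv_of_mul_eq_one_right f5)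
    · exfalso
      have g1 : Commute x (ι ⟨0, 0, l⟩) := d1.ct _
      have g2 : Commute x t := f5 ▸ g1.mul_right ((Commute.refl x).mul_right (Commute.refl x))
      have g3 := d1.tx
      rw [g2.eq, left_eq_mul, ← w_z0 ι] at g3
      exact b3 (congrArg Heis.c (H.inj g3))
  rcases (by decide +kernel : ∀ d : F4, d ≠ 0 → d = 1 ∨ om * om * d = 1 ∨ om * om * (om * om * d) = 1) d b3
    with g | g | g
  · exact ⟨_, g ▸ f4⟩
  · exact ⟨_, g ▸ f4.conj H⟩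
  · exact ⟨_, g ▸ (f4.conj H).conj H⟩

theorem w_step3 (H : Loc ι L S t h) (HQ : Qa ι L t Q) {x : G} (hx : w_R ι L t x 1) :
    ∃ w d, w_R ι L t w 1 ∧ w * (h * w * h⁻¹) * (h * (h * w * h⁻¹) * h⁻¹) = ι ⟨0, 0, d⟩ := by
  have a1 := hx.conj H
  have a2 := a1.conj H
  have a3 := (hx.mul H HQ a1).mul H HQ a2
  rw [(by decide +kernel : (1 : F4) + om * om * 1 + om * om * (om * om * 1) = 0)] at a3
  obtain ⟨a, c, e | e⟩ := HQ.fix _ (a3.mem HQ) a3.p.comm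
  · obtain ⟨d, hd⟩ := w_cen H.inj ⟨a, 0, c⟩ (e ▸ a3.p.ct)
    exact ⟨x, d, hx, by rw [e, hd]⟩
  · have b1 := w_ctm a3.p.ct (w_cti (w_kT H H.tK))
    rw [e, mul_inv_cancel_right] at b1
    obtain ⟨d, hd⟩ := w_cen H.inj ⟨a, 0, c⟩ b1
    rw [hd] at e
    have b2 : ∀ y : G, h * (y * t) * h⁻¹ = h * y * h⁻¹ * t := fun y => by
      have : Commute h t := w_hk H H.tK
      rw [mul_assoc (h * y), this.inv_left.eq]; group
    refine ⟨x * t, d + om * om * 1, by simpa only [add_zero] using hx.mul H HQ (w_Rt H), ?_⟩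
    rw [b2, b2]
    have b3 := a1.p.tx
    have b4 := a2.p.ct ⟨0, 0, om * om * 1⟩
    generalize h * (h * x * h⁻¹) * h⁻¹ = x2 at e b4
    generalize h * x * h⁻¹ = x1 at e b3
    have b5 := w_kT H H.tK ⟨0, 0, om * om * 1⟩
    rw [← w_zz]
    generalize ι ⟨0, 0, om * om * 1⟩ = z at b3 b4 b5
    have b6 : t * z * t = z := by rw [b5, mul_assoc, H.tt, mul_one]
    calc x * t * (x1 * t) * (x2 * t) = x * (t * x1) * t * x2 * t := by group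
      _ = x * x1 * (t * z * t * x2) * t := by rw [b3]; group
      _ = x * x1 * x2 * z * t := by rw [b6, ← b4]; group
      _ = ι ⟨0, 0, d⟩ * (t * z * t) := by rw [e]; group
      _ = _ := by rw [b6]

theorem wS : WS.{u} := by
  intro G _ _ ι L S Q t h H HF HQ
  obtain ⟨x, hx⟩ := w_step2 H HF
  obtain ⟨w, d, a0, e⟩ := w_step3 H HQ hx
  have a1 := a0.conj H
  obtain ⟨l, hl⟩ := a0.sq
  obtain ⟨l1, hl1⟩ := a1.sq
  obtain ⟨l2, hl2⟩ := (a0.mul H HQ a1).sq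
  refine ⟨w, l, a0.p.ct, a0.co, a0.p.tr, hl, ?_⟩
  have b0 := a0.p.ct
  have b1 := a1.p.ct
  have b2 : h * (w * (h * w * h⁻¹) * w⁻¹ * (h * w * h⁻¹)⁻¹) * h⁻¹ = h * w * h⁻¹ * (h * (h * w * h⁻¹) * h⁻¹) *
      (h * w * h⁻¹)⁻¹ * (h * (h * w * h⁻¹) * h⁻¹)⁻¹ := by group
  generalize h * (h * w * h⁻¹) * h⁻¹ = w2 at e b2
  generalize h * w * h⁻¹ = w1 at e b2 b1 hl1 hl2
  have c1 : w * w1 * w⁻¹ * w1⁻¹ = ι ⟨0, 0, l2 + l + l1⟩ := by
    calc w * w1 * w⁻¹ * w1⁻¹ = w * w1 * (w * w1) * (w1⁻¹ * (w * w)⁻¹) * w1⁻¹ := by group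
      _ = ι ⟨0, 0, l2⟩ * ι ⟨0, 0, l⟩ * (w1 * w1)⁻¹ := by rw [hl, hl2, w_zi, w_cti b1]; group
      _ = _ := by rw [hl1, w_zi, w_zz, w_zz]
  have c2 : w2 = w1⁻¹ * w⁻¹ * ι ⟨0, 0, d⟩ := by rw [← e]; group
  have c3 : w1 * w2 * w1⁻¹ * w2⁻¹ = ι ⟨0, 0, l2 + l + l1⟩ := by
    calc w1 * w2 * w1⁻¹ * w2⁻¹ = w⁻¹ * (ι ⟨0, 0, d⟩ * w1⁻¹) * (ι ⟨0, 0, d⟩)⁻¹ * w * w1 := by rw [c2]; group
      _ = (w1 * w)⁻¹ * (w * w1 * w⁻¹ * w1⁻¹) * (w1 * w) := by rw [← w_cti b1]; group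
      _ = _ := by rw [c1, w_cti (w_ctm b1 b0)]; group
  rw [c1, c3, w_hz H] at b2
  have c4 : l2 + l + l1 = 0 :=
    (by decide +kernel : ∀ c : F4, om * om * c = c → c = 0) _ (congrArg Heis.c (H.inj b2))
  rw [c4, w_z0] at c1
  calc w * w1 = w * w1 * w⁻¹ * w1⁻¹ * (w1 * w) := by group
    _ = _ := by rw [c1, one_mul]

end CL.L34
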