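/-
Standard subgroups of type `L_3(4)`: the doubled group `Y_A`.
-/
import Cfsg.Agent.L34.Defs

set_option autoImplicit false

universe u

namespace CL.L34
open Subgroup CL.Grp

variable {G : Type u} [Group G]

theorem y_self (p : F4 × F4) : p + p = 0 := by revert p; decide +kernel

theorem y_eq {p q : F4 × F4} (h : p + q = 0) : p = q := by
  rw [← add_zero p, ← y_self q, ← add_assoc, h, zero_add]

/-- the abstract situation inside `Q` -/
structure YCx (Q : Subgroup G) (t : G) (al : F4 × F4 → G) (tau sq : G → F4 × F4) : Prop where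
  add : ∀ p q, al (p + q) = al p * al q
  inj : Function.Injective al
  alQ : ∀ p, al p ∈ Q
  cen : ∀ x ∈ Q, ∀ p, x * al p = al p * x
  tQ : t ∈ Q
  tt : t * t = 1
  tr : ∀ x ∈ Q, x * t * x⁻¹ = t * al (tau x)
  sqe : ∀ x ∈ Q, x * x = al (sq x)
  fix : ∀ x ∈ Q, x * t = t * x → ∃ p, x = al p ∨ x = al p * t

/-- membership in `Y` -/
def YM (Q : Subgroup G) (al : F4 × F4 → G) (tau sq : G → F4 × F4) (l : F4) (x : G) : Prop :=
  x ∈ Q ∧ sq x = l • tau x ∧ (tau x = 0 → ∃ p, x = al p)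

/-- the commutator map -/
def yka (sq : G → F4 × F4) (x y : G) : F4 × F4 := sq (x * y) + sq x + sq y

namespace YCx
variable {Q : Subgroup G} {t : G} {al : F4 × F4 → G} {tau sq : G → F4 × F4} (C : YCx Q t al tau sq) {l : F4}
include C

theorem zero : al 0 = 1 := by
  have := C.add 0 0
  rw [add_zero] at this
  exact left_eq_mul.1 this

theorem al_sq (p : F4 × F4) : al p * al p = 1 := by rw [← C.add, y_self, C.zero]

theorem tau_eq {x : G} (hx : x ∈ Q) {p : F4 × F4} (h : x * t * x⁻¹ = t * al p) : tau x = p :=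
  C.inj (mul_left_cancel ((C.tr x hx).symm.trans h))

theorem sq_eq {x : G} (hx : x ∈ Q) {p : F4 × F4} (h : x * x = al p) : sq x = p :=
  C.inj ((C.sqe x hx).symm.trans h)

theorem tau_zero {x : G} (hx : x ∈ Q) : tau x = 0 ↔ x * t = t * x := by
  refine ⟨fun h => ?_, fun h => C.tau_eq hx (by rw [h, C.zero]; group)⟩
  have := C.tr x hx
  rw [h, C.zero, mul_one] at this
  rw [← mul_inv_eq_iff_eq_mul, this]

theorem tau_mul {x y : G} (hx : x ∈ Q) (hy : y ∈ Q) : tau (x * y) = tau x + tau y := by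
  refine C.tau_eq (mul_mem hx hy) ?_
  calc x * y * t * (x * y)⁻¹ = x * (y * t * y⁻¹) * x⁻¹ := by group
    _ = x * t * (al (tau y) * x⁻¹) := by rw [C.tr y hy]; group
    _ = x * t * x⁻¹ * al (tau y) := by rw [← C.cen _ (inv_mem hx)]; group
    _ = _ := by rw [C.tr x hx, C.add, mul_assoc]

theorem tau_t : tau t = 0 := (C.tau_zero C.tQ).2 rfl

theorem tau_al (p : F4 × F4) : tau (al p) = 0 := (C.tau_zero (C.alQ p)).2 (C.cen t C.tQ p).symm

theorem sq_t : sq t = 0 := C.sq_eq C.tQ (by rw [C.tt, C.zero])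

theorem ka_spec {x y : G} (hx : x ∈ Q) (hy : y ∈ Q) : y * x = al (yka sq x y) * (x * y) := by
  have e1 := C.sqe _ (mul_mem hx hy)
  have e2 : x * (x * y) * y = al (sq x + sq y) := by rw [C.add, ← C.sqe x hx, ← C.sqe y hy]; group
  have e3 : y * x = al (sq (x * y)) * (x⁻¹ * y⁻¹) := by
    rw [← mul_assoc, ← C.cen _ (inv_mem hx), ← e1]; group
  have e4 : x * y = al (sq x + sq y) * (x⁻¹ * y⁻¹) := by
    rw [← mul_assoc, ← C.cen _ (inv_mem hx), ← e2]; group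
  rw [yka, add_assoc, C.add, mul_assoc]
  conv_rhs => rw [e4]
  rw [← e4, e3]
  congr 1
  rw [e4, ← mul_assoc, C.al_sq, one_mul]

theorem ka_eq {x y : G} (hx : x ∈ Q) (hy : y ∈ Q) {k : F4 × F4} (h : y * x = al k * (x * y)) : yka sq x y = k :=
  C.inj (mul_right_cancel ((C.ka_spec hx hy).symm.trans h))

theorem ka_zero {x y : G} (hx : x ∈ Q) (hy : y ∈ Q) : yka sq x y = 0 ↔ x * y = y * x :=
  ⟨fun h => by rw [C.ka_spec hx hy, h, C.zero, one_mul], fun h => C.ka_eq hx hy (by rw [h, C.zero, one_mul])⟩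

theorem ka_mul {x y z : G} (hx : x ∈ Q) (hy : y ∈ Q) (hz : z ∈ Q) :
    yka sq x (y * z) = yka sq x y + yka sq x z := by
  refine C.ka_eq hx (mul_mem hy hz) ?_
  calc y * z * x = y * (z * x) := mul_assoc _ _ _
    _ = y * al (yka sq x z) * (x * z) := by rw [C.ka_spec hx hz, mul_assoc]
    _ = al (yka sq x z) * (y * x) * z := by rw [C.cen y hy]; group
    _ = _ := by rw [C.ka_spec hx hy, add_comm, C.add]; group

theorem ka_t {x : G} (hx : x ∈ Q) : yka sq x t = tau x := by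
  refine C.ka_eq hx C.tQ ?_
  have e : x * t = al (tau x) * (t * x) := by rw [← mul_assoc, ← C.cen t C.tQ, ← C.tr x hx]; group
  rw [e, ← mul_assoc, C.al_sq, one_mul]

theorem sq_mul_t {x : G} (hx : x ∈ Q) : sq (x * t) = sq x + tau x := by
  have := C.ka_t hx
  rw [yka, C.sq_t, add_zero] at this
  rw [← this, add_comm (sq (x * t)), ← add_assoc, y_self, zero_add]

theorem mul_al {x : G} (hx : YM Q al tau sq l x) (a : F4 × F4) : YM Q al tau sq l (x * al a) := by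
  have e : tau (x * al a) = tau x := by rw [C.tau_mul hx.1 (C.alQ a), C.tau_al, add_zero]
  refine ⟨mul_mem hx.1 (C.alQ a), ?_, fun h => ?_⟩
  · rw [e, ← hx.2.1]
    refine C.sq_eq (mul_mem hx.1 (C.alQ a)) ?_
    calc x * al a * (x * al a) = x * (al a * x) * al a := by group
      _ = x * x * (al a * al a) := by rw [← C.cen x hx.1]; group
      _ = _ := by rw [C.al_sq, mul_one, C.sqe x hx.1]
  · obtain ⟨p, hp⟩ := hx.2.2 (e ▸ h)
    exact ⟨p + a, by rw [C.add, hp]⟩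

theorem one_Y : YM Q al tau sq l 1 := by
  have e : tau 1 = 0 := (C.tau_zero (one_mem _)).2 (by group)
  exact ⟨one_mem _, by rw [e, smul_zero]; exact C.sq_eq (one_mem _) (by rw [C.zero, one_mul]),
    fun _ => ⟨0, C.zero.symm⟩⟩

theorem al_Y (a : F4 × F4) : YM Q al tau sq l (al a) := by simpa using C.mul_al (l := l) C.one_Y a

theorem di {x x₀ : G} (hx : x ∈ Q) (h₀ : x₀ ∈ Q) (e : tau x = tau x₀) : ∃ a, x = x₀ * al a ∨ x = x₀ * al a * t := by
  have e1 : tau (x₀⁻¹ * x) = 0 := by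
    have := C.tau_mul h₀ (mul_mem (inv_mem h₀) hx)
    rw [mul_inv_cancel_left, e] at this
    exact left_eq_add.1 this
  obtain ⟨a, ha⟩ := C.fix _ (mul_mem (inv_mem h₀) hx) ((C.tau_zero (mul_mem (inv_mem h₀) hx)).1 e1)
  refine ⟨a, ha.imp (fun h => ?_) fun h => ?_⟩
  · rw [← h, mul_inv_cancel_left]
  · rw [mul_assoc, ← h, mul_inv_cancel_left]

theorem same {x x₀ : G} (hx : YM Q al tau sq l x) (h₀ : YM Q al tau sq l x₀) (e : tau x = tau x₀) :
    ∃ a, x = x₀ * al a := by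
  obtain ⟨a, h | h⟩ := C.di hx.1 h₀.1 e
  · exact ⟨a, h⟩
  · have h1 := C.mul_al h₀ a
    have h2 : tau (x₀ * al a) = tau x₀ := by rw [C.tau_mul h₀.1 (C.alQ a), C.tau_al, add_zero]
    have h3 := C.sq_mul_t h1.1
    rw [← h, hx.2.1, h1.2.1, h2, e] at h3
    have h4 : tau x₀ = 0 := left_eq_add.1 h3
    obtain ⟨p, hp⟩ := hx.2.2 (e.trans h4)
    obtain ⟨q, hq⟩ := h₀.2.2 h4
    exact ⟨q + p, by rw [hq, C.add, ← mul_assoc, C.al_sq, one_mul, hp]⟩

variable (ex : ∀ p, ∃ x, YM Q al tau sq l x ∧ tau x = p)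
include ex

theorem alt {x : G} (hx : x ∈ Q) : YM Q al tau sq l x ∨ YM Q al tau sq l (x * t) := by
  obtain ⟨x₀, h₀, e⟩ := ex (tau x)
  obtain ⟨a, h | h⟩ := C.di hx h₀.1 e.symm
  · exact .inl (h ▸ C.mul_al h₀ a)
  · exact .inr (by rw [h, mul_assoc, C.tt, mul_one]; exact C.mul_al h₀ a)

theorem pair {x y : G} (hx : YM Q al tau sq l x) (hy : YM Q al tau sq l y) :
    yka sq x y = 0 ∨ yka sq x y = tau x + tau y := by
  have hxy := mul_mem hx.1 hy.1
  have e0 : l • (tau x + tau y) + l • tau x + l • tau y = 0 := by rw [add_assoc, ← smul_add, y_self]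
  rcases C.alt ex hxy with h | h
  · exact .inl (by rw [yka, h.2.1, hx.2.1, hy.2.1, C.tau_mul hx.1 hy.1, e0])
  · refine .inr ?_
    have h1 := h.2.1
    rw [C.sq_mul_t hxy, C.tau_mul hxy C.tQ, C.tau_t, add_zero, C.tau_mul hx.1 hy.1] at h1
    have h2 : sq (x * y) = tau x + tau y + l • (tau x + tau y) := by
      rw [← h1, add_comm (sq (x * y)), ← add_assoc, y_self, zero_add]
    rw [yka, h2, hx.2.1, hy.2.1, add_assoc, add_assoc, ← add_assoc (l • _), e0, add_zero]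

omit ex in
theorem mul_Y {x y : G} (hx : YM Q al tau sq l x) (hy : YM Q al tau sq l y) (h : x * y = y * x) :
    YM Q al tau sq l (x * y) := by
  have k := (C.ka_zero hx.1 hy.1).2 h
  rw [yka, add_assoc, hx.2.1, hy.2.1, ← smul_add, ← C.tau_mul hx.1 hy.1] at k
  refine ⟨mul_mem hx.1 hy.1, y_eq k, fun h0 => ?_⟩
  rw [C.tau_mul hx.1 hy.1] at h0
  obtain ⟨a, ha⟩ := C.same hy hx (y_eq h0).symm
  exact ⟨sq x + a, by rw [ha, ← mul_assoc, C.sqe x hx.1, C.add]⟩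

theorem triple {x y z : G} (hx : YM Q al tau sq l x) (hy : YM Q al tau sq l y) (hz : YM Q al tau sq l z)
    (h : y * z = z * y) (h1 : tau y ≠ tau z) (h2 : tau z ≠ 0) : x * y = y * x := by
  by_cases h0 : tau x = 0
  · obtain ⟨p, rfl⟩ := hx.2.2 h0
    exact (C.cen y hy.1 p).symm
  have k := C.pair ex hx (C.mul_Y hy hz h)
  rw [C.ka_mul hx.1 hy.1 hz.1, C.tau_mul hy.1 hz.1] at k
  rw [← C.ka_zero hx.1 hy.1]
  refine (C.pair ex hx hy).elim id fun k1 => ?_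
  rcases C.pair ex hx hz with k2 | k2
  · rw [k2, add_zero] at k
    refine k.elim id fun k => absurd ?_ h2
    rw [k1, ← add_assoc] at k
    exact left_eq_add.1 k
  · rw [k1, k2, add_add_add_comm, y_self, zero_add] at k
    exact k.elim (fun k => absurd (y_eq k) h1) fun k => absurd (right_eq_add.1 k) h0

theorem comm {w w' : G} (hw : YM Q al tau sq l w) (hw' : YM Q al tau sq l w') (h : w * w' = w' * w)
    (h1 : tau w ≠ tau w') (h2 : tau w ≠ 0) (h3 : tau w' ≠ 0) {x y : G} (hx : YM Q al tau sq l x)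
    (hy : YM Q al tau sq l y) : x * y = y * x := by
  by_cases e : tau y = tau w
  · obtain ⟨a, rfl⟩ := C.same hy hw e
    rw [← mul_assoc, C.triple ex hx hw hw' h h1 h3, mul_assoc, C.cen x hx.1, mul_assoc]
  · exact C.triple ex hx hy hw (C.triple ex hy hw hw' h h1 h3) e h2

end YCx

theorem y_ct_mul {ι : Heis F4 →* G} {x y : G} (hx : CT ι x) (hy : CT ι y) : CT ι (x * y) := fun p => by
  rw [mul_assoc, hy p, ← mul_assoc, hx p, mul_assoc]

theorem y_ct_inv {ι : Heis F4 →* G} {x : G} (hx : CT ι x) : CT ι x⁻¹ := fun p =>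
  (show Commute x (ι p) from hx p).inv_left.eq

theorem y_conj {ι : Heis F4 →* G} {L S : Subgroup G} {t h : G} (H : Loc ι L S t h) {n x : G} (hn : n ∈ L)
    {p s p' s' : Heis F4} (co : CO L t x) (tr : Tr ι t x p) (sq : x * x = ι s) (ep : n * ι p * n⁻¹ = ι p')
    (es : n * ι s * n⁻¹ = ι s') :
    CO L t (n * x * n⁻¹) ∧ Tr ι t (n * x * n⁻¹) p' ∧ n * x * n⁻¹ * (n * x * n⁻¹) = ι s' := by
  have c : Commute n t := H.tK n hn
  refine ⟨fun o ho h1 h2 => ?_, ?_, by rw [← es, ← sq]; group⟩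
  · have c1 : Commute n o := ho n hn
    exact ((c1.mul_left (co o ho h1 h2)).mul_left c1.inv_left).eq
  · calc n * x * n⁻¹ * t * (n * x * n⁻¹)⁻¹ = n * x * (n⁻¹ * t * n) * x⁻¹ * n⁻¹ := by group
      _ = n * (x * t * x⁻¹) * n⁻¹ := by rw [c.inv_left.eq]; group
      _ = n * t * n⁻¹ * (n * ι p * n⁻¹) := by rw [tr]; group
      _ = _ := by rw [ep, c.eq]; group

theorem y_comm_conj {n x a : G} (h : x * a = a * x) : n * x * n⁻¹ * (n * a * n⁻¹) = n * a * n⁻¹ * (n * x * n⁻¹) := by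
  calc _ = n * (x * a) * n⁻¹ := by group
    _ = _ := by rw [h]; group

theorem yS : YS.{u} := by
  intro G _ _ ι L S Q t h w l H HQ HW
  let al : F4 × F4 → G := fun p => ι ⟨p.1, 0, p.2⟩
  have cAA : ∀ p q : F4 × F4, (⟨p.1, 0, p.2⟩ : Heis F4) * ⟨q.1, 0, q.2⟩ = ⟨(p + q).1, 0, (p + q).2⟩ := by
    decide +kernel
  have add : ∀ p q, al (p + q) = al p * al q := fun p q => by simp only [al, ← map_mul, cAA]
  have one : ι ⟨0, 0, 0⟩ = 1 := map_one ι
  obtain ⟨tau, sq, hts⟩ : ∃ tau sq : G → F4 × F4, ∀ x ∈ Q, x * t * x⁻¹ = t * al (tau x) ∧ x * x = al (sq x) := by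
    have : ∀ x, ∃ p s : F4 × F4, x ∈ Q → x * t * x⁻¹ = t * al p ∧ x * x = al s := fun x => by
      by_cases hx : x ∈ Q
      · obtain ⟨-, -, ⟨a, c, h1⟩, a', c', h2⟩ := (HQ.iff x).1 hx
        exact ⟨(a, c), (a', c'), fun _ => ⟨h1, h2⟩⟩
      · exact ⟨0, 0, fun h => absurd h hx⟩
    choose tau sq hh using this
    exact ⟨tau, sq, hh⟩
  have tc : ∀ p, ι p * t = t * ι p := fun p => H.tK _ (H.mem p)
  have C : YCx Q t al tau sq :=
    { add := add
      inj := fun p q e => by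
        have := H.inj e
        exact Prod.ext (congrArg Heis.a this) (congrArg Heis.c this)
      alQ := fun p => (HQ.iff _).2 ⟨fun a c => by
          show al p * al (a, c) = al (a, c) * al p
          rw [← add, ← add, add_comm], fun o ho _ _ => ho _ (H.mem _),
        ⟨0, 0, by rw [Tr, one, tc, mul_one]; exact mul_inv_cancel_right _ _⟩, 0, 0, by rw [← add, y_self]; rfl⟩
      cen := fun x hx p => ((HQ.iff x).1 hx).1 _ _
      tQ := (HQ.iff _).2 ⟨fun a c => (tc _).symm, fun o _ h1 _ => h1.symm, ⟨0, 0, by rw [Tr, one]; group⟩,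
        0, 0, by rw [H.tt, one]⟩
      tt := H.tt
      tr := fun x hx => (hts x hx).1
      sqe := fun x hx => (hts x hx).2
      fix := fun x hx e => let ⟨a, c, h⟩ := HQ.fix x hx e; ⟨(a, c), h⟩ }
  have mk : ∀ x (p : F4 × F4), CA ι x → CO L t x → Tr ι t x ⟨p.1, 0, p.2⟩ → x * x = al (l • p) →
      (p = 0 → ∃ q, x = al q) → YM Q al tau sq l x ∧ tau x = p := fun x p h1 h2 h3 h4 h5 => by
    have hx : x ∈ Q := (HQ.iff x).2 ⟨h1, h2, ⟨_, _, h3⟩, _, _, h4⟩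
    have e := C.tau_eq hx h3
    exact ⟨⟨hx, by rw [e]; exact C.sq_eq hx h4, by rw [e]; exact h5⟩, e⟩
  have cj : ∀ n ∈ L, ∀ f : F4 × F4 → F4 × F4, (∀ p, n * al p * n⁻¹ = al (f p)) → (∀ p, f (l • p) = l • f p) →
      (∀ q, ∃ p, f p = q) → (∀ p, f p = 0 → p = 0) → ∀ x, YM Q al tau sq l x →
      YM Q al tau sq l (n * x * n⁻¹) ∧ tau (n * x * n⁻¹) = f (tau x) := fun n hn f f1 f2 f3 f4 x hx => by
    obtain ⟨a1, a2, a3⟩ := y_conj H hn ((HQ.iff x).1 hx.1).2.1 (C.tr x hx.1) (C.sqe x hx.1) (f1 _) (f1 _)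
    refine mk _ _ (fun a c => ?_) a1 a2 (by rw [a3, hx.2.1, ← f2]) fun e => ?_
    · obtain ⟨p, hp⟩ := f3 (a, c)
      show _ * al (a, c) = al (a, c) * _
      rw [← hp, ← f1]
      exact y_comm_conj (C.cen x hx.1 p)
    · obtain ⟨p, hp⟩ := hx.2.2 (f4 _ e)
      exact ⟨f p, by rw [hp, f1]⟩
  have cjh : ∀ x, YM Q al tau sq l x →
      YM Q al tau sq l (h * x * h⁻¹) ∧ tau (h * x * h⁻¹) = (om * (tau x).1, om * om * (tau x).2) :=
    cj h H.hL (fun p => (om * p.1, om * om * p.2)) (fun p => (H.ah _).trans (by simp only [dg, mul_zero, al]))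
      (by generalize l = l'; revert l'; decide +kernel) (by decide +kernel) (by decide +kernel)
  have cjb : ∀ b c x, YM Q al tau sq l x → YM Q al tau sq l (ι ⟨0, b, c⟩ * x * (ι ⟨0, b, c⟩)⁻¹) ∧
      tau (ι ⟨0, b, c⟩ * x * (ι ⟨0, b, c⟩)⁻¹) = ((tau x).1, (tau x).2 + (tau x).1 * b) := fun b c =>
    cj _ (H.mem _) (fun p => (p.1, p.2 + p.1 * b)) (fun p => by
      simp only [al, ← map_inv, ← map_mul]
      exact congrArg ι ((by decide +kernel : ∀ (b c : F4) (p : F4 × F4),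
        (⟨0, b, c⟩ * ⟨p.1, 0, p.2⟩ * (⟨0, b, c⟩)⁻¹ : Heis F4) = ⟨p.1, 0, p.2 + p.1 * b⟩) b c p))
      (by generalize l = l'; revert l' b; decide +kernel) (by revert b; decide +kernel) (by revert b; decide +kernel)
  have cth : ∀ x, CT ι x → CT ι (h * x * h⁻¹) := fun x hx p => by
    obtain ⟨q, rfl⟩ := (by decide +kernel : ∀ p, ∃ q, dg om om q = p) p
    rw [← H.ah]
    exact y_comm_conj (hx q)
  obtain ⟨w0, t0⟩ := mk w (0, 1) (fun a c => HW.ct _) HW.co HW.tr (by rw [HW.sq]; simp [al])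
    fun e => absurd e (by decide +kernel)
  obtain ⟨w1, t1⟩ := cjh w w0
  obtain ⟨w2, t2⟩ := cjh _ w1
  rw [t0] at t1
  rw [t1] at t2
  have wd : ∀ c, ∃ x, YM Q al tau sq l x ∧ CT ι x ∧ tau x = (0, c) := fun c => by
    rcases (by decide +kernel : ∀ c : F4, c = 0 ∨ c = 1 ∨ c = om * om ∨ c = om) c with rfl | rfl | rfl | rfl
    · exact ⟨1, C.one_Y, fun p => by group, (C.tau_zero (one_mem _)).2 (by group)⟩
    · exact ⟨w, w0, HW.ct, t0⟩
    · exact ⟨_, w1, cth _ HW.ct, t1.trans (by decide +kernel)⟩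
    · exact ⟨_, w2, cth _ (cth _ HW.ct), t2.trans (by decide +kernel)⟩
  have ex : ∀ p, ∃ x, YM Q al tau sq l x ∧ tau x = p := by
    rintro ⟨a, c⟩
    by_cases ha : a = 0
    · obtain ⟨x, h1, -, h2⟩ := wd c
      exact ⟨x, h1, ha ▸ h2⟩
    obtain ⟨x, h1, h2, h3⟩ := wd a
    obtain ⟨m, hm, m1, m2⟩ := H.mA
    have b1 := C.tr x h1.1
    have b2 := C.sqe x h1.1
    rw [h1.2.1] at b2
    rw [h3] at b1 b2
    obtain ⟨a1, a2, a3⟩ := y_conj H hm (p := ⟨0, 0, a⟩) (s := ⟨0, 0, l * a⟩) ((HQ.iff x).1 h1.1).2.1 b1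
      (by rw [b2]; simp [al]) (m1 _) (m1 _)
    obtain ⟨c1, c2⟩ := mk _ (a, 0) (fun a' c' => by
      obtain ⟨p, hp⟩ := m2 a' c'
      rw [hp]
      exact y_comm_conj (h2 p)) a1 a2 (by rw [a3]; simp [al]) fun e => absurd (congrArg Prod.fst e) ha
    obtain ⟨b, hb⟩ := (by decide +kernel : ∀ a c : F4, a ≠ 0 → ∃ b, 0 + a * b = c) a c ha
    obtain ⟨d1, d2⟩ := cjb b 0 _ c1
    exact ⟨_, d1, by rw [d2, c2, hb]⟩
  have cm : ∀ x, YM Q al tau sq l x → ∀ y, YM Q al tau sq l y → x * y = y * x := fun x hx y hy =>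
    C.comm ex w0 w1 HW.cm (by rw [t0, t1]; decide +kernel) (by rw [t0]; decide +kernel)
      (by rw [t1]; decide +kernel) hx hy
  have cb : ∀ b c, b ≠ 0 → ∀ x, YM Q al tau sq l x → CT ι (x * (ι ⟨0, b, c⟩ * x * (ι ⟨0, b, c⟩)⁻¹)) := by
    intro b c hb x hx
    obtain ⟨d1, d2⟩ := cjb b c x hx
    have bb : ι ⟨0, b, c⟩ * ι ⟨0, b, c⟩ = 1 := by
      rw [← map_mul, ← map_one ι]
      exact congrArg ι ((by decide +kernel : ∀ b c : F4, (⟨0, b, c⟩ * ⟨0, b, c⟩ : Heis F4) = 1) b c)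
    have hz := C.mul_Y hx d1 (cm _ hx _ d1)
    obtain ⟨v, v1, v2, v3⟩ := wd ((tau x).1 * b)
    obtain ⟨a, ha⟩ := C.same hz v1 (by
      rw [C.tau_mul hx.1 d1.1, d2, v3]
      exact (by decide +kernel : ∀ (p : F4 × F4) (b : F4), p + (p.1, p.2 + p.1 * b) = (0, p.1 * b)) _ _)
    have c1 : ι ⟨0, b, c⟩ * (v * al a) = v * al a * ι ⟨0, b, c⟩ := by
      rw [← ha]
      conv_lhs => rw [cm _ hx _ d1]
      generalize ι ⟨0, b, c⟩ = β at bb
      calc _ = β * β * x * β⁻¹ * x := by group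
        _ = x * (β * β) * β⁻¹ * x := by rw [bb, one_mul, mul_one]
        _ = _ := by group
    rw [← mul_assoc, ← v2, mul_assoc, mul_assoc, mul_right_inj] at c1
    simp only [al, ← map_mul] at c1
    have c2 := (by decide +kernel : ∀ (b c : F4) (a : F4 × F4), b ≠ 0 →
      (⟨0, b, c⟩ * ⟨a.1, 0, a.2⟩ : Heis F4) = ⟨a.1, 0, a.2⟩ * ⟨0, b, c⟩ → a.1 = 0) b c a hb (H.inj c1)
    rw [ha]
    refine y_ct_mul v2 fun p => ?_
    simp only [al, ← map_mul, c2]
    exact congrArg ι ((by decide +kernel : ∀ (c : F4) (p : Heis F4), ⟨0, 0, c⟩ * p = p * ⟨0, 0, c⟩) _ p)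
  have l0 : l = 0 := by
    obtain ⟨x, hx, e⟩ := ex (1, 0)
    have z1 := cb 1 0 (by decide +kernel) x hx
    have z2 := cb om 0 (by decide +kernel) x hx
    have z3 := cb (1 + om) 0 (by decide +kernel) x hx
    have e3 : ι ⟨0, 1 + om, 0⟩ = ι ⟨0, 1, 0⟩ * ι ⟨0, om, 0⟩ := by
      rw [← map_mul]; exact congrArg ι (by decide +kernel)
    have c1 := cm _ hx _ (cjb 1 0 x hx).1
    have c2 := z2 ⟨0, 1, 0⟩
    rw [e3] at z3
    have key := y_ct_mul (y_ct_mul z3 (y_ct_inv z2)) z1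
    generalize ι ⟨0, 1, 0⟩ = b1 at key c1 c2
    generalize ι ⟨0, om, 0⟩ = b2 at key c2
    have k2 : x * (b1 * b2 * x * (b1 * b2)⁻¹) * (x * (b2 * x * b2⁻¹))⁻¹ * (x * (b1 * x * b1⁻¹)) = x * x := by
      calc _ = x * (b1 * x * b1⁻¹)⁻¹ * (b1 * (x * (b2 * x * b2⁻¹))) * b1⁻¹ * (x * (b2 * x * b2⁻¹))⁻¹ *
            (x * (b1 * x * b1⁻¹)) := by group
        _ = x * (b1 * x * b1⁻¹)⁻¹ * (x * (b1 * x * b1⁻¹)) := by rw [← c2]; group
        _ = _ := by rw [c1]; group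
    rw [k2, C.sqe x hx.1, hx.2.1, e] at key
    have k3 := key ⟨0, 1, 0⟩
    simp only [al, ← map_mul] at k3
    exact (by decide +kernel : ∀ l : F4, (⟨(l • ((1, 0) : F4 × F4)).1, 0, (l • ((1, 0) : F4 × F4)).2⟩ * ⟨0, 1, 0⟩ :
      Heis F4) = ⟨0, 1, 0⟩ * ⟨(l • ((1, 0) : F4 × F4)).1, 0, (l • ((1, 0) : F4 × F4)).2⟩ → l = 0) l (H.inj k3)
  have s1 : ∀ x, YM Q al tau sq l x → x * x = 1 := fun x hx => by
    rw [C.sqe x hx.1, hx.2.1, l0, zero_smul, C.zero]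
  let Y : Subgroup G :=
    { carrier := {x | YM Q al tau sq l x}
      one_mem' := C.one_Y
      mul_mem' := fun hx hy => C.mul_Y hx hy (cm _ hx _ hy)
      inv_mem' := fun hx => by rw [← eq_inv_of_mul_eq_one_left (s1 _ hx)]; exact hx }
  refine ⟨Y, s1, fun a c => C.al_Y (a, c), w0, fun x hx => ((HQ.iff x).1 hx.1).2.1, fun x hx => ⟨_, _, C.tr x hx.1⟩,
    fun a c => ?_, fun x hx e => ?_, fun x hx => (cjh x hx).1, fun x hx b c => ?_, fun x h1 h2 ⟨a, c, h3⟩ => ?_⟩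
  · obtain ⟨x, hx, e⟩ := ex (a, c)
    exact ⟨x, hx, (C.tr x hx.1).trans (by rw [e])⟩
  · obtain ⟨p, hp⟩ := hx.2.2 ((C.tau_zero hx.1).2 e)
    exact ⟨_, _, hp⟩
  · by_cases hb : b = 0
    · subst hb
      exact ⟨1, one_mem _, fun p => by group, by
        rw [← show _ = ι ⟨0, 0, c⟩ * x from C.cen x hx.1 (0, c), mul_one]; exact mul_inv_cancel_right _ _⟩
    · have d1 := (cjb b c x hx).1
      exact ⟨_, C.mul_Y hx d1 (cm _ hx _ d1), cb b c hb x hx, by rw [← mul_assoc x x, s1 x hx, one_mul]⟩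
  · obtain ⟨y, hy, e⟩ := ex (a, c)
    exact C.alt ex (HQ.two x h1 h2 y hy.1 (by rw [C.tr y hy.1, e]; exact h3))

end CL.L34
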